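import Cfsg.Agent.H300.D8Base
import Cfsg.Agent.OddHalf.Orders.PSpFi23
import Cfsg.Agent.S0243
import Cfsg.Agent.S0246
import Cfsg.Agent.S0244
import Cfsg.Agent.S0280
import Cfsg.Agent.S0256

/-!
# 2-parts of the orders of some classical groups in characteristic two; elements of order four (helper300)
-/

set_option autoImplicit false

namespace Cfsg.Agent.H300.D8Card

open Matrix Cfsg Cfsg.Agent.H300.D8Base

/-! ### elements of order four -/

theorem sq_of_four {F : Type*} [Field F] [CharP F 2] {n : Type*} [Fintype n] [DecidableEq n] (hn : Fintype.card n = 2)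
    {M : Matrix n n F} (hd : M.det = 1) (h4 : M ^ 4 = 1) : M ^ 2 = 1 := by
  have h1 := Matrix.aeval_self_charpoly M
  rw [Matrix.charpoly_of_card_eq_two M hn] at h1
  simp only [map_add, map_sub, map_mul, map_pow, Polynomial.aeval_X, Polynomial.aeval_C, hd, map_one] at h1
  rw [← Algebra.smul_def] at h1
  set t := M.trace with ht
  have h00 : ∀ N : Matrix n n F, N + N = 0 := by
    intro N
    ext i j
    exact CharTwo.add_self_eq_zero _
  have h2 : M ^ 2 = t • M + 1 := by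
    have h3 : M ^ 2 - (t • M + 1) = 0 := by
      have h5 : M ^ 2 - (t • M + 1) = (M ^ 2 - t • M + 1) - (1 + 1) := by abel
      rw [h5, h1, h00, sub_zero]
    exact sub_eq_zero.1 h3
  have h3 : M ^ 4 = (t * t) • M ^ 2 + 1 := by
    have h5 : M ^ 4 = M ^ 2 * M ^ 2 := by rw [← pow_add]
    have h6 : (t • M + 1) * (t • M + 1) = (t * t) • (M * M) + (t • M + t • M) + 1 := by
      rw [add_mul, mul_add, one_mul, mul_one, smul_mul_smul_comm]
      abel
    rw [h5]
    nth_rewrite 1 2 [h2]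
    rw [h6, h00, add_zero, pow_two]
  rw [h4] at h3
  have h5 : (t * t) • M ^ 2 = 0 := by
    have := add_right_cancel (a := (0 : Matrix n n F)) (b := 1) (c := (t * t) • M ^ 2) (by rw [zero_add]; exact h3)
    exact this.symm
  have hdet : (M ^ 2).det = 1 := by rw [det_pow, hd, one_pow]
  rcases smul_eq_zero.1 h5 with h6 | h6
  · have h7 : t = 0 := mul_self_eq_zero.1 h6
    rw [h2, h7, zero_smul, zero_add]
  · exfalso
    have hne : Nonempty n := by
      rw [← Fintype.card_pos_iff, hn]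
      norm_num
    rw [h6, det_zero] at hdet
    exact zero_ne_one hdet

section noFour

variable {F : Type*} [Field F] [CharP F 2]

theorem one_of_sq {r : F} (h : r ^ 2 = 1) : r = 1 := by
  have h1 : (r - 1) * (r - 1) = 0 := by
    have h2 : (2 : F) = 0 := CharTwo.two_eq_zero
    linear_combination h - (r - 1) * h2
  exact sub_eq_zero.1 (mul_self_eq_zero.1 h1)

theorem center_sl_two {g : Matrix.SpecialLinearGroup (Fin 2) F}
    (h : g ∈ Subgroup.center (Matrix.SpecialLinearGroup (Fin 2) F)) : g = 1 := by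
  obtain ⟨r, hr, h1⟩ := Matrix.SpecialLinearGroup.mem_center_iff.1 h
  rw [Fintype.card_fin] at hr
  have h2 := one_of_sq hr
  rw [h2, map_one] at h1
  exact Subtype.ext h1.symm

theorem noFour_psl : NoFour (Matrix.ProjectiveSpecialLinearGroup (Fin 2) F) := by
  intro g hg
  obtain ⟨g, rfl⟩ := QuotientGroup.mk_surjective g
  change ((g ^ 4 : Matrix.SpecialLinearGroup (Fin 2) F) : Matrix.ProjectiveSpecialLinearGroup (Fin 2) F) = 1 at hg
  rw [QuotientGroup.eq_one_iff] at hg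
  have h1 := congrArg Subtype.val (center_sl_two hg)
  have h2 : ((g : Matrix (Fin 2) (Fin 2) F)) ^ 4 = 1 := h1
  have h3 := sq_of_four (Fintype.card_fin 2) g.2 h2
  have h4 : g ^ 2 = 1 := Subtype.ext h3
  change ((g ^ 2 : Matrix.SpecialLinearGroup (Fin 2) F) : Matrix.ProjectiveSpecialLinearGroup (Fin 2) F) = 1
  rw [h4]
  rfl

theorem noFour_psp [Fintype F] : NoFour (PSp 1 F) := by
  have hZ : Subgroup.center ↥(Matrix.symplecticGroup (Fin 1) F) = ⊥ := by
    rw [Subgroup.eq_bot_iff_card, S0246.result (F := F) rfl 1 le_rfl]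
    have h1 : Even (Fintype.card F) := by
      rw [even_iff_two_dvd]
      exact CharP.cast_eq_zero_iff F 2 (Fintype.card F) |>.1 (FiniteField.cast_card_eq_zero F)
    have h2 : Odd (Fintype.card F - 1) := Nat.Even.sub_odd Fintype.card_pos h1 odd_one
    exact h2.coprime_two_left
  intro g hg
  obtain ⟨g, rfl⟩ := QuotientGroup.mk_surjective g
  change ((g ^ 4 : ↥(Matrix.symplecticGroup (Fin 1) F)) : PSp 1 F) = 1 at hg
  rw [QuotientGroup.eq_one_iff, hZ, Subgroup.mem_bot] at hg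
  have h2 : ((g : Matrix (Fin 1 ⊕ Fin 1) (Fin 1 ⊕ Fin 1) F)) ^ 4 = 1 := congrArg Subtype.val hg
  have h3 := sq_of_four (by simp) ((S0244.result _).1 g.2) h2
  have h4 : g ^ 2 = 1 := Subtype.ext h3
  change ((g ^ 2 : ↥(Matrix.symplecticGroup (Fin 1) F)) : PSp 1 F) = 1
  rw [h4]
  rfl

end noFour

/-! ### orders -/

section orders

theorem even_card {F : Type*} [Field F] [Fintype F] [CharP F 2] : Even (Fintype.card F) := by
  rw [even_iff_two_dvd]
  exact CharP.cast_eq_zero_iff F 2 (Fintype.card F) |>.1 (FiniteField.cast_card_eq_zero F)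

theorem card_pow {F : Type*} [Field F] [Fintype F] [CharP F 2] : ∃ k, 1 ≤ k ∧ Fintype.card F = 2 ^ k := by
  have : Fact (Nat.Prime 2) := ⟨Nat.prime_two⟩
  obtain ⟨k, -, hk⟩ := FiniteField.card F 2
  exact ⟨k, k.2, hk⟩

/-- `q` a power of two, `q ≠ 2`: `4 ∣ q` -/
theorem four_dvd {q k : ℕ} (h1 : 1 ≤ k) (hq : q = 2 ^ k) (h2 : q ≠ 2) : 4 ∣ q := by
  have hk : k ≠ 1 := by
    rintro rfl
    exact h2 (by rw [hq]; norm_num)
  have h3 : 2 ≤ k := by omega
  rw [hq]
  exact pow_dvd_pow 2 h3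

theorem of_odd_mul {d c : ℕ} (hd : Odd d) (h : 16 ∣ d * c) : 16 ∣ c := by
  have h1 : Nat.Coprime 16 d := by
    have : Nat.Coprime (2 ^ 4) d := Nat.Coprime.pow_left 4 hd.coprime_two_left
    exact this
  exact h1.dvd_of_dvd_mul_left h

/-- `16 ∣ |PSL_n(q)|` -/
theorem psl {F : Type*} [Field F] [Fintype F] [CharP F 2] {n : ℕ} (hn : 3 ≤ n)
    (h : ¬ (n = 3 ∧ Fintype.card F = 2)) : 16 ∣ Nat.card (Matrix.ProjectiveSpecialLinearGroup (Fin n) F) := by
  obtain ⟨k, hk, hq⟩ := card_pow (F := F)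
  have he := even_card (F := F)
  have h1 := S0243.result (F := F) rfl n (by omega)
  set q := Fintype.card F with hqd
  have hodd : Odd (q - 1) := Nat.Even.sub_odd Fintype.card_pos he odd_one
  have hodd2 : Odd (Nat.gcd n (q - 1)) := hodd.of_dvd_nat (Nat.gcd_dvd_right _ _)
  refine of_odd_mul hodd (of_odd_mul hodd2 ?_)
  rw [h1, Fin.prod_univ_eq_prod_range (fun i => q ^ n - q ^ i) n]
  rcases hn.lt_or_eq with hn4 | hn3
  · have h2 : ({1, 3} : Finset ℕ) ⊆ Finset.range n := by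
      intro i hi
      rw [Finset.mem_insert, Finset.mem_singleton] at hi
      rw [Finset.mem_range]
      omega
    refine Dvd.dvd.trans ?_ (Finset.prod_dvd_prod_of_subset _ _ _ h2)
    rw [Finset.prod_pair (by norm_num)]
    have h3 : 2 ∣ q ^ n - q ^ 1 := Nat.dvd_sub (dvd_pow he.two_dvd (by omega)) (dvd_pow he.two_dvd (by omega))
    have h4 : 8 ∣ q ^ n - q ^ 3 := by
      have h5 : 8 ∣ q ^ 3 := by
        have : (2 : ℕ) ^ 3 ∣ q ^ 3 := pow_dvd_pow_of_dvd he.two_dvd 3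
        exact this
      exact Nat.dvd_sub (h5.trans (pow_dvd_pow _ (by omega))) h5
    exact mul_dvd_mul h3 h4
  · subst hn3
    have h2 : ({1, 2} : Finset ℕ) ⊆ Finset.range 3 := by decide
    refine Dvd.dvd.trans ?_ (Finset.prod_dvd_prod_of_subset _ _ _ h2)
    rw [Finset.prod_pair (by norm_num)]
    have h4 : 4 ∣ q := four_dvd hk hq (fun h5 => h ⟨rfl, h5⟩)
    have h5 : 4 ∣ q ^ 3 - q ^ 1 := Nat.dvd_sub (dvd_pow h4 (by norm_num)) (dvd_pow h4 (by norm_num))
    have h6 : 4 ∣ q ^ 3 - q ^ 2 := Nat.dvd_sub (dvd_pow h4 (by norm_num)) (dvd_pow h4 (by norm_num))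
    exact mul_dvd_mul h5 h6

/-- `16 ∣ |PSU_n(q)|` -/
theorem psu {F : Type*} [Field F] [Fintype F] [CharP F 2] {n q : ℕ} (hF : Fintype.card F = q ^ 2) (hn : 3 ≤ n)
    (h : ¬ (n = 3 ∧ q = 2)) : 16 ∣ Nat.card (PSU n F q) := by
  obtain ⟨k, hk, hq⟩ := card_pow (F := F)
  obtain ⟨j, hj⟩ : ∃ j, q = 2 ^ j := by
    rw [hF] at hq
    have h1 : q ∣ 2 ^ k := by rw [← hq]; exact dvd_pow_self q two_ne_zero
    obtain ⟨j, -, hj⟩ := (Nat.dvd_prime_pow Nat.prime_two).1 h1
    exact ⟨j, hj⟩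
  have hj1 : 1 ≤ j := by
    rcases Nat.eq_zero_or_pos j with h0 | h0
    · exfalso
      rw [h0, pow_zero] at hj
      rw [hj, one_pow] at hF
      have := Fintype.one_lt_card (α := F)
      omega
    · exact h0
  have he : Even q := by
    rw [hj]
    exact (Nat.even_pow.2 ⟨even_two, by omega⟩)
  have h1 := S0280.result hF n (by omega)
  have hodd : Odd (q + 1) := he.add_one
  have hodd2 : Odd (Nat.gcd n (q + 1)) := hodd.of_dvd_nat (Nat.gcd_dvd_right _ _)
  refine of_odd_mul hodd (of_odd_mul hodd2 ?_)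
  rw [h1]
  refine Dvd.dvd.mul_right ?_ _
  rcases hn.lt_or_eq with hn4 | hn3
  · have h2 : 4 ≤ n * (n - 1) / 2 := by
      rw [Nat.le_div_iff_mul_le (by norm_num)]
      calc 4 * 2 ≤ 4 * 3 := by norm_num
        _ ≤ n * (n - 1) := Nat.mul_le_mul hn4 (by omega)
    have h3 : (2 : ℕ) ^ 4 ∣ q ^ 4 := pow_dvd_pow_of_dvd he.two_dvd 4
    exact (show 16 ∣ q ^ 4 from h3).trans (pow_dvd_pow _ h2)
  · subst hn3
    have h4 : 4 ∣ q := four_dvd hj1 hj (fun h5 => h ⟨rfl, h5⟩)
    have h3 : (4 : ℕ) ^ 3 ∣ q ^ 3 := pow_dvd_pow_of_dvd h4 3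
    exact (show 16 ∣ 4 ^ 3 by norm_num).trans h3

/-- `16 ∣ |PSp_2m(q)|` -/
theorem psp {F : Type*} [Field F] [Fintype F] [CharP F 2] {m : ℕ} (hm : 2 ≤ m) : 16 ∣ Nat.card (PSp m F) := by
  have he := even_card (F := F)
  have h1 := OddHalf.Orders.card_psp (F := F) m (by omega)
  have hodd : Odd (Fintype.card F - 1) := Nat.Even.sub_odd Fintype.card_pos he odd_one
  have hodd2 : Odd (OddHalf.Orders.spDen (Fintype.card F)) := hodd.of_dvd_nat (Nat.gcd_dvd_right _ _)
  refine of_odd_mul hodd2 ?_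
  rw [h1]
  refine Dvd.dvd.mul_right ?_ _
  have h3 : (2 : ℕ) ^ 4 ∣ Fintype.card F ^ 4 := pow_dvd_pow_of_dvd he.two_dvd 4
  exact (show 16 ∣ Fintype.card F ^ 4 from h3).trans (pow_dvd_pow _ (by nlinarith))

end orders

end Cfsg.Agent.H300.D8Card
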