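import Cfsg.Agent.H300.D8Three
import Cfsg.Agent.H300.D8Card
import Cfsg.Agent.H300.RankSp4
import Cfsg.Agent.H300.RankAlt
import Cfsg.Agent.H292.PslTwo
import Cfsg.Agent.H292.PsuTwo
import Cfsg.Agent.H292.PspTwo
import Cfsg.Agent.H829.ExcComp
import Cfsg.Agent.S0249
import Cfsg.Agent.S0270
import Cfsg.Agent.S0282
import Cfsg.Agent.S0247
import Cfsg.Agent.S0822

/-!
# Components with dihedral Sylow 2-subgroups of order 8: the classical groups in characteristic two (helper300)

* `Concl K A` : sectional 2-rank at most 4, or `A ≅ A₆` and `K ≅ PSp₄(4)`, `U₅(2)`, `L₅(2)`;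
* `Row K` : for all involutory automorphisms;
* `row_psl`, `row_psu`, `row_psp`.
-/

set_option autoImplicit false

namespace Cfsg.Agent.H300.D8Row

open Subgroup Cfsg Cfsg.Agent.H300.D8Base Cfsg.Agent.H292.Out Cfsg.Agent.H284.CharTwoComp

universe u v

/-- the conclusion -/
def Concl (K : Type u) (A : Type v) [Group K] [Group A] : Prop :=
  SectionalPRankLE 2 4 K ∨ (Nonempty (A ≃* ↥(alternatingGroup (Fin 6))) ∧
    ((∃ (F : Type) (_ : Field F) (_ : Fintype F), Fintype.card F = 4 ∧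
        (Nonempty (K ≃* PSp 2 F) ∨ Nonempty (K ≃* PSU 5 F 2))) ∨
      (∃ (F : Type) (_ : Field F) (_ : Fintype F), Fintype.card F = 2 ∧
        Nonempty (K ≃* Matrix.ProjectiveSpecialLinearGroup (Fin 5) F))))

theorem Concl.congr {K K' : Type*} {A A' : Type*} [Group K] [Finite K] [Group K'] [Group A] [Group A'] (e : K ≃* K')
    (f : A ≃* A') (h : Concl K A) : Concl K' A' := by
  rcases h with h | ⟨⟨a⟩, ⟨F, i1, i2, hF, (⟨⟨g⟩⟩ | ⟨⟨g⟩⟩)⟩ | ⟨F, i1, i2, hF, ⟨g⟩⟩⟩
  · exact Or.inl (GH.Rank.of_injective h e.symm.toMonoidHom e.symm.injective)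
  · exact Or.inr ⟨⟨f.symm.trans a⟩, Or.inl ⟨F, i1, i2, hF, Or.inl ⟨e.symm.trans g⟩⟩⟩
  · exact Or.inr ⟨⟨f.symm.trans a⟩, Or.inl ⟨F, i1, i2, hF, Or.inr ⟨e.symm.trans g⟩⟩⟩
  · exact Or.inr ⟨⟨f.symm.trans a⟩, Or.inr ⟨F, i1, i2, hF, ⟨e.symm.trans g⟩⟩⟩

/-- the statement for all involutory automorphisms of `K` -/
def Row (K : Type u) [Group K] : Prop :=
  ∀ x : MulAut K, x ^ 2 = 1 → x ≠ 1 → ∀ A : Subgroup ↥(fixedSubgroup x), IsComponent A → D8 ↥A → Concl K ↥A

theorem Row.congr {K K' : Type*} [Group K] [Finite K] [Group K'] (e : K ≃* K') (h : Row K) : Row K' := by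
  intro x hx hx1 A hA hD
  obtain ⟨y, hy⟩ : ∃ y : MulAut K, y = (MulAut.congr e).symm x := ⟨_, rfl⟩
  have hxy : MulAut.congr e y = x := by rw [hy, MulEquiv.apply_symm_apply]
  subst hxy
  have h2 : y ^ 2 = 1 := by
    rw [← map_pow] at hx
    exact (MulAut.congr e).injective (by rw [hx, map_one])
  have h3 : y ≠ 1 := by
    rintro rfl
    exact hx1 (map_one _)
  have f := CpAut.fixEquiv e y
  have g := A.equivMapOfInjective f.symm.toMonoidHom f.symm.injective
  have h4 := h y h2 h3 (A.map f.symm.toMonoidHom)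
    (Cfsg.Agent.SignalizersComponents.Components.isComponent_map_equiv f.symm hA) (hD.congr g)
  exact h4.congr e g.symm

/-- the centralizers of the involutions of a simple group of Lie type in characteristic two -/
theorem act {K : Type u} [Group K] [Finite K] [IsSimpleGroup K] (hna : ¬ IsMulCommutative K) (hK : IsChevSimple 2 K) :
    ACT K := fun _ hu =>
  Cfsg.Agent.EvenType.CharTwoCent.char2_centralizer (Cfsg.Agent.EvenType.ChevTwo.charTwo hna hK) hu

/-- `A` simple, `A ≅ L₃(2)` -/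
theorem rank_three {K : Type u} [Group K] [Finite K] (h : ACT K) {x : MulAut K} (hx : x ^ 2 = 1) (hx1 : x ≠ 1)
    {A : Subgroup ↥(fixedSubgroup x)} (hA : IsComponent A) {F : Type*} [Field F] [Fintype F] (hF : Fintype.card F = 2)
    (e : ↥A ≃* Matrix.ProjectiveSpecialLinearGroup (Fin 3) F) : SectionalPRankLE 2 4 K := by
  obtain ⟨-, h1, h2, -⟩ := of_fix h (by rw [← pow_two, hx]) hA
  exact rank_of_four (by rw [← pow_two, hx]) hx1 h1 h2 (D8Three.tight hF) e

/-- `PSp₄(2)` -/
theorem comp_six {K : Type u} [Group K] {x : MulAut K} {F : Type*} [Field F] [Fintype F] (hF : Fintype.card F = 2)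
    (h : Core x (PSp 2 F)) {A : Subgroup ↥(fixedSubgroup x)} (hA : IsComponent A) :
    Nonempty (↥A ≃* ↥(alternatingGroup (Fin 6))) := by
  have h2 := D8Three.charTwo hF
  have hZ : center ↥(Matrix.symplecticGroup (Fin 2) F) = ⊥ := by
    rw [Subgroup.eq_bot_iff_card, S0246.result (F := F) rfl 2 (by norm_num), hF]
    rfl
  obtain ⟨e⟩ := S0247.result hF
  have e1 : PSp 2 F ≃* Equiv.Perm (Fin 6) :=
    ((QuotientGroup.quotientMulEquivOfEq hZ).trans QuotientGroup.quotientBot).trans e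
  have h3 : Core x (Equiv.Perm (Fin 6)) := h.congr e1.symm
  have h4 := core_derived h3
  have h5 : commutator (Equiv.Perm (Fin 6)) = alternatingGroup (Fin 6) :=
    alternatingGroup.commutator_perm_eq (by simp)
  have h6 : Core x ↥(alternatingGroup (Fin 6)) := h4.congr (MulEquiv.subgroupCongr h5.symm)
  have : IsSimpleGroup ↥(alternatingGroup (Fin 6)) := alternatingGroup.isSimpleGroup (by simp)
  exact h6.comp hA

/-- `E` solvable, without elements of order four, simple of order divisible by 16, `L₃(2)`: -/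
theorem of_simple {K : Type u} [Group K] {x : MulAut K} {E : Type v} [Group E] [IsSimpleGroup E] (h : Core x E)
    (h16 : 16 ∣ Nat.card E) {A : Subgroup ↥(fixedSubgroup x)} (hA : IsComponent A) (hD : D8 ↥A) [Finite ↥A] :
    False := by
  obtain ⟨e⟩ := h.comp hA
  apply hD.not_dvd
  rwa [Nat.card_congr e.toEquiv]

theorem of_noFour {K : Type u} [Group K] {x : MulAut K} {E : Type v} [Group E] (h : Core x E)
    (h4 : NoFour E) {A : Subgroup ↥(fixedSubgroup x)} (hA : IsComponent A) (hD : D8 ↥A) : False := by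
  obtain ⟨g, hg⟩ := core_embed h hA
  exact hD.not_noFour (h4.of_injective g hg)

/-- a group with a component in a subgroup is not commutative -/
theorem not_comm {K : Type u} [Group K] {x : MulAut K} {A : Subgroup ↥(fixedSubgroup x)} (hA : IsComponent A) :
    ¬ IsMulCommutative K := by
  intro h
  apply SignalizersComponents.Components.quasisimple_not_isSolvable hA.2
  have h1 : ∀ a b : ↥A, a * b = b * a := fun a b =>
    Subtype.ext (Subtype.ext (h.is_comm.comm ((a : ↥(fixedSubgroup x)) : K) ((b : ↥(fixedSubgroup x)) : K)))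
  exact Group.isSolvable_of_comm h1

/-- the characteristic of a subfield -/
theorem charTwo_of_sq {E : Type*} [Field E] [Fintype E] {q c : ℕ} (hq : c = 2 ^ q)
    (h : c = Fintype.card E ^ 2) : CharP E 2 := by
  have : Fact (Nat.Prime 2) := ⟨Nat.prime_two⟩
  have h1 : Fintype.card E ∣ 2 ^ q := by
    rw [← hq, h]
    exact dvd_pow_self _ two_ne_zero
  obtain ⟨j, -, hj⟩ := (Nat.dvd_prime_pow Nat.prime_two).1 h1
  exact charP_of_card_eq_prime_pow hj

section rows

variable {F : Type} [Field F] [Fintype F] [CharP F 2]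

/-- the symplectic cores -/
theorem of_psp {K : Type u} [Group K] [Finite K] {x : MulAut K} {E : Type v} [Field E] [Fintype E] {m : ℕ} (h : Core x (PSp m E))
    [CharP E 2] (hm : 1 ≤ m) {A : Subgroup ↥(fixedSubgroup x)} (hA : IsComponent A) (hD : D8 ↥A) :
    m = 2 ∧ Fintype.card E = 2 ∧ Nonempty (↥A ≃* ↥(alternatingGroup (Fin 6))) := by
  by_cases h1 : m = 1
  · subst h1
    exact (of_noFour h D8Card.noFour_psp hA hD).elim
  · by_cases h2 : m = 2 ∧ Fintype.card E = 2
    · obtain ⟨rfl, h2⟩ := h2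
      exact ⟨rfl, h2, comp_six h2 h hA⟩
    · exfalso
      have h3 : IsSimpleGroup (PSp m E) := S0270.result m (by omega) (by
        intro h3
        have h4 : Fintype.card E ≠ 2 := fun h5 => h2 ⟨h3, h5⟩
        have := Fintype.one_lt_card (α := E)
        omega)
      exact of_simple h (D8Card.psp (by omega)) hA hD

theorem row_psl {n : ℕ} (hn : 2 ≤ n) (h2 : n = 2 → 4 ≤ Fintype.card F) :
    Row (Matrix.ProjectiveSpecialLinearGroup (Fin n) F) := by
  intro x hx hx1 A hA hD
  have hchev : IsChevSimple 2 (Matrix.ProjectiveSpecialLinearGroup (Fin n) F) :=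
    Or.inl (Or.inl ⟨F, inferInstance, inferInstance, inferInstance, n, hn, h2, ⟨MulEquiv.refl _⟩⟩)
  have hs : IsSimpleGroup (Matrix.ProjectiveSpecialLinearGroup (Fin n) F) := by
    rcases hn.eq_or_lt with h3 | h3
    · subst h3
      exact Matrix.ProjectiveSpecialLinearGroup.rank_two_simple (by rw [Nat.card_eq_fintype_card]; exact h2 rfl)
    · exact S0249.result n h3
  have hna := not_comm hA
  rcases H292.PslTwo.out hn hx hx1 with ⟨g, rfl⟩ | h | ⟨F₀, i1, i2, hc, h⟩ | ⟨hn3, q, hq, h⟩ | ⟨hn3, m, hm, h⟩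
  · exact (H829.ExcComp.no_comp_inner hna hchev hx hx1 hA).elim
  · exact (no_comp_cen (act hna hchev) hx h hA).elim
  · obtain ⟨k, -, hk⟩ := D8Card.card_pow (F := F)
    have hc2 : CharP F₀ 2 := charTwo_of_sq hk hc
    by_cases h3 : n = 2
    · subst h3
      exact (of_noFour h D8Card.noFour_psl hA hD).elim
    · have hs0 : IsSimpleGroup (Matrix.ProjectiveSpecialLinearGroup (Fin n) F₀) := S0249.result n (by omega)
      by_cases h4 : n = 3 ∧ Fintype.card F₀ = 2
      · obtain ⟨rfl, h4⟩ := h4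
        obtain ⟨e⟩ := h.comp hA
        exact Or.inl (rank_three (act hna hchev) hx hx1 hA h4 e)
      · exact (of_simple h (D8Card.psl (by omega) h4) hA hD).elim
  · by_cases h4 : n = 3 ∧ q = 2
    · obtain ⟨rfl, rfl⟩ := h4
      exact (core_no_solv h (S0282.result hq).2 hA).elim
    · have hs0 : IsSimpleGroup (PSU n F q) := S0283.result hq n hn3 h4
      exact (of_simple h (D8Card.psu hq hn3 h4) hA hD).elim
  · obtain ⟨rfl, h5, hA6⟩ := of_psp h (by omega) hA hD
    rcases hm with rfl | rfl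
    · left
      obtain ⟨e⟩ := S0256.result h5
      exact GH.Rank.of_injective RankAlt.rank_eight e.toMonoidHom e.injective
    · exact Or.inr ⟨hA6, Or.inr ⟨F, inferInstance, inferInstance, h5, ⟨MulEquiv.refl _⟩⟩⟩

theorem row_psu {n q : ℕ} (hF : Fintype.card F = q ^ 2) (hn : 3 ≤ n) (h32 : ¬ (n = 3 ∧ q = 2)) :
    Row (PSU n F q) := by
  intro x hx hx1 A hA hD
  have hchev : IsChevSimple 2 (PSU n F q) :=
    Or.inl (Or.inr (Or.inr (Or.inl ⟨F, inferInstance, inferInstance, inferInstance, n, q, hF, hn, h32, ⟨MulEquiv.refl _⟩⟩)))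
  have hs : IsSimpleGroup (PSU n F q) := S0283.result hF n hn h32
  have hna := not_comm hA
  rcases H292.PsuTwo.out hF hn h32 hx hx1 with ⟨g, rfl⟩ | h | ⟨m, hm, F₀, i1, i2, hc, h⟩
  · exact (H829.ExcComp.no_comp_inner hna hchev hx hx1 hA).elim
  · exact (no_comp_cen (act hna hchev) hx h hA).elim
  · obtain ⟨k, -, hk⟩ := D8Card.card_pow (F := F)
    have hc2 : CharP F₀ 2 := charTwo_of_sq hk (by rw [hF, hc])
    obtain ⟨rfl, h5, hA6⟩ := of_psp h (by omega) hA hD
    obtain rfl : q = 2 := by rw [← hc, h5]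
    rcases hm with rfl | rfl
    · left
      have hK : Fintype.card (ZMod 3) = 3 := ZMod.card 3
      obtain ⟨e⟩ := S0822.result (K := ZMod 3) (by rw [hF]; norm_num) hK
      have h6 : SectionalPRankLE 2 4 (PSp 2 (ZMod 3)) := RankSp4.rank_psp (by rw [hK]; decide)
      exact GH.Rank.of_injective h6 e.toMonoidHom e.injective
    · exact Or.inr ⟨hA6, Or.inl ⟨F, inferInstance, inferInstance, by rw [hF]; norm_num, Or.inr ⟨MulEquiv.refl _⟩⟩⟩

theorem row_psp_semi {m : ℕ} (hm : 2 ≤ m) (h2 : m = 2 → 3 ≤ Fintype.card F) {x : MulAut (PSp m F)} (hx : x ^ 2 = 1)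
    (hx1 : x ≠ 1) (hsemi : ∃ g : ClassicalGeometry.SympAutSemi.semiSim m F, ClassicalGeometry.SympAutSemi.Psi m F g = x)
    {A : Subgroup ↥(fixedSubgroup x)} (hA : IsComponent A) (hD : D8 ↥A) : Concl (PSp m F) ↥A := by
  have hchev : IsChevSimple 2 (PSp m F) :=
    Or.inl (Or.inr (Or.inl ⟨F, inferInstance, inferInstance, inferInstance, m, hm, h2, ⟨MulEquiv.refl _⟩⟩))
  have hs : IsSimpleGroup (PSp m F) := S0270.result m hm h2
  have hna := not_comm hA
  rcases H292.PspTwo.out_of_semi (by omega) hx hsemi with ⟨g, rfl⟩ | ⟨F₀, i1, i2, hc, h⟩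
  · exact (H829.ExcComp.no_comp_inner hna hchev hx hx1 hA).elim
  · obtain ⟨k, -, hk⟩ := D8Card.card_pow (F := F)
    have hc2 : CharP F₀ 2 := charTwo_of_sq hk hc
    obtain ⟨rfl, h5, hA6⟩ := of_psp h (by omega) hA hD
    exact Or.inr ⟨hA6, Or.inl ⟨F, inferInstance, inferInstance, by rw [hc, h5]; norm_num, Or.inl ⟨MulEquiv.refl _⟩⟩⟩

end rows

end Cfsg.Agent.H300.D8Row
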