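import Cfsg.Agent.H300.D8Row
import Cfsg.Agent.H300.D8GW
import Cfsg.Agent.H300.Sp4Three

/-!
# Components with dihedral Sylow 2-subgroups of order 8: symplectic groups in characteristic two (helper300)
-/

set_option autoImplicit false

namespace Cfsg.Agent.H300.D8Row

open Subgroup Cfsg Cfsg.Agent.H300.D8Base

variable {F : Type} [Field F] [Fintype F] [CharP F 2]

theorem row_psp {m : ℕ} (hm : 2 ≤ m) (h2 : m = 2 → 3 ≤ Fintype.card F) : Row (PSp m F) := by
  have hp : Fact (Nat.Prime 2) := ⟨Nat.prime_two⟩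
  intro x hx hx1 A hA hD
  by_cases hsemi : ∃ g : ClassicalGeometry.SympAutSemi.semiSim m F, ClassicalGeometry.SympAutSemi.Psi m F g = x
  · exact row_psp_semi hm h2 hx hx1 hsemi hA hD
  · exfalso
    rcases hm.lt_or_eq with hm3 | hm2
    · exact hsemi (ClassicalGeometry.SympAutExists.exists_semi (by omega) x
        (ClassicalGeometry.SympAutOddA.recog (by omega) (Or.inl hm3) x))
    · subst hm2
      have ht : ∃ t : F, t ≠ 0 ∧ t ≠ 1 := H829.ExcComp.exists_ne_of_card (h2 rfl)
      have : Fact (Nat.Prime 3) := ⟨Nat.prime_three⟩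
      obtain ⟨a, ha⟩ := exists_prime_orderOf_dvd_card' 3 (D8GW.three_dvd hA.2 hD)
      have h3 : ((a : ↥(fixedSubgroup x)) : PSp 2 F) ^ 3 = 1 := by
        have h4 : a ^ 3 = 1 := by rw [← ha, pow_orderOf_eq_one]
        exact congrArg (fun t : ↥A => ((t : ↥(fixedSubgroup x)) : PSp 2 F)) h4
      have h5 := Sp4Three.no_three ht (x := x) (fun ⟨g, hg⟩ => hsemi ⟨g, hg⟩) h3 (a : ↥(fixedSubgroup x)).2
      have h6 : a = 1 := Subtype.ext (Subtype.ext h5)
      rw [h6, orderOf_one] at ha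
      omega

end Cfsg.Agent.H300.D8Row
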