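import Cfsg.Agent.H300.D8Base
import Cfsg.Agent.ClassicalGeometry.AutPSL.Main

/-!
# `L₃(2)` is tight (helper300)
-/

set_option autoImplicit false

namespace Cfsg.Agent.H300.D8Three

open Matrix Cfsg Cfsg.Agent.H300.D8Base
open Cfsg.Agent.ClassicalGeometry.AutPSL.Root
open Cfsg.Agent.ClassicalGeometry.AutPSL.Auto
open Cfsg.Agent.ClassicalGeometry.AutPSL.Main

variable {F : Type*} [Field F]

/-- the elations with a given centre -/
def v (s t : F) : Matrix.SpecialLinearGroup (Fin 3) F :=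
  ⟨!![1, s, t; 0, 1, 0; 0, 0, 1], by simp [det_fin_three]⟩

theorem v_mul (s t s' t' : F) : v s t * v s' t' = v (s + s') (t + t') := by
  apply Subtype.ext
  change !![1, s, t; 0, 1, 0; 0, 0, 1] * !![1, s', t'; 0, 1, 0; 0, 0, 1] = !![1, s + s', t + t'; 0, 1, 0; 0, 0, 1]
  ext i j
  fin_cases i <;> fin_cases j <;> simp [Matrix.mul_apply, Fin.sum_univ_three, add_comm]

theorem v_zero : v (0 : F) 0 = 1 := by
  apply Subtype.ext
  change !![1, 0, 0; 0, 1, 0; 0, 0, 1] = (1 : Matrix (Fin 3) (Fin 3) F)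
  ext i j
  fin_cases i <;> fin_cases j <;> simp

section two

variable [Fintype F] (hF : Fintype.card F = 2)

include hF

theorem charTwo : CharP F 2 := by
  have h1 : (2 : F) = 0 := by
    have := FiniteField.cast_card_eq_zero F
    rw [hF] at this
    exact_mod_cast this
  exact CharTwo.of_one_ne_zero_of_two_eq_zero one_ne_zero h1

theorem zero_or_one (a : F) : a = 0 ∨ a = 1 := by
  classical
  by_contra h
  push Not at h
  have h1 : ({0, 1, a} : Finset F) ⊆ Finset.univ := Finset.subset_univ _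
  have h2 := Finset.card_le_card h1
  rw [Finset.card_univ, hF, Finset.card_insert_of_notMem, Finset.card_insert_of_notMem, Finset.card_singleton] at h2
  · omega
  · rw [Finset.mem_singleton]
    exact fun h3 => h.2 h3.symm
  · rw [Finset.mem_insert, Finset.mem_singleton, not_or]
    exact ⟨zero_ne_one, fun h3 => h.1 h3.symm⟩

theorem eq_of_pr_eq {g h : Matrix.SpecialLinearGroup (Fin 3) F} (e : pr g = pr h) : g = h := by
  obtain ⟨c, hc⟩ := exists_smul_of_pr_eq e
  have h1 : c = 1 := by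
    rcases zero_or_one hF c with h1 | h1
    · exfalso
      have h2 : (h : Matrix (Fin 3) (Fin 3) F).det = 1 := h.2
      rw [hc, h1, zero_smul, det_zero] at h2
      exact zero_ne_one h2
    · exact h1
  rw [h1, one_smul] at hc
  exact Subtype.ext hc.symm

/-- the four-group -/
def V (F : Type*) [Field F] : Subgroup (Matrix.ProjectiveSpecialLinearGroup (Fin 3) F) where
  carrier := {g | ∃ s t, g = pr (v s t)}
  one_mem' := ⟨0, 0, by rw [v_zero, map_one]⟩
  mul_mem' := by
    rintro _ _ ⟨s, t, rfl⟩ ⟨s', t', rfl⟩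
    exact ⟨s + s', t + t', by rw [← map_mul, v_mul]⟩
  inv_mem' := by
    rintro _ ⟨s, t, rfl⟩
    refine ⟨-s, -t, ?_⟩
    rw [inv_eq_iff_mul_eq_one, ← map_mul, v_mul, add_neg_cancel, add_neg_cancel, v_zero, map_one]

theorem tight : Tight (Matrix.ProjectiveSpecialLinearGroup (Fin 3) F) := by
  classical
  have h2 := charTwo hF
  have hp : Fact (Nat.Prime 2) := ⟨Nat.prime_two⟩
  refine ⟨V F, ?_, ?_, ?_, ?_⟩
  · rintro _ ⟨s, t, rfl⟩ _ ⟨s', t', rfl⟩
    rw [← map_mul, ← map_mul, v_mul, v_mul, add_comm s, add_comm t]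
  · rintro _ ⟨s, t, rfl⟩
    rw [← map_mul, v_mul, CharTwo.add_self_eq_zero, CharTwo.add_self_eq_zero, v_zero, map_one]
  · have h1 : Nat.card ↥(V F) = Nat.card (F × F) := by
      symm
      refine Nat.card_congr (Equiv.ofBijective (fun c : F × F => (⟨pr (v c.1 c.2), c.1, c.2, rfl⟩ : ↥(V F))) ⟨?_, ?_⟩)
      · rintro ⟨s, t⟩ ⟨s', t'⟩ h
        have h3 : v s t = v s' t' := eq_of_pr_eq hF (congrArg Subtype.val h)
        have h4 := congrArg Subtype.val h3
        have h5 := congrFun (congrFun h4 0) 1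
        have h6 := congrFun (congrFun h4 0) 2
        exact Prod.ext h5 h6
      · rintro ⟨_, s, t, rfl⟩
        exact ⟨(s, t), rfl⟩
    rw [h1, Nat.card_prod, Nat.card_eq_fintype_card, hF]
  · intro y hy
    have h10 := hy (pr (v 1 0)) ⟨1, 0, rfl⟩
    have h01 := hy (pr (v 0 1)) ⟨0, 1, rfl⟩
    have hσ1 : ∀ σ : F ≃+* F, σ = 1 := by
      intro σ
      ext a
      rcases zero_or_one hF a with rfl | rfl
      · rw [map_zero]; rfl
      · rw [map_one]; rfl
    rcases surj_three 2 le_rfl y with ⟨A, σ, rfl⟩ | ⟨A, σ, rfl⟩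
    · rw [hσ1 σ, map_one, mul_one, lift_pr] at h10 h01
      have key : ∀ g : Matrix.SpecialLinearGroup (Fin 3) F, cj A g = g →
          (A : Matrix (Fin 3) (Fin 3) F) * (g : Matrix (Fin 3) (Fin 3) F) = g * (A : Matrix (Fin 3) (Fin 3) F) := by
        intro g hg
        have h3 : (A : Matrix (Fin 3) (Fin 3) F) * (g : Matrix (Fin 3) (Fin 3) F) * ((A⁻¹ : GL (Fin 3) F) : Matrix (Fin 3) (Fin 3) F) = g :=
          congrArg Subtype.val hg
        nth_rewrite 2 [← h3]
        rw [mul_assoc _ _ (A : Matrix (Fin 3) (Fin 3) F), ← Units.val_mul, inv_mul_cancel, Units.val_one, mul_one]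
      have e1 := key _ (eq_of_pr_eq hF h10)
      have e2 := key _ (eq_of_pr_eq hF h01)
      obtain ⟨B, hB⟩ : ∃ B : Matrix (Fin 3) (Fin 3) F, B = (A : Matrix (Fin 3) (Fin 3) F) := ⟨_, rfl⟩
      rw [← hB] at e1 e2
      have E1 : ∀ i j, (B * (!![1, 1, 0; 0, 1, 0; 0, 0, 1] : Matrix (Fin 3) (Fin 3) F)) i j =
          ((!![1, 1, 0; 0, 1, 0; 0, 0, 1] : Matrix (Fin 3) (Fin 3) F) * B) i j :=
        fun i j => congrFun (congrFun e1 i) j
      have E2 : ∀ i j, (B * (!![1, 0, 1; 0, 1, 0; 0, 0, 1] : Matrix (Fin 3) (Fin 3) F)) i j =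
          ((!![1, 0, 1; 0, 1, 0; 0, 0, 1] : Matrix (Fin 3) (Fin 3) F) * B) i j :=
        fun i j => congrFun (congrFun e2 i) j
      have a1 := E1 0 0
      have a2 := E1 0 1
      have a3 := E1 0 2
      have a4 := E1 2 1
      have b1 := E2 0 1
      have b2 := E2 0 2
      simp [Matrix.mul_apply, Fin.sum_univ_three] at a1 a2 a3 a4 b1 b2
      have c1 : B 1 1 = B 0 0 := by linear_combination -a2
      have c2 : B 2 2 = B 0 0 := by linear_combination -b2
      have hdet : B.det ≠ 0 := by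
        rw [hB]
        exact ((Matrix.isUnit_iff_isUnit_det _).1 A.isUnit).ne_zero
      have c0 : B 0 0 = 1 := by
        rcases zero_or_one hF (B 0 0) with h | h
        · exfalso
          apply hdet
          rw [det_fin_three, c1, c2, a1, a3, a4, b1, h]
          ring
        · exact h
      have hBv : B = (v (B 0 1) (B 0 2) : Matrix (Fin 3) (Fin 3) F) := by
        change B = !![1, B 0 1, B 0 2; 0, 1, 0; 0, 0, 1]
        ext i j
        fin_cases i <;> fin_cases j <;> simp [c0, c1, c2, a1, a3, a4, b1]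
      have hA : A = Matrix.SpecialLinearGroup.toGL (v (B 0 1) (B 0 2)) := by
        apply Units.ext
        rw [← hB]
        exact hBv
      refine ⟨pr (v (B 0 1) (B 0 2)), ⟨_, _, rfl⟩, ?_⟩
      rw [hσ1 σ, map_one, mul_one]
      ext g
      obtain ⟨g, rfl⟩ := pr_surjective g
      rw [lift_pr, MulAut.conj_apply, ← map_inv, ← map_mul, ← map_mul]
      congr 1
      rw [hA]
      rfl
    · exfalso
      have hv : ∀ s t : F, (v s t)⁻¹ = v s t := by
        intro s t
        rw [inv_eq_iff_mul_eq_one, v_mul, CharTwo.add_self_eq_zero, CharTwo.add_self_eq_zero, v_zero]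
      rw [hσ1 σ, map_one, mul_one, lift_pr] at h10 h01
      have key : ∀ s t : F, (cj A * itr : MulAut (Matrix.SpecialLinearGroup (Fin 3) F)) (v s t) = v s t →
          (A : Matrix (Fin 3) (Fin 3) F) * ((v s t : Matrix.SpecialLinearGroup (Fin 3) F) : Matrix (Fin 3) (Fin 3) F)ᵀ =
            (v s t : Matrix.SpecialLinearGroup (Fin 3) F) * (A : Matrix (Fin 3) (Fin 3) F) := by
        intro s t hg
        have h3 : (A : Matrix (Fin 3) (Fin 3) F) * (((v s t)⁻¹ : Matrix.SpecialLinearGroup (Fin 3) F) : Matrix (Fin 3) (Fin 3) F)ᵀ *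
            ((A⁻¹ : GL (Fin 3) F) : Matrix (Fin 3) (Fin 3) F) = v s t :=
          congrArg Subtype.val hg
        rw [hv] at h3
        nth_rewrite 2 [← h3]
        rw [mul_assoc _ _ (A : Matrix (Fin 3) (Fin 3) F), ← Units.val_mul, inv_mul_cancel, Units.val_one, mul_one]
      have e1 := key _ _ (eq_of_pr_eq hF h10)
      have e2 := key _ _ (eq_of_pr_eq hF h01)
      have hdet : (A : Matrix (Fin 3) (Fin 3) F).det ≠ 0 := ((Matrix.isUnit_iff_isUnit_det _).1 A.isUnit).ne_zero
      obtain ⟨B, hB⟩ : ∃ B : Matrix (Fin 3) (Fin 3) F, B = (A : Matrix (Fin 3) (Fin 3) F) := ⟨_, rfl⟩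
      rw [← hB] at e1 e2 hdet
      have E1 : ∀ i j, (B * (!![1, 1, 0; 0, 1, 0; 0, 0, 1] : Matrix (Fin 3) (Fin 3) F)ᵀ) i j =
          ((!![1, 1, 0; 0, 1, 0; 0, 0, 1] : Matrix (Fin 3) (Fin 3) F) * B) i j :=
        fun i j => congrFun (congrFun e1 i) j
      have E2 : ∀ i j, (B * (!![1, 0, 1; 0, 1, 0; 0, 0, 1] : Matrix (Fin 3) (Fin 3) F)ᵀ) i j =
          ((!![1, 0, 1; 0, 1, 0; 0, 0, 1] : Matrix (Fin 3) (Fin 3) F) * B) i j :=
        fun i j => congrFun (congrFun e2 i) j
      have a1 := E1 0 1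
      have a2 := E1 0 2
      have a4 := E1 2 0
      have b1 := E2 0 2
      simp [Matrix.mul_apply, Fin.sum_univ_three] at a1 a2 a4 b1
      apply hdet
      rw [det_fin_three, a1, a2, a4, b1]
      ring

end two

end Cfsg.Agent.H300.D8Three
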