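import Mathlib
import Cfsg.Prelude.Def_Solvable
import Cfsg.Prelude.Def_Transfer
import Cfsg.Agent.LieRecognition.HermHeis
import Cfsg.Agent.LieRecognition.PSUThreeSylow
import Cfsg.Agent.Lib.FieldAutCard
import Cfsg.Agent.Lib.Cores

/-!
# The automorphism group of a Sylow 2-subgroup of `SU(3, 2^n)`

`Heis σ` is the group of pairs `(a, b)`, `b + σ b = a σ a`. Its automorphisms are the maps
`(a, b) ↦ (c θ(a), c σ(c) θ(b) + τ(a))` with `c ≠ 0`, `θ` a field automorphism and `τ` additive with fixed values.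
-/

set_option autoImplicit false

namespace Cfsg.Agent.H300.HeisAut

open Cfsg.Agent.LieRecognition.HermHeis

variable {F : Type*} [Field F] [CharP F 2] {σ : F →+* F} [hσ : Fact (∀ x, σ (σ x) = x)]

omit [CharP F 2] in
theorem fixed_norm (x : F) : σ (x * σ x) = x * σ x := by
  rw [map_mul, sig, mul_comm]

omit [CharP F 2] in
theorem fixed_trace (x : F) : σ (x + σ x) = x + σ x := by
  rw [map_add, sig, add_comm]

/-- an additive map compatible with the norm is a ring homomorphism -/
theorem ring_of_norm {g h : F → F} (hg1 : g 1 = 1) (hga : ∀ a b, g (a + b) = g a + g b)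
    (hinj : ∀ a, g a = 0 → a = 0)
    (hha : ∀ a b, σ a = a → σ b = b → h (a + b) = h a + h b)
    (hN : ∀ a, h (a * σ a) = g a * σ (g a))
    (hsur : ∀ c : F, σ c = c → ∃ b : F, b + σ b = c) :
    ∀ a b, g (a * b) = g a * g b := by
  have h0 : h 0 = 0 := by
    have := hha 0 0 (map_zero σ) (map_zero σ)
    rw [add_zero] at this
    exact left_eq_add.1 this
  -- polarisation
  have hpol : ∀ a b, h (a * σ b + b * σ a) = g a * σ (g b) + g b * σ (g a) := by
    intro a b
    have e1 := hN (a + b)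
    have e2 : (a + b) * σ (a + b) = (a * σ a + b * σ b) + (a * σ b + b * σ a) := by
      rw [map_add]; ring
    have f1 : σ (a * σ b + b * σ a) = a * σ b + b * σ a := by
      rw [map_add, map_mul, map_mul, sig, sig]; ring
    have f2 : σ (a * σ a + b * σ b) = a * σ a + b * σ b := by
      rw [map_add, fixed_norm, fixed_norm]
    rw [e2, hha _ _ f2 f1, hha _ _ (fixed_norm a) (fixed_norm b), hN, hN, hga, map_add] at e1
    linear_combination e1
  have hg0 : ∀ c, σ c = c → σ (g c) = g c := by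
    intro c hc
    have e := hpol c 1
    rw [map_one, mul_one, one_mul, hg1, map_one, mul_one, one_mul, hc, CharTwo.add_self_eq_zero, h0] at e
    exact (CharTwo.add_eq_zero.1 e.symm).symm
  have htr : ∀ a, h (a + σ a) = g a + σ (g a) := by
    intro a
    have e := hpol a 1
    rwa [map_one, mul_one, one_mul, hg1, map_one, mul_one, one_mul] at e
  have h1 : h 1 = 1 := by
    have e := hN 1
    rwa [hg1, map_one, mul_one] at e
  have hct : ∀ c t, σ c = c → σ t = t → h (c * t) = g c * h t := by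
    intro c t hc ht
    obtain ⟨a, ha⟩ := hsur t ht
    have e := hpol a c
    rw [hc, hg0 c hc, mul_comm a c, ← mul_add, ha, mul_comm (g a), ← mul_add, ← htr a, ha] at e
    exact e
  have hhg : ∀ c, σ c = c → h c = g c := by
    intro c hc
    have e := hct c 1 hc (map_one σ)
    rwa [mul_one, h1, mul_one] at e
  have hgct : ∀ c t, σ c = c → σ t = t → g (c * t) = g c * g t := by
    intro c t hc ht
    rw [← hhg (c * t) (by rw [map_mul, hc, ht]), hct c t hc ht, hhg t ht]
  have hsemi : ∀ c a, σ c = c → g (c * a) = g c * g a := by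
    intro c a hc
    by_cases ha0 : a = 0
    · subst ha0
      have g0 : g 0 = 0 := by
        have := hga 0 0
        rw [add_zero] at this
        exact left_eq_add.1 this
      rw [mul_zero, g0, mul_zero]
    have hga0 : g a ≠ 0 := fun h => ha0 (hinj a h)
    have e1 := hpol (c * a) a
    rw [map_mul, hc] at e1
    have e2 : c * a * σ a + a * (c * σ a) = 0 := by
      have : c * a * σ a + a * (c * σ a) = c * a * σ a + c * a * σ a := by ring
      rw [this, CharTwo.add_self_eq_zero]
    rw [e2, h0] at e1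
    have e3 : g a * σ (g (c * a)) = g (c * a) * σ (g a) := (CharTwo.add_eq_zero.1 e1.symm).symm
    have e4 : g (c * a) + σ (g (c * a)) = g c * (g a + σ (g a)) := by
      rw [← htr, ← htr, map_mul, hc, ← mul_add, hct c _ hc (fixed_trace a)]
    by_cases hT : g a + σ (g a) = 0
    · have e5 : h (a + σ a) = 0 := by rw [htr, hT]
      rw [hhg _ (fixed_trace a)] at e5
      have e6 : σ a = a := (CharTwo.add_eq_zero.1 (hinj _ e5)).symm
      exact hgct c a hc e6
    · have e5 : g (c * a) * (g a + σ (g a)) = g c * g a * (g a + σ (g a)) := by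
        linear_combination (-1 : F) * e3 + g a * e4
      exact mul_right_cancel₀ hT e5
  have hsq : ∀ a, g (a * a) = g a * g a := by
    intro a
    have e1 : a * a = (a + σ a) * a + a * σ a := by
      have : (a + σ a) * a + a * σ a = a * a + (a * σ a + a * σ a) := by ring
      rw [this, CharTwo.add_self_eq_zero, add_zero]
    have e2 : (g a + σ (g a)) * g a + g a * σ (g a) = g a * g a := by
      have : (g a + σ (g a)) * g a + g a * σ (g a) = g a * g a + (g a * σ (g a) + g a * σ (g a)) := by ring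
      rw [this, CharTwo.add_self_eq_zero, add_zero]
    rw [e1, hga, hsemi _ _ (fixed_trace a), ← hhg _ (fixed_trace a), htr, ← hhg _ (fixed_norm a), hN, e2]
  intro a b
  by_cases ha : σ a = a
  · exact hsemi a b ha
  · have hT : a + σ a ≠ 0 := fun h => ha (CharTwo.add_eq_zero.1 h).symm
    obtain ⟨y, hy⟩ : ∃ y, y = (b + σ b) / (a + σ a) := ⟨_, rfl⟩
    have hyf : σ y = y := by rw [hy, map_div₀, fixed_trace, fixed_trace]
    have hyT : y * (a + σ a) = b + σ b := by rw [hy]; field_simp
    obtain ⟨x, hx⟩ : ∃ x, x = b + y * a := ⟨_, rfl⟩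
    have hxf : σ x = x := by
      apply Eq.symm
      apply CharTwo.add_eq_zero.1
      rw [hx, map_add, map_mul, hyf]
      have : b + y * a + (σ b + y * σ a) = (b + σ b) + y * (a + σ a) := by ring
      rw [this, hyT, CharTwo.add_self_eq_zero]
    have hb : b = x + y * a := by
      rw [hx, add_assoc, CharTwo.add_self_eq_zero, add_zero]
    have e1 : a * b = x * a + y * (a * a) := by rw [hb]; ring
    rw [e1, hga, hsemi x a hxf, hsemi y (a * a) hyf, hsq]
    conv_rhs => rw [hb, hga, hsemi y a hyf]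
    ring

/-! ### The automorphisms with given parameters -/

/-- the map with parameters `c, θ, τ` -/
def act (c : Fˣ) (θ : F ≃+* F) (τ : F →+ F) (hθ : ∀ x, θ (σ x) = σ (θ x)) (hτ : ∀ x, σ (τ x) = τ x)
    (x : Heis σ) : Heis σ :=
  ⟨c * θ x.a, c * σ c * θ x.b + τ x.a, by
    have h := congrArg θ x.h
    rw [map_add, map_mul, hθ, hθ] at h
    rw [map_add, map_mul, map_mul, sig, hτ, map_mul]
    have e : (c : F) * σ c * θ x.b + τ x.a + (σ c * c * σ (θ x.b) + τ x.a) =
      c * σ c * (θ x.b + σ (θ x.b)) + (τ x.a + τ x.a) := by ring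
    rw [e, CharTwo.add_self_eq_zero, add_zero, h]
    ring⟩

/-- the homomorphism with parameters `c, θ, τ` -/
def actHom (c : Fˣ) (θ : F ≃+* F) (τ : F →+ F) (hθ : ∀ x, θ (σ x) = σ (θ x)) (hτ : ∀ x, σ (τ x) = τ x) :
    Heis σ →* Heis σ where
  toFun := act c θ τ hθ hτ
  map_one' := by
    ext
    · simp [act]
    · simp [act]
  map_mul' := by
    intro x y
    ext
    · simp [act]; ring
    · simp only [act, mul_a, mul_b, map_add, map_mul, hθ]; ring

theorem actHom_a (c : Fˣ) (θ : F ≃+* F) (τ : F →+ F) (hθ : ∀ x, θ (σ x) = σ (θ x)) (hτ : ∀ x, σ (τ x) = τ x)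
    (x : Heis σ) : (actHom c θ τ hθ hτ x).a = c * θ x.a := rfl

theorem actHom_b (c : Fˣ) (θ : F ≃+* F) (τ : F →+ F) (hθ : ∀ x, θ (σ x) = σ (θ x)) (hτ : ∀ x, σ (τ x) = τ x)
    (x : Heis σ) : (actHom c θ τ hθ hτ x).b = c * σ c * θ x.b + τ x.a := rfl

theorem actHom_injective (c : Fˣ) (θ : F ≃+* F) (τ : F →+ F) (hθ : ∀ x, θ (σ x) = σ (θ x))
    (hτ : ∀ x, σ (τ x) = τ x) : Function.Injective (actHom c θ τ hθ hτ) := by
  rw [injective_iff_map_eq_one]
  intro x hx
  have ha := congrArg Heis.a hx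
  have hb := congrArg Heis.b hx
  rw [actHom_a, one_a] at ha
  have ha' : x.a = 0 := by
    rcases mul_eq_zero.1 ha with h | h
    · exact absurd h c.ne_zero
    · exact (map_eq_zero θ).1 h
  rw [actHom_b, one_b, ha', map_zero, add_zero] at hb
  have hc : σ (c : F) ≠ 0 := fun h => c.ne_zero ((map_eq_zero σ).1 h)
  have hb' : x.b = 0 := by
    rcases mul_eq_zero.1 hb with h | h
    · exact absurd h (mul_ne_zero c.ne_zero hc)
    · exact (map_eq_zero θ).1 h
  ext
  · rw [ha']; rfl
  · rw [hb']; rfl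

/-- the automorphism with parameters `c, θ, τ` -/
noncomputable def aut [Finite F] (c : Fˣ) (θ : F ≃+* F) (τ : F →+ F) (hθ : ∀ x, θ (σ x) = σ (θ x))
    (hτ : ∀ x, σ (τ x) = τ x) : MulAut (Heis σ) :=
  MulEquiv.ofBijective (actHom c θ τ hθ hτ) (Finite.injective_iff_bijective.1 (actHom_injective c θ τ hθ hτ))

theorem aut_a [Finite F] (c : Fˣ) (θ : F ≃+* F) (τ : F →+ F) (hθ : ∀ x, θ (σ x) = σ (θ x))
    (hτ : ∀ x, σ (τ x) = τ x) (x : Heis σ) : (aut c θ τ hθ hτ x).a = c * θ x.a := rfl

theorem aut_b [Finite F] (c : Fˣ) (θ : F ≃+* F) (τ : F →+ F) (hθ : ∀ x, θ (σ x) = σ (θ x))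
    (hτ : ∀ x, σ (τ x) = τ x) (x : Heis σ) : (aut c θ τ hθ hτ x).b = c * σ c * θ x.b + τ x.a := rfl

/-! ### Every automorphism has this form -/

section

variable [Finite F] {q : ℕ} (hq : 1 < q) (hs : ∀ x, σ x = x ^ q) (hF : Nat.card F = q ^ 2)

include hq hs hF

theorem exists_g (φ : MulAut (Heis σ)) : ∃ g : F → F, ∀ x : Heis σ, (φ x).a = g x.a := by
  choose l hl using exists_heis_a (F := F) (σ := σ) hq hs hF
  refine ⟨fun a => (φ (l a)).a, fun x => ?_⟩
  have h1 : ((l x.a)⁻¹ * x).a = 0 := by simp [hl, CharTwo.add_self_eq_zero]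
  have h2 : φ ((l x.a)⁻¹ * x) * φ ((l x.a)⁻¹ * x) = 1 := by
    rw [← map_mul, (mul_self_eq_one_iff _).2 h1, map_one]
  have h3 := (mul_self_eq_one_iff _).1 h2
  rw [map_mul, map_inv, mul_a, inv_a] at h3
  exact (CharTwo.add_eq_zero.1 h3).symm

theorem exists_form (φ : MulAut (Heis σ)) : ∃ (c : Fˣ) (θ : F ≃+* F) (τ : F →+ F)
    (hθ : ∀ x, θ (σ x) = σ (θ x)) (hτ : ∀ x, σ (τ x) = τ x), φ = aut c θ τ hθ hτ := by
  classical
  obtain ⟨g, hg⟩ := exists_g hq hs hF φ
  choose l hl using exists_heis_a (F := F) (σ := σ) hq hs hF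
  have hga : ∀ a b, g (a + b) = g a + g b := by
    intro a b
    have h1 := hg (l a * l b)
    rw [mul_a, hl, hl, map_mul, mul_a, hg, hg, hl, hl] at h1
    exact h1.symm
  have hinj : ∀ a, g a = 0 → a = 0 := by
    intro a ha
    have h1 : (φ (l a)).a = 0 := by rw [hg, hl, ha]
    have h2 := (mul_self_eq_one_iff _).2 h1
    rw [← map_mul] at h2
    have h3 : l a * l a = 1 := φ.injective (by rw [h2, map_one])
    rw [← hl a]
    exact (mul_self_eq_one_iff _).1 h3
  let h : F → F := fun b => if hb : σ b = b then (φ (zet b hb)).b else 0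
  have hh : ∀ b (hb : σ b = b), h b = (φ (zet b hb)).b := fun b hb => dif_pos hb
  have hz0 : ∀ b (hb : σ b = b), (φ (zet b hb)).a = 0 := by
    intro b hb
    apply (mul_self_eq_one_iff _).1
    rw [← map_mul, (mul_self_eq_one_iff _).2 (zet_a b hb), map_one]
  have hha : ∀ a b, σ a = a → σ b = b → h (a + b) = h a + h b := by
    intro a b ha hb
    have hab : σ (a + b) = a + b := by rw [map_add, ha, hb]
    rw [hh a ha, hh b hb, hh (a + b) hab]
    have e : (zet (a + b) hab : Heis σ) = zet a ha * zet b hb := by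
      ext <;> simp
    rw [e, map_mul, mul_b, hz0 a ha, zero_mul, add_zero]
  have hN : ∀ a, h (a * σ a) = g a * σ (g a) := by
    intro a
    rw [hh _ (fixed_norm a)]
    have e : (zet (a * σ a) (fixed_norm a) : Heis σ) = l a * l a := by
      ext
      · simp [CharTwo.add_self_eq_zero]
      · simp [CharTwo.add_self_eq_zero, hl]
    rw [e, map_mul, mul_b, CharTwo.add_self_eq_zero, zero_add, hg, hl]
  have hg1 : g 1 ≠ 0 := fun h => one_ne_zero (hinj 1 h)
  have hsur := (card_fixed hq hs hF).2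
  have hsg1 : σ (g 1) ≠ 0 := fun h => hg1 ((map_eq_zero σ).1 h)
  have hmul := ring_of_norm (σ := σ) (g := fun a => (g 1)⁻¹ * g a) (h := fun b => (g 1)⁻¹ * (σ (g 1))⁻¹ * h b)
    (inv_mul_cancel₀ hg1) (fun a b => by simp only [hga]; ring)
    (fun a ha => by
      rcases mul_eq_zero.1 ha with h1 | h1
      · exact absurd h1 (inv_ne_zero hg1)
      · exact hinj a h1)
    (fun a b ha hb => by simp only [hha a b ha hb]; ring)
    (fun a => by simp only [hN, map_mul, map_inv₀]; ring) hsur
  have hgz : g 0 = 0 := by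
    have := hga 0 0
    rw [add_zero] at this
    exact left_eq_add.1 this
  let θ₀ : F →+* F :=
    { toFun := fun a => (g 1)⁻¹ * g a
      map_one' := inv_mul_cancel₀ hg1
      map_mul' := hmul
      map_zero' := by simp [hgz]
      map_add' := fun a b => by simp only [hga]; ring }
  let θ : F ≃+* F := RingEquiv.ofBijective θ₀ (Finite.injective_iff_bijective.1 θ₀.injective)
  have hθv : ∀ a, g a = g 1 * θ a := by
    intro a
    change g a = g 1 * ((g 1)⁻¹ * g a)
    rw [← mul_assoc, mul_inv_cancel₀ hg1, one_mul]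
  have hθ : ∀ x, θ (σ x) = σ (θ x) := by
    intro x; rw [hs, hs, map_pow]
  -- values of `h`
  have hhv : ∀ b, σ b = b → h b = g 1 * σ (g 1) * θ b := by
    intro b hb
    -- `b` is a norm up to ... : `b = t + σ t`
    obtain ⟨t, ht⟩ := hsur b hb
    have e1 : h (t * σ 1 + 1 * σ t) = g t * σ (g 1) + g 1 * σ (g t) := by
      have f1 : σ (t * σ 1 + 1 * σ t) = t * σ 1 + 1 * σ t := by
        rw [map_one, mul_one, one_mul, fixed_trace]
      have f2 : σ (t * σ t + 1 * σ 1) = t * σ t + 1 * σ 1 := by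
        rw [map_add, fixed_norm, fixed_norm]
      have e2 : (t + 1) * σ (t + 1) = (t * σ t + 1 * σ 1) + (t * σ 1 + 1 * σ t) := by
        rw [map_add]; ring
      have e3 := hN (t + 1)
      rw [e2, hha _ _ f2 f1, hha _ _ (fixed_norm t) (fixed_norm 1), hN, hN, hga, map_add] at e3
      linear_combination e3
    rw [map_one, mul_one, one_mul, ht, hθv t, map_mul] at e1
    rw [e1, ← ht, map_add, hθ]; ring
  have hkey : ∀ x : Heis σ, (φ x).b = (φ (l x.a)).b + g 1 * σ (g 1) * θ (x.b + (l x.a).b) := by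
    intro x
    have hf : σ (x.b + (l x.a).b) = x.b + (l x.a).b := by
      have e1 := x.h
      have e2 := (l x.a).h
      rw [hl] at e2
      apply Eq.symm
      apply CharTwo.add_eq_zero.1
      rw [map_add]
      have : x.b + (l x.a).b + (σ x.b + σ (l x.a).b) = (x.b + σ x.b) + ((l x.a).b + σ (l x.a).b) := by ring
      rw [this, e1, e2, CharTwo.add_self_eq_zero]
    have e : x = l x.a * zet (x.b + (l x.a).b) hf := by
      ext
      · simp [hl]
      · simp only [mul_b, zet_a, zet_b, map_zero, mul_zero, add_zero]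
        rw [add_comm x.b, ← add_assoc, CharTwo.add_self_eq_zero, zero_add]
    conv_lhs => rw [e]
    rw [map_mul, mul_b, hz0, map_zero, mul_zero, add_zero, ← hh, hhv _ hf]
  -- the map `τ`
  let τ₀ : F → F := fun a => (φ (l a)).b + g 1 * σ (g 1) * θ (l a).b
  have hτ₀ : ∀ x : Heis σ, (φ x).b = g 1 * σ (g 1) * θ x.b + τ₀ x.a := by
    intro x
    rw [hkey x]
    change _ = _ + ((φ (l x.a)).b + g 1 * σ (g 1) * θ (l x.a).b)
    rw [map_add]; ring
  have hτadd : ∀ a b, τ₀ (a + b) = τ₀ a + τ₀ b := by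
    intro a b
    have e1 := hτ₀ (l a * l b)
    rw [map_mul, mul_b, hτ₀, hτ₀, mul_b, mul_a, hl, hl, hg, hg, hl, hl, hθv a, hθv b, map_add, map_add,
      map_mul θ, map_mul, hθ] at e1
    linear_combination (-1 : F) * e1
  have hτz : τ₀ 0 = 0 := by
    have := hτadd 0 0
    rw [add_zero] at this
    exact left_eq_add.1 this
  let τ : F →+ F := { toFun := τ₀, map_zero' := hτz, map_add' := hτadd }
  have hτ : ∀ x, σ (τ x) = τ x := by
    intro a
    have e1 := (φ (l a)).h
    have e2 := congrArg θ (l a).h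
    rw [hτ₀, hg, hl, hθv a, map_add, map_mul, map_mul, map_mul, sig] at e1
    rw [map_add, map_mul, hθ, hθ, hl] at e2
    apply Eq.symm
    apply CharTwo.add_eq_zero.1
    change τ₀ a + σ (τ₀ a) = 0
    linear_combination e1 - g 1 * σ (g 1) * e2
  refine ⟨Units.mk0 (g 1) hg1, θ, τ, hθ, hτ, ?_⟩
  ext x
  · rw [aut_a, hg, hθv]; rfl
  · rw [aut_b, hτ₀]; rfl

end

end Cfsg.Agent.H300.HeisAut
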