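import Mathlib
import Cfsg.Agent.H300.HeisAut

/-!
# The order of the automorphism group of a Sylow 2-subgroup of `SU(3, 2^n)` and its largest normal 2-subgroup
-/

set_option autoImplicit false

namespace Cfsg.Agent.H300.HeisAut

open Cfsg.Agent.LieRecognition.HermHeis

/-- the number of additive maps between elementary abelian 2-groups -/
theorem card_addHom {V W : Type*} [AddCommGroup V] [AddCommGroup W] [Finite V] [Finite W] {a b : ℕ}
    (hV2 : ∀ x : V, x + x = 0) (hW2 : ∀ x : W, x + x = 0) (hV : Nat.card V = 2 ^ a) (hW : Nat.card W = 2 ^ b) :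
    Nat.card (V →+ W) = 2 ^ (a * b) := by
  let _ : Module (ZMod 2) V := AddCommGroup.zmodModule (n := 2) (fun x => by rw [two_nsmul]; exact hV2 x)
  let _ : Module (ZMod 2) W := AddCommGroup.zmodModule (n := 2) (fun x => by rw [two_nsmul]; exact hW2 x)
  have e : Nat.card (V →+ W) = Nat.card (V →ₗ[ZMod 2] W) :=
    Nat.card_congr (AddMonoidHom.toZModLinearMapEquiv (M := V) (M₁ := W) 2).toEquiv
  have hfV : Module.finrank (ZMod 2) V = a := by
    have h1 := Module.natCard_eq_pow_finrank (K := ZMod 2) (V := V)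
    rw [hV, Nat.card_zmod] at h1
    exact (Nat.pow_right_injective le_rfl h1).symm
  have hfW : Module.finrank (ZMod 2) W = b := by
    have h1 := Module.natCard_eq_pow_finrank (K := ZMod 2) (V := W)
    rw [hW, Nat.card_zmod] at h1
    exact (Nat.pow_right_injective le_rfl h1).symm
  rw [e, Module.natCard_eq_pow_finrank (K := ZMod 2), Nat.card_zmod, Module.finrank_linearMap, hfV, hfW]

variable {F : Type*} [Field F] [CharP F 2] {σ : F →+* F} [hσ : Fact (∀ x, σ (σ x) = x)]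

section

variable [Finite F] {n : ℕ} (hn : 1 ≤ n) (hs : ∀ x, σ x = x ^ (2 ^ n)) (hF : Nat.card F = (2 ^ n) ^ 2)

omit [CharP F 2] hσ [Finite F] in
theorem comm_sigma {q : ℕ} (hs : ∀ x, σ x = x ^ q) (θ : F ≃+* F) (x : F) : θ (σ x) = σ (θ x) := by
  rw [hs, hs, map_pow]

include hn in
theorem one_lt_q : 1 < 2 ^ n := Nat.one_lt_two_pow (by omega)

include hn hs hF in
/-- the number of additive maps with fixed values -/
theorem card_tau : Nat.card {τ : F →+ F // ∀ x, σ (τ x) = τ x} = 2 ^ (2 * n ^ 2) := by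
  have e1 : {τ : F →+ F // ∀ x, σ (τ x) = τ x} ≃ (F →+ (tr σ).ker) :=
    { toFun := fun τ => τ.1.codRestrict (tr σ).ker (fun x => (mem_ker_tr (σ := σ) (τ.1 x)).2 (τ.2 x))
      invFun := fun f => ⟨(tr σ).ker.subtype.comp f, fun x => (mem_ker_tr (σ := σ) _).1 (f x).2⟩
      left_inv := fun τ => by ext; rfl
      right_inv := fun f => by ext; rfl }
  have e2 : Nat.card (tr σ).ker = 2 ^ n := by
    have h1 : Nat.card {x : F // σ x = x} = 2 ^ n := (card_fixed (one_lt_q hn) hs hF).1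
    rw [← h1]
    exact Nat.card_congr (Equiv.subtypeEquivRight fun x => mem_ker_tr (σ := σ) x)
  have e3 : Nat.card F = 2 ^ (2 * n) := by rw [hF, ← pow_mul, mul_comm]
  rw [Nat.card_congr e1, card_addHom (fun x => CharTwo.add_self_eq_zero x)
    (fun x => Subtype.ext (CharTwo.add_self_eq_zero (x : F))) e3 e2]
  congr 1; ring

include hn hs hF in
/-- **the order of the automorphism group** -/
theorem card_mulAut : Nat.card (MulAut (Heis σ)) = 2 ^ (2 * n ^ 2) * (2 * n * ((2 ^ n) ^ 2 - 1)) := by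
  classical
  have hq := one_lt_q hn
  let f : (Fˣ × (F ≃+* F)) × {τ : F →+ F // ∀ x, σ (τ x) = τ x} → MulAut (Heis σ) := fun p =>
    aut p.1.1 p.1.2 p.2.1 (comm_sigma hs p.1.2) p.2.2
  have hf : Function.Bijective f := by
    constructor
    · rintro ⟨⟨c, θ⟩, ⟨τ, hτ⟩⟩ ⟨⟨c', θ'⟩, ⟨τ', hτ'⟩⟩ h
      choose l hl using exists_heis_a (F := F) (σ := σ) hq hs hF
      have h1 : ∀ x, (c : F) * θ x = c' * θ' x := by
        intro x
        have := congrArg (fun φ : MulAut (Heis σ) => (φ (l x)).a) h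
        simp only [f, aut_a, hl] at this
        exact this
      have hc : c = c' := by
        apply Units.ext
        have := h1 1
        rwa [map_one, map_one, mul_one, mul_one] at this
      subst hc
      have hθ : θ = θ' := by
        ext x
        exact mul_left_cancel₀ c.ne_zero (h1 x)
      subst hθ
      have hτ : τ = τ' := by
        ext x
        have := congrArg (fun φ : MulAut (Heis σ) => (φ (l x)).b) h
        simp only [f, aut_b, hl] at this
        exact add_left_cancel this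
      subst hτ
      rfl
    · intro φ
      obtain ⟨c, θ, τ, hθ, hτ, rfl⟩ := exists_form hq hs hF φ
      exact ⟨⟨⟨c, θ⟩, ⟨τ, hτ⟩⟩, rfl⟩
  have := Fintype.ofFinite F
  have hc1 : Nat.card (F ≃+* F) = 2 * n :=
    Lib.FieldAutCard.card_ringAut (p := 2) (f := 2 * n) (by omega)
      (by rw [← Nat.card_eq_fintype_card, hF, ← pow_mul, mul_comm])
  have hc2 : Nat.card Fˣ = (2 ^ n) ^ 2 - 1 := by rw [Nat.card_units, hF]
  rw [← Nat.card_congr (Equiv.ofBijective f hf), Nat.card_prod, Nat.card_prod, card_tau hn hs hF, hc1, hc2]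
  ring

/-- the automorphisms acting trivially modulo the centre -/
def ker (σ : F →+* F) [hσ : Fact (∀ x, σ (σ x) = x)] : Subgroup (MulAut (Heis σ)) where
  carrier := {φ | ∀ x, (φ x).a = x.a}
  mul_mem' := by
    intro φ ψ hφ hψ x
    rw [MulAut.mul_apply, hφ, hψ]
  one_mem' := fun x => rfl
  inv_mem' := by
    intro φ hφ x
    have := hφ (φ⁻¹ x)
    rw [MulAut.apply_inv_self] at this
    exact this.symm

include hn hs hF in
theorem ker_normal : (ker σ).Normal := by
  refine ⟨fun φ hφ ψ x => ?_⟩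
  obtain ⟨g, hg⟩ := exists_g (one_lt_q hn) hs hF ψ
  rw [MulAut.mul_apply, MulAut.mul_apply, hg, hφ, ← hg, MulAut.apply_inv_self]

include hn hs hF in
/-- elements of the kernel -/
theorem exists_tau {φ : MulAut (Heis σ)} (hφ : φ ∈ ker σ) :
    ∃ τ : {τ : F →+ F // ∀ x, σ (τ x) = τ x}, ∀ x : Heis σ, (φ x).a = x.a ∧ (φ x).b = x.b + τ.1 x.a := by
  obtain ⟨c, θ, τ, hθ, hτ, rfl⟩ := exists_form (one_lt_q hn) hs hF φ
  choose l hl using exists_heis_a (F := F) (σ := σ) (one_lt_q hn) hs hF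
  have h1 : ∀ x, (c : F) * θ x = x := by
    intro x
    have := hφ (l x)
    rwa [aut_a, hl] at this
  have hc : (c : F) = 1 := by
    have := h1 1
    rwa [map_one, mul_one] at this
  have hθ1 : ∀ x, θ x = x := by
    intro x
    have := h1 x
    rwa [hc, one_mul] at this
  refine ⟨⟨τ, hτ⟩, fun x => ⟨hφ x, ?_⟩⟩
  rw [aut_b, hc, map_one, one_mul, one_mul, hθ1]

include hn hs hF in
theorem card_ker : Nat.card (ker σ) = 2 ^ (2 * n ^ 2) := by
  rw [← card_tau hn hs hF]
  choose l hl using exists_heis_a (F := F) (σ := σ) (one_lt_q hn) hs hF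
  choose T hT using fun φ : ker σ => exists_tau hn hs hF φ.2
  refine Nat.card_congr (Equiv.ofBijective T ⟨?_, ?_⟩)
  · intro φ ψ h
    apply Subtype.ext
    ext x
    · rw [(hT φ x).1, (hT ψ x).1]
    · rw [(hT φ x).2, (hT ψ x).2, h]
  · rintro ⟨τ, hτ⟩
    have hm : aut 1 (RingEquiv.refl F) τ (comm_sigma hs _) hτ ∈ ker σ := by
      intro x
      rw [aut_a]; simp
    refine ⟨⟨_, hm⟩, ?_⟩
    apply Subtype.ext
    ext x
    have h1 := (hT ⟨_, hm⟩ (l x)).2
    rw [aut_b, hl] at h1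
    simp only [Units.val_one, map_one, mul_one, RingEquiv.refl_apply, one_mul] at h1
    exact (add_left_cancel h1).symm

include hn hs hF in
theorem ker_elementary : Cfsg.IsElementaryAbelian 2 (ker σ) := by
  refine ⟨⟨⟨fun φ ψ => ?_⟩⟩, fun φ hφ => ?_⟩
  · obtain ⟨T, hT⟩ := exists_tau hn hs hF φ.2
    obtain ⟨U, hU⟩ := exists_tau hn hs hF ψ.2
    apply Subtype.ext
    ext x
    · rw [Subgroup.coe_mul, Subgroup.coe_mul, MulAut.mul_apply, MulAut.mul_apply, (hT _).1, (hU _).1, (hU _).1,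
        (hT _).1]
    · rw [Subgroup.coe_mul, Subgroup.coe_mul, MulAut.mul_apply, MulAut.mul_apply, (hT _).2, (hU _).2, (hU _).2,
        (hT _).2, (hU _).1, (hT _).1, add_right_comm]
  · obtain ⟨T, hT⟩ := exists_tau hn hs hF hφ
    rw [pow_two]
    ext x
    · rw [MulAut.mul_apply, (hT _).1, (hT _).1]; rfl
    · rw [MulAut.mul_apply, (hT _).2, (hT _).2, (hT _).1, add_assoc, CharTwo.add_self_eq_zero, add_zero]; rfl

omit [Finite F] in
theorem units_eq_one_of_pow {c : Fˣ} {k : ℕ} (h : c ^ 2 ^ k = 1) : c = 1 := by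
  have h1 : (c : F) ^ 2 ^ k = 1 := by rw [← Units.val_pow_eq_pow_val, h, Units.val_one]
  have h2 : ((c : F) - 1) ^ 2 ^ k = 0 := by
    rw [sub_pow_char_pow, h1, one_pow, sub_self]
  have h3 := eq_zero_of_pow_eq_zero h2
  exact Units.ext (sub_eq_zero.1 h3)

omit [CharP F 2] [Finite F] in
theorem pow_a {c : Fˣ} {φ : MulAut (Heis σ)} (h : ∀ x, (φ x).a = c * x.a) (k : ℕ) :
    ∀ x, ((φ ^ k) x).a = (c : F) ^ k * x.a := by
  induction k with
  | zero => intro x; simp
  | succ k ih => intro x; rw [pow_succ', MulAut.mul_apply, h, ih, pow_succ']; ring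

include hn hs hF in
theorem mem_ker_of_pow {c : Fˣ} {φ : MulAut (Heis σ)} (h : ∀ x, (φ x).a = c * x.a) {k : ℕ} (hk : φ ^ 2 ^ k = 1) :
    c = 1 := by
  obtain ⟨x, hx⟩ := exists_heis_a (F := F) (σ := σ) (one_lt_q hn) hs hF 1
  have h1 := pow_a h (2 ^ k) x
  rw [hk, hx, mul_one] at h1
  apply units_eq_one_of_pow (k := k)
  apply Units.ext
  rw [Units.val_pow_eq_pow_val, ← h1]
  exact hx

include hn hs hF in
/-- **`O₂(Aut S)`** -/
theorem pCore_eq : Cfsg.pCore 2 (MulAut (Heis σ)) = ker σ := by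
  apply le_antisymm
  · intro φ hφ
    have hp := Lib.Cores.pCore_isPGroup (G := MulAut (Heis σ)) 2
    have hnorm := Lib.Cores.pCore_normal (G := MulAut (Heis σ)) 2
    have hpow : ∀ ψ ∈ Cfsg.pCore 2 (MulAut (Heis σ)), ∃ k : ℕ, ψ ^ 2 ^ k = 1 := by
      intro ψ hψ
      obtain ⟨k, hk⟩ := hp ⟨ψ, hψ⟩
      exact ⟨k, by simpa using congrArg Subtype.val hk⟩
    obtain ⟨c, θ, τ, hθ, hτ, hφe⟩ := exists_form (one_lt_q hn) hs hF φ
    have hφa : ∀ y, (φ y).a = c * θ y.a := fun y => by rw [hφe, aut_a]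
    -- `θ = 1`
    have hθ1 : ∀ d : Fˣ, θ (d : F) = d := by
      intro d
      let m : MulAut (Heis σ) := aut d (RingEquiv.refl F) 0 (comm_sigma hs _) (fun x => by simp)
      have hm : ∀ x, (m x).a = d * x.a := fun x => by
        change (aut d (RingEquiv.refl F) 0 _ _ x).a = _
        rw [aut_a]; rfl
      have hmi : ∀ x, (m⁻¹ x).a = (d : F)⁻¹ * x.a := by
        intro x
        have h1 := hm (m⁻¹ x)
        rw [MulAut.apply_inv_self] at h1
        rw [h1, ← mul_assoc, inv_mul_cancel₀ d.ne_zero, one_mul]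
      have hc : φ * (m * φ⁻¹ * m⁻¹) ∈ Cfsg.pCore 2 (MulAut (Heis σ)) :=
        Subgroup.mul_mem _ hφ (hnorm.conj_mem _ (Subgroup.inv_mem _ hφ) m)
      obtain ⟨k, hk⟩ := hpow _ hc
      have hφi : ∀ x, (c : F) * θ ((φ⁻¹ x).a) = x.a := by
        intro x
        have h1 : (φ (φ⁻¹ x)).a = x.a := by rw [MulAut.apply_inv_self]
        rwa [hφa] at h1
      have hval : ∀ x, ((φ * (m * φ⁻¹ * m⁻¹)) x).a = (Units.mk0 (θ d) (by
          rw [Ne, map_eq_zero]; exact d.ne_zero) * d⁻¹ : Fˣ) * x.a := by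
        intro x
        rw [MulAut.mul_apply, MulAut.mul_apply, MulAut.mul_apply, hφa, hm, map_mul]
        have h1 := hφi (m⁻¹ x)
        rw [hmi] at h1
        rw [Units.val_mul, Units.val_mk0, Units.val_inv_eq_inv_val, mul_assoc, ← h1]
        ring
      have h1 := mem_ker_of_pow hn hs hF hval hk
      have h2 := congrArg Units.val (mul_inv_eq_one.1 h1)
      exact h2
    have hθ2 : ∀ x, θ x = x := by
      intro x
      by_cases hx : x = 0
      · rw [hx, map_zero]
      · exact hθ1 (Units.mk0 x hx)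
    obtain ⟨k, hk⟩ := hpow φ hφ
    have hval : ∀ x, (φ x).a = c * x.a := by
      intro x
      rw [hφe, aut_a, hθ2]
    have hc1 := mem_ker_of_pow hn hs hF hval hk
    intro x
    rw [hval, hc1, Units.val_one, one_mul]
  · refine Lib.Cores.le_pCore (ker_normal hn hs hF) ?_
    exact IsPGroup.of_card (card_ker hn hs hF)

end

/-- **S3162** -/
theorem main {S : Type*} [Group S] [Finite S] (n : ℕ) (hn : 1 ≤ n) {F : Type*} [Field F] [Fintype F]
    (hF : Fintype.card F = 4 ^ n) (P : Sylow 2 ↥(Cfsg.SU 3 F (2 ^ n)))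
    (hS : Nonempty (S ≃* ↥(P : Subgroup ↥(Cfsg.SU 3 F (2 ^ n))))) :
    Cfsg.IsElementaryAbelian 2 (Cfsg.pCore 2 (MulAut S)) ∧ Nat.card ↥(Cfsg.pCore 2 (MulAut S)) = 2 ^ (2 * n ^ 2) ∧
      Nat.card (MulAut S) = 2 ^ (2 * n ^ 2) * (2 * n * ((2 ^ n) ^ 2 - 1)) := by
  have hF' : Nat.card F = (2 ^ n) ^ 2 := by
    rw [Nat.card_eq_fintype_card, hF, ← pow_mul, mul_comm, pow_mul]; norm_num
  obtain ⟨hchar, σ, hσ, hs, hSU, -⟩ := Cfsg.Agent.LieRecognition.PSUThreeSylow.exists_heis_equiv F hn hF'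
  obtain ⟨e1⟩ := hS
  obtain ⟨e2⟩ := hSU P
  let e : Heis σ ≃* S := e2.trans e1.symm
  let E : MulAut (Heis σ) ≃* MulAut S := MulAut.congr e
  have hcore : (Cfsg.pCore 2 (MulAut (Heis σ))).map E.toMonoidHom = Cfsg.pCore 2 (MulAut S) :=
    Lib.Cores.map_equiv_pCore E 2
  rw [← hcore, pCore_eq hn hs hF']
  refine ⟨?_, ?_, ?_⟩
  · obtain ⟨h1, h2⟩ := ker_elementary hn hs hF'
    refine ⟨⟨⟨?_⟩⟩, ?_⟩
    · rintro ⟨_, ⟨x, hx, rfl⟩⟩ ⟨_, ⟨y, hy, rfl⟩⟩
      apply Subtype.ext
      change E x * E y = E y * E x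
      rw [← map_mul, ← map_mul]
      congr 1
      exact congrArg Subtype.val (h1.is_comm.comm ⟨x, hx⟩ ⟨y, hy⟩)
    · rintro _ ⟨x, hx, rfl⟩
      rw [← map_pow, h2 x hx, map_one]
  · rw [Nat.card_congr (Subgroup.equivMapOfInjective (ker σ) E.toMonoidHom E.injective).toEquiv.symm]
    exact card_ker hn hs hF'
  · rw [← Nat.card_congr E.toEquiv]
    exact card_mulAut hn hs hF'

end Cfsg.Agent.H300.HeisAut
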