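import Cfsg.Agent.H300.SixRow
import Cfsg.Agent.H300.D8Three
import Cfsg.Agent.OddHalf.NI3.Ex.OEight
import Cfsg.Agent.H436.TTPsl2
import Cfsg.Agent.S0255
import Cfsg.Agent.SmallSimple.PSLTwoPart
import Cfsg.Agent.S0254

/-!
# Groups acting on `L_2(q)` with odd kernel (helper300)

* `rank_of_tight` : `SectionalPRankLE 2 4 X` if `C_X(x)` acts on a `Tight` group with odd kernel;
* `no_sixteen` : no elementary abelian subgroup of order 16 acts faithfully on `L_2(q)`, `q` odd;
* `no_sixty_four` : `64` does not divide `|C|`, if `16` does not divide `|L_2(q)|`.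
-/

set_option autoImplicit false

namespace Cfsg.Agent.H300.KillLem

open Subgroup Cfsg Cfsg.Agent Cfsg.Agent.H300.SporBase Cfsg.Agent.H300.D8Base Matrix

universe u v

/-- transport of an action -/
def _root_.Cfsg.Agent.H300.SporBase.Act.congr {C : Type u} [Group C] {P : Type v} [Group P] {P' : Type*} [Group P']
    (S : Act C P) (e : P ≃* P') : Act C P' where
  A := S.A
  norm := S.norm
  π := e.toMonoidHom.comp S.π
  surj := e.surjective.comp S.surj
  φ := (MulAut.congr e).toMonoidHom.comp S.φ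
  compat := fun g a => by
    change e (S.π _) = e (S.φ g (e.symm (e (S.π a))))
    rw [S.compat, e.symm_apply_apply]
  odd := by
    have h : ((MulAut.congr e).toMonoidHom.comp S.φ).ker = S.φ.ker := by
      ext g
      rw [MonoidHom.mem_ker, MonoidHom.mem_ker, MonoidHom.comp_apply]
      exact (MulAut.congr e).map_eq_one_iff
    rw [h]
    exact S.odd

theorem exists_gens {P : Type*} [Group P] {V : Subgroup P} (h4 : Nat.card ↥V = 4) (h2 : ∀ a ∈ V, a * a = 1)
    (hc : ∀ a ∈ V, ∀ b ∈ V, a * b = b * a) : ∃ a b, a ∈ V ∧ b ∈ V ∧ a ≠ 1 ∧ b ≠ 1 ∧ a ≠ b ∧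
      ∀ v ∈ V, v = 1 ∨ v = a ∨ v = b ∨ v = a * b := by
  have hfin : Finite ↥V := Nat.finite_of_card_ne_zero (by rw [h4]; norm_num)
  have hnt : Nontrivial ↥V := by
    apply Finite.one_lt_card_iff_nontrivial.1
    rw [h4]; norm_num
  obtain ⟨a, ha⟩ := exists_ne (1 : ↥V)
  obtain ⟨b, hb1, hb2⟩ : ∃ b : ↥V, b ≠ 1 ∧ b ≠ a := by
    by_contra hno
    push Not at hno
    have h1 : (Set.univ : Set ↥V) ⊆ {1, a} := by
      intro v _
      by_cases hv : v = 1
      · exact Or.inl hv
      · exact Or.inr (hno v hv)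
    have h3 := Set.ncard_le_ncard h1 (Set.toFinite _)
    rw [Set.ncard_univ, h4, Set.ncard_pair (Ne.symm ha)] at h3
    omega
  refine ⟨a, b, a.2, b.2, fun h => ha (Subtype.ext h), fun h => hb1 (Subtype.ext h), fun h => hb2 (Subtype.ext h.symm),
    fun v hv => ?_⟩
  have haa := h2 a a.2
  have hbb := h2 b b.2
  have hab1 : (a : P) * b ≠ 1 := fun h => hb2 (Subtype.ext (by
    have : (b : P) = (a : P)⁻¹ := (inv_eq_of_mul_eq_one_right h).symm
    rw [this, inv_eq_of_mul_eq_one_left haa]))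
  by_contra hno
  push Not at hno
  obtain ⟨n1, n2, n3, n4⟩ := hno
  have hcard : 5 ≤ Nat.card ↥V := by
    let f : Fin 5 → ↥V := ![1, a, b, a * b, ⟨v, hv⟩]
    have hf : Function.Injective f := by
      have e1 : (1 : ↥V) ≠ a := Ne.symm ha
      have e2 : (1 : ↥V) ≠ b := Ne.symm hb1
      have e3 : (1 : ↥V) ≠ a * b := fun h => hab1 (congrArg Subtype.val h).symm
      have e4 : (1 : ↥V) ≠ ⟨v, hv⟩ := fun h => n1 (congrArg Subtype.val h).symm
      have e5 : a ≠ a * b := fun h => hb1 (mul_eq_left.1 h.symm)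
      have e6 : b ≠ a * b := fun h => ha (mul_eq_right.1 h.symm)
      have e7 : a ≠ ⟨v, hv⟩ := fun h => n2 (congrArg Subtype.val h).symm
      have e8 : b ≠ ⟨v, hv⟩ := fun h => n3 (congrArg Subtype.val h).symm
      have e9 : a * b ≠ ⟨v, hv⟩ := fun h => n4 (congrArg Subtype.val h).symm
      intro i j hij
      fin_cases i <;> fin_cases j <;>
        first
          | rfl
          | (exfalso; first
              | exact e1 hij | exact e1 hij.symm | exact e2 hij | exact e2 hij.symm | exact e3 hij | exact e3 hij.symm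
              | exact e4 hij | exact e4 hij.symm | exact e5 hij | exact e5 hij.symm | exact e6 hij | exact e6 hij.symm
              | exact e7 hij | exact e7 hij.symm | exact e8 hij | exact e8 hij.symm | exact e9 hij | exact e9 hij.symm
              | exact hb2 hij | exact hb2 hij.symm)
    have := Nat.card_le_card_of_injective f hf
    simpa using this
  omega

/-- **`Tight` groups** -/
theorem rank_of_tight {X : Type u} [Group X] [Finite X] {x : MulAut X} (hxx : x * x = 1) (hx1 : x ≠ 1) {P : Type v}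
    [Group P] [Finite P] (S : Act ↥(fixedSubgroup x) P) (hP : Tight P) : SectionalPRankLE 2 4 X := by
  obtain ⟨V, h1, h2, h3, h4⟩ := hP
  obtain ⟨a, b, ha, hb, ha1, hb1, hne, hall⟩ := exists_gens h3 h2 h1
  refine rank_of_act hxx hx1 S (h2 a ha) (h2 b hb) (h1 a ha b hb) ha1 hb1 hne ?_
  intro g _ hga hgb
  obtain ⟨c, hc, hgc⟩ := h4 (S.φ g) (by
    intro v hv
    rcases hall v hv with rfl | rfl | rfl | rfl
    · rw [map_one]
    · exact hga
    · exact hgb
    · rw [map_mul, hga, hgb])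
  exact ⟨c, hall c hc, hgc⟩

/-- `L_2(7)` -/
theorem rank_seven {X : Type u} [Group X] [Finite X] {x : MulAut X} (hxx : x * x = 1) (hx1 : x ≠ 1) {F : Type*}
    [Field F] [Fintype F] (hF : Fintype.card F = 7) (S : Act ↥(fixedSubgroup x) (ProjectiveSpecialLinearGroup (Fin 2) F)) :
    SectionalPRankLE 2 4 X := by
  have hK : Fintype.card (ZMod 2) = 2 := ZMod.card 2
  obtain ⟨e⟩ := S0255.result (F := F) (K := ZMod 2) hF hK
  exact rank_of_tight hxx hx1 (S.congr e) (D8Three.tight hK)

/-- elementary abelian subgroups of order 16 -/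
theorem no_sixteen {C : Type u} [Group C] [Finite C] {F : Type*} [Field F] [Fintype F] (hF : Odd (Fintype.card F))
    (S : Act C (ProjectiveSpecialLinearGroup (Fin 2) F)) (E : Subgroup C) (h2 : ∀ a ∈ E, a * a = 1)
    (hE : Nat.card ↥E = 16) : False := by
  have hinj : Function.Injective (S.φ.comp E.subtype) := by
    rw [injective_iff_map_eq_one]
    intro a ha
    apply Subtype.ext
    exact S.eq_one (k := 1) ha (by rw [pow_one, pow_two]; exact h2 _ a.2)
  have h1 := OddHalf.NI.Ex.RankAut.card_le_eight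
    (GH.L2Aut.Rep.ofEquiv (GH.L2Aut.two_ne_zero_of_odd hF) (MulEquiv.refl (ProjectiveSpecialLinearGroup (Fin 2) F)))
    (E.map S.φ) (by
      rintro _ ⟨a, ha, rfl⟩
      rw [← map_mul, h2 a ha, map_one])
  have h3 : Nat.card ↥(E.map S.φ) = Nat.card ↥E := by
    have h4 : E.map S.φ = (S.φ.comp E.subtype).range := by
      rw [MonoidHom.range_comp, range_subtype]
    rw [h4]
    exact (Nat.card_congr (MonoidHom.ofInjective hinj).toEquiv).symm
  rw [h3, hE] at h1
  omega

/-- `q ≡ 1 (mod 16)` for fourth powers -/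
theorem sixteen_dvd {q : ℕ} (hq : q % 16 = 1) (hq1 : 1 < q) : 32 ∣ q ^ 2 - 1 := by
  obtain ⟨k, rfl⟩ : ∃ k, q = 16 * k + 1 := ⟨q / 16, by omega⟩
  have h : (16 * k + 1) ^ 2 - 1 = 32 * (k * (8 * k + 1)) := by
    have : (16 * k + 1) ^ 2 = 32 * (k * (8 * k + 1)) + 1 := by ring
    rw [this]
    rfl
  rw [h]
  exact Dvd.intro _ rfl

theorem not_dvd_aut {F : Type*} [Field F] [Fintype F] (hF : Odd (Fintype.card F)) (h3 : 3 < Fintype.card F)
    (h16 : ¬ 16 ∣ Nat.card (ProjectiveSpecialLinearGroup (Fin 2) F)) :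
    ¬ 64 ∣ Nat.card (MulAut (ProjectiveSpecialLinearGroup (Fin 2) F)) := by
  have hprime : Fact (ringChar F).Prime := ⟨CharP.char_is_prime F (ringChar F)⟩
  obtain ⟨n, hn⟩ := FiniteField.card F (ringChar F)
  have h1 := H436.TT.card_mulAut (F := F) (ringChar F) n hn.2 n.pos h3
  have h2 := SmallSimple.PSLTwoPart.card_psl_two_odd hF
  intro h64
  rw [h1] at h64
  -- `4` divides `n`
  have hg : Nat.gcd 2 (Fintype.card F - 1) = 2 := by
    apply Nat.gcd_eq_left
    obtain ⟨k, hk⟩ := hF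
    exact ⟨k, by omega⟩
  rw [hg] at h64
  have h4 : 4 ∣ (n : ℕ) := by
    by_contra h4
    have h5 : 32 ∣ (n : ℕ) * Nat.card (ProjectiveSpecialLinearGroup (Fin 2) F) := by
      have : 2 * 32 ∣ 2 * ((n : ℕ) * Nat.card (ProjectiveSpecialLinearGroup (Fin 2) F)) := by
        rw [← mul_assoc]; exact h64
      exact Nat.dvd_of_mul_dvd_mul_left (by norm_num) this
    -- 2-adic valuations
    obtain ⟨a, b, ha, hb⟩ : ∃ a b, (n : ℕ) = 2 ^ a * b ∧ Odd b := by
      obtain ⟨a, b, hb, hab⟩ := Nat.exists_eq_two_pow_mul_odd n.ne_zero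
      exact ⟨a, b, hab, hb⟩
    obtain ⟨c, e, hc, he⟩ : ∃ a b, Nat.card (ProjectiveSpecialLinearGroup (Fin 2) F) = 2 ^ a * b ∧ Odd b := by
      obtain ⟨a, b, hb, hab⟩ := Nat.exists_eq_two_pow_mul_odd
        (Nat.card_pos (α := ProjectiveSpecialLinearGroup (Fin 2) F)).ne'
      exact ⟨a, b, hab, hb⟩
    have ha2 : a ≤ 1 := by
      by_contra hlt
      apply h4
      rw [ha]
      exact (pow_dvd_pow 2 (show 2 ≤ a by omega)).trans (Dvd.intro _ rfl)
    have hc2 : c ≤ 3 := by
      by_contra hlt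
      apply h16
      rw [hc]
      exact (pow_dvd_pow 2 (show 4 ≤ c by omega)).trans (Dvd.intro _ rfl)
    rw [ha, hc] at h5
    have h6 : 2 ^ 5 ∣ 2 ^ (a + c) * (b * e) := by
      have : 2 ^ (a + c) * (b * e) = 2 ^ a * b * (2 ^ c * e) := by rw [pow_add]; ring
      rw [this]
      exact h5
    have h7 : (2 ^ 5).Coprime (b * e) := (Nat.coprime_two_left.2 (hb.mul he)).pow_left 5
    have h8 := h7.dvd_of_dvd_mul_right h6
    have h9 := Nat.pow_dvd_pow_iff_le_right' (b := 0) |>.1 h8
    omega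
  -- then `q` is a fourth power
  obtain ⟨m, hm⟩ := h4
  have hq : Fintype.card F % 16 = 1 := by
    rw [hn.2, hm, mul_comm 4 m, pow_mul]
    have ho : Odd (ringChar F ^ m) := by
      apply Odd.pow
      rw [hn.2] at hF
      exact Nat.Odd.of_mul_right (by
        have : ringChar F ^ (n : ℕ) = ringChar F ^ ((n : ℕ) - 1) * ringChar F := by
          rw [← pow_succ, Nat.sub_add_cancel n.pos]
        rwa [this] at hF)
    have h5 : (ringChar F ^ m) % 16 < 16 := Nat.mod_lt _ (by norm_num)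
    have h6 : (ringChar F ^ m) % 2 = 1 := Nat.odd_iff.1 ho
    rw [Nat.pow_mod]
    have h7 : (ringChar F ^ m) % 16 % 2 = 1 := by omega
    generalize (ringChar F ^ m) % 16 = r at h5 h7
    interval_cases r <;> first | rfl | omega
  have h5 := sixteen_dvd hq (by omega)
  apply h16
  have h6 : 2 * 16 ∣ 2 * Nat.card (ProjectiveSpecialLinearGroup (Fin 2) F) := by
    rw [h2]
    exact h5.trans (Dvd.intro_left _ rfl)
  exact Nat.dvd_of_mul_dvd_mul_left (by norm_num) h6

/-- `64` does not divide `|C|` -/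
theorem no_sixty_four {C : Type u} [Group C] [Finite C] {F : Type*} [Field F] [Fintype F] (hF : Odd (Fintype.card F))
    (h3 : 3 < Fintype.card F) (h16 : ¬ 16 ∣ Nat.card (ProjectiveSpecialLinearGroup (Fin 2) F))
    (S : Act C (ProjectiveSpecialLinearGroup (Fin 2) F)) : ¬ 64 ∣ Nat.card C := fun h =>
  not_dvd_aut hF h3 h16 (S.two_pow_dvd (k := 6) h)

end Cfsg.Agent.H300.KillLem
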