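import Cfsg.Agent.H976.TightQ.Red
import Cfsg.Agent.Cit.OneBasic
import Cfsg.Agent.Cit.Commute
import Cfsg.Agent.Cit.Nil.Dich
import Cfsg.Agent.Solvable.UniqueOrderP
import Cfsg.Agent.SectRankFour.OutAb
import Cfsg.Agent.ClassicalGeometry.SLTwoFour
import Cfsg.Agent.OddHalf.D7Out.OddGen
import Cfsg.Agent.H300.SporBase
import Cfsg.Agent.H300.D8Base

/-!
# `C_X(A)` with quaternion Sylow 2-subgroups (helper300, for S3160)

`A ≤ X` quasisimple, `A/Z(A) ≅ PSL₂(q)`, dihedral Sylow 2-subgroups of order 8, `|Z(A)|` odd, `C(v) ≤ N(A)` for the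
involutions `v` of `C(A)`, the Sylow 2-subgroups of `C(A)` generalised quaternion.  Then for the involution `z` of
`C(A)`, `J = C(A) ∩ C(z)`: the class of `O²(J)` (of `J`, if `J` is 2-nilpotent) satisfies `One`, or there is a normal
subgroup `B` of `C(z)` with cyclic Sylow 2-subgroups, `B ≤ J` and `[C(z), J] ≤ B`.
-/

set_option autoImplicit false
set_option linter.style.haveILetI false
set_option linter.unusedSectionVars false

namespace Cfsg.Agent.H300.QuatB

open Subgroup Cfsg Cfsg.Agent.Cit Cfsg.Agent.SectRankFour.OutAb Cfsg.Agent.H300.D8Base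

universe u v

/-! ### Dihedral Sylow subgroups modulo odd normal subgroups -/

theorem inf_eq_bot_of_odd {G : Type*} [Group G] [Finite G] {S N : Subgroup G} (hS : IsPGroup 2 S)
    (hN : Odd (Nat.card N)) {x : G} (hx : x ∈ S) (hxN : x ∈ N) : x = 1 := by
  obtain ⟨k, hk⟩ := hS ⟨x, hx⟩
  have h1 : x ^ 2 ^ k = 1 := congrArg Subtype.val hk
  have h2 : orderOf x ∣ 2 ^ k := orderOf_dvd_of_pow_eq_one h1
  have h3 : orderOf x ∣ Nat.card N := by
    have := orderOf_dvd_natCard (⟨x, hxN⟩ : N)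
    rwa [orderOf_mk] at this
  have h4 : Nat.Coprime (Nat.card N) (2 ^ k) := (Nat.coprime_two_right.2 hN).pow_right k
  exact orderOf_eq_one_iff.1 (Nat.eq_one_of_dvd_coprimes h4 h3 h2)

theorem D8_quot {G : Type*} [Group G] [Finite G] {N : Subgroup G} [N.Normal] (hN : Odd (Nat.card N)) (h : D8 G) :
    D8 (G ⧸ N) := by
  have : Fact (Nat.Prime 2) := ⟨Nat.prime_two⟩
  intro T
  let S : Sylow 2 G := default
  obtain ⟨e⟩ := h S
  have hS2 := S.isPGroup'
  let f : ↥(S : Subgroup G) →* G ⧸ N := (QuotientGroup.mk' N).comp (S : Subgroup G).subtype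
  have hf : Function.Injective f := by
    rw [injective_iff_map_eq_one]
    intro x hx
    have h1 : (x : G) ∈ N := (QuotientGroup.eq_one_iff _).1 hx
    exact Subtype.ext (inf_eq_bot_of_odd hS2 hN x.2 h1)
  have hr : f.range = (S.mapSurjective (QuotientGroup.mk'_surjective N) : Subgroup (G ⧸ N)) := by
    rw [MonoidHom.range_comp, range_subtype]
    rfl
  obtain ⟨g⟩ : Nonempty (↥(T : Subgroup (G ⧸ N)) ≃* ↥(S.mapSurjective (QuotientGroup.mk'_surjective N) :
      Subgroup (G ⧸ N))) := ⟨T.equiv _⟩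
  exact ⟨g.trans ((MulEquiv.subgroupCongr hr.symm).trans ((MonoidHom.ofInjective hf).symm.trans e))⟩

/-! ### Inner automorphisms -/

/-- `Out(A)` is abelian if `Out(A/Z(A))` is, `A` perfect -/
theorem outComm_of_bar {N : Type u} [Group N] (hN : commutator N = ⊤) (h : OutComm (N ⧸ center N)) :
    OutComm N := by
  let bar : MulAut N →* MulAut (N ⧸ center N) :=
    { toFun := fun φ => QuotientGroup.congr (center N) (center N) φ
        (Subgroup.characteristic_iff_map_eq.1 inferInstance φ)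
      map_one' := by
        ext p
        obtain ⟨q, rfl⟩ := QuotientGroup.mk_surjective p
        rfl
      map_mul' := fun a b => by
        ext p
        obtain ⟨q, rfl⟩ := QuotientGroup.mk_surjective p
        rfl }
  have hbar : ∀ (φ : MulAut N) (x : N), bar φ (QuotientGroup.mk x) = QuotientGroup.mk (φ x) := fun φ x => rfl
  intro α β
  obtain ⟨k', hk'⟩ := h (bar α) (bar β)
  obtain ⟨k, rfl⟩ := QuotientGroup.mk_surjective k'
  refine ⟨k, fun x => ?_⟩
  have h1 : (MulAut.conj k)⁻¹ * (α * β * α⁻¹ * β⁻¹) = 1 := by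
    refine SporBase.eq_one_of_bar hN _ fun y => ?_
    have h2 := hk' (QuotientGroup.mk y)
    rw [← map_inv, ← map_inv, ← map_mul, ← map_mul, ← map_mul, hbar] at h2
    have h3 : (QuotientGroup.mk (((MulAut.conj k)⁻¹ * (α * β * α⁻¹ * β⁻¹)) y) : N ⧸ center N) =
        QuotientGroup.mk y := by
      have h4 : ((MulAut.conj k)⁻¹ * (α * β * α⁻¹ * β⁻¹)) y = k⁻¹ * ((α * β * α⁻¹ * β⁻¹) y) * k := by
        rw [MulAut.mul_apply, ← map_inv, MulAut.conj_apply, inv_inv]
      rw [h4, QuotientGroup.mk_mul, QuotientGroup.mk_mul, h2]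
      rw [QuotientGroup.mk_inv]
      group
    exact QuotientGroup.eq.1 h3.symm
  have h5 : α * β * α⁻¹ * β⁻¹ = MulAut.conj k := by
    rw [inv_mul_eq_one] at h1
    exact h1.symm
  rw [h5, MulAut.conj_apply]

variable {X : Type u} [Group X] [Finite X] {A : Subgroup X}

/-- commutators of elements of `N(A)` induce inner automorphisms -/
theorem comm_mem (hA : OutComm ↥A) {x y : X} (hx : x ∈ normalizer (A : Set X)) (hy : y ∈ normalizer (A : Set X)) :
    x * y * x⁻¹ * y⁻¹ ∈ A ⊔ centralizer (A : Set X) := by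
  obtain ⟨k, hk⟩ := hA (normalizerMonoidHom A ⟨x, hx⟩) (normalizerMonoidHom A ⟨y, hy⟩)
  rw [← map_inv, ← map_inv, ← map_mul, ← map_mul, ← map_mul] at hk
  have h1 : (k : X)⁻¹ * (x * y * x⁻¹ * y⁻¹) ∈ centralizer (A : Set X) := by
    rw [mem_centralizer_iff]
    intro a ha
    have h2 := congrArg Subtype.val (hk ⟨a, ha⟩)
    have h3 : (x * y * x⁻¹ * y⁻¹) * a * (x * y * x⁻¹ * y⁻¹)⁻¹ = k * a * (k : X)⁻¹ := h2
    have h4 : (x * y * x⁻¹ * y⁻¹) * a = k * a * (k : X)⁻¹ * (x * y * x⁻¹ * y⁻¹) := by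
      rw [← h3]; group
    calc a * ((k : X)⁻¹ * (x * y * x⁻¹ * y⁻¹)) = (k : X)⁻¹ * (k * a * (k : X)⁻¹ * (x * y * x⁻¹ * y⁻¹)) := by group
      _ = (k : X)⁻¹ * ((x * y * x⁻¹ * y⁻¹) * a) := by rw [h4]
      _ = _ := by group
  have h5 : x * y * x⁻¹ * y⁻¹ = k * ((k : X)⁻¹ * (x * y * x⁻¹ * y⁻¹)) := by group
  rw [h5]
  exact mul_mem (mem_sup_left k.2) (mem_sup_right h1)

/-- two involutions of `A` are conjugate in `A` -/
theorem conj_inv {N : Type u} [Group N] [Finite N] (hZ : Odd (Nat.card ↥(center N))) {F : Type v} [Field F]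
    [Fintype F] (hF : Odd (Fintype.card F)) (e : N ⧸ center N ≃* Matrix.ProjectiveSpecialLinearGroup (Fin 2) F)
    {a b : N} (ha : orderOf a = 2) (hb : orderOf b = 2) : ∃ k : N, k * a * k⁻¹ = b := by
  have : Fact (Nat.Prime 2) := ⟨Nat.prime_two⟩
  have h1 : ∀ c : N, orderOf c = 2 → orderOf (e (QuotientGroup.mk c)) = 2 := by
    intro c hc
    rw [MulEquiv.orderOf_eq]
    apply orderOf_eq_prime
    · rw [← QuotientGroup.mk_pow, ← hc, pow_orderOf_eq_one, QuotientGroup.mk_one]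
    · intro h2
      have h3 : c ∈ center N := (QuotientGroup.eq_one_iff c).1 h2
      have h4 := orderOf_dvd_natCard (⟨c, h3⟩ : ↥(center N))
      rw [orderOf_mk, hc] at h4
      rw [← Nat.not_even_iff_odd, even_iff_two_dvd] at hZ
      exact hZ h4
  obtain ⟨c, hc⟩ := ClassicalGeometry.SLTwoFour.psl_isConj hF _ _ (h1 a ha) (h1 b hb)
  obtain ⟨k', hk'⟩ := e.surjective (c : Matrix.ProjectiveSpecialLinearGroup (Fin 2) F)
  obtain ⟨k, rfl⟩ := QuotientGroup.mk_surjective k'
  refine ⟨k, ?_⟩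
  have h5 : (c : Matrix.ProjectiveSpecialLinearGroup (Fin 2) F) * e (QuotientGroup.mk a) =
      e (QuotientGroup.mk b) * c := hc
  rw [← hk', ← map_mul, ← map_mul, e.injective.eq_iff, ← QuotientGroup.mk_mul, ← QuotientGroup.mk_mul] at h5
  have h6 := QuotientGroup.eq.1 h5
  have h7 : (k * a * k⁻¹)⁻¹ * b ∈ center N := by
    have h8 : (k * a * k⁻¹)⁻¹ * b = k * ((k * a)⁻¹ * (b * k)) * k⁻¹ := by group
    rw [h8]
    exact Normal.conj_mem inferInstance _ h6 _
  have ha2 : a * a = 1 := by rw [← pow_two, ← ha, pow_orderOf_eq_one]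
  have hb2 : b * b = 1 := by rw [← pow_two, ← hb, pow_orderOf_eq_one]
  have h9 : ((k * a * k⁻¹)⁻¹ * b) ^ 2 = 1 := by
    have h10 : b = (k * a * k⁻¹) * ((k * a * k⁻¹)⁻¹ * b) := by group
    have h11 := mem_center_iff.1 h7 (k * a * k⁻¹)
    have h12 : b * b = (k * (a * a) * k⁻¹) * ((k * a * k⁻¹)⁻¹ * b) ^ 2 := by
      calc b * b = ((k * a * k⁻¹) * ((k * a * k⁻¹)⁻¹ * b)) * ((k * a * k⁻¹) * ((k * a * k⁻¹)⁻¹ * b)) := by
            rw [← h10]
        _ = (k * a * k⁻¹) * (((k * a * k⁻¹)⁻¹ * b) * (k * a * k⁻¹)) * ((k * a * k⁻¹)⁻¹ * b) := by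
            simp only [mul_assoc]
        _ = (k * a * k⁻¹) * ((k * a * k⁻¹) * ((k * a * k⁻¹)⁻¹ * b)) * ((k * a * k⁻¹)⁻¹ * b) := by rw [h11]
        _ = (k * (a * a) * k⁻¹) * ((k * a * k⁻¹)⁻¹ * b) ^ 2 := by rw [pow_two]; group
    rw [hb2, ha2, mul_one, mul_inv_cancel, one_mul] at h12
    exact h12.symm
  have h13 : (k * a * k⁻¹)⁻¹ * b = 1 := by
    have h14 : orderOf ((k * a * k⁻¹)⁻¹ * b) ∣ 2 := orderOf_dvd_of_pow_eq_one h9
    have h15 := orderOf_dvd_natCard (⟨_, h7⟩ : ↥(center N))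
    rw [orderOf_mk] at h15
    exact orderOf_eq_one_iff.1 (Nat.eq_one_of_dvd_coprimes (Nat.coprime_two_right.2 hZ) h15 h14)
  exact inv_mul_eq_one.1 h13

/-! ### The subgroup `B` -/

/-- the hypotheses on `z` -/
structure Zed (A : Subgroup X) (z : X) : Prop where
  ord : orderOf z = 2
  cen : z ∈ centralizer (A : Set X)
  st : ∀ v ∈ centralizer (A : Set X), orderOf v = 2 → centralizer {v} ≤ normalizer (A : Set X)
  uniq : ∀ t ∈ centralizer (A : Set X) ⊓ centralizer {z}, orderOf t = 2 → t = z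

namespace Zed

variable {z : X}

theorem sq (h : Zed A z) : z * z = 1 := by rw [← pow_two, ← h.ord, pow_orderOf_eq_one]

theorem le_norm (h : Zed A z) : centralizer {z} ≤ normalizer (A : Set X) := h.st z h.cen h.ord

theorem norm_cent (A : Subgroup X) :
    normalizer (A : Set X) ≤ normalizer ((centralizer (A : Set X) : Subgroup X) : Set X) := by
  rw [le_normalizer_iff]
  intro y hy c hc
  rw [mem_centralizer_iff] at hc ⊢
  intro a ha
  have h1 : y⁻¹ * a * y ∈ A := by
    have := (mem_normalizer_iff.1 (inv_mem hy) a).1 ha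
    simpa using this
  have h2 := hc _ h1
  calc a * (y * c * y⁻¹) = y * (y⁻¹ * a * y * c) * y⁻¹ := by group
    _ = y * (c * (y⁻¹ * a * y)) * y⁻¹ := by rw [h2]
    _ = _ := by group

theorem le_normJ (h : Zed A z) : centralizer {z} ≤
    normalizer ((centralizer (A : Set X) ⊓ centralizer {z} : Subgroup X) : Set X) := by
  rw [le_normalizer_iff]
  intro y hy c hc
  obtain ⟨h1, h2⟩ := mem_inf.1 hc
  refine mem_inf.2 ⟨?_, mul_mem (mul_mem hy h2) (inv_mem hy)⟩
  exact (mem_normalizer_iff.1 (norm_cent A (h.le_norm hy)) c).1 h1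

/-- an element of `J` with square one -/
theorem eq_of_sq (h : Zed A z) {t : X} (h1 : t ∈ centralizer (A : Set X)) (h2 : t * z = z * t) (h3 : t * t = 1) :
    t = 1 ∨ t = z := by
  by_cases h4 : t = 1
  · exact Or.inl h4
  · exact Or.inr (h.uniq t (mem_inf.2 ⟨h1, mem_centralizer_singleton_iff.2 h2⟩)
      (orderOf_eq_prime (by rw [pow_two]; exact h3) h4))

end Zed

/-- Where `Hyp (cls M)` holds and `One (cls M)` fails, a conjugate of `z` acts on `A` like an involution of `A`. -/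
theorem exists_a {z : X} (h : Zed A z) (hA : OutComm ↥A) (hZ : Odd (Nat.card ↥(center ↥A)))
    {M : Subgroup X} (hyp : Hyp (cls M)) (hzM : zz M = z) (hMn : centralizer {z} ≤ normalizer (M : Set X)) (hno : ¬ One (cls M)) :
    ∃ (g a k : X), g * z * g⁻¹ = a * k ∧ g * z * g⁻¹ ≠ z ∧ a ∈ A ∧ orderOf a = 2 ∧ (k = 1 ∨ k = z) := by
  have h1 : ∃ S : Subgroup X, IsPGroup 2 S ∧ ∃ K ∈ OmS (cls M) S, ∃ L ∈ OmS (cls M) S, K ≠ L := by
    by_contra hc
    push Not at hc
    exact hno ⟨hyp, fun S hS K hK L hL => hc S hS K hK L hL⟩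
  obtain ⟨S0, hS0, K, hK, L0, hL0, hne0⟩ := h1
  obtain ⟨k0, rfl⟩ := hK.1
  obtain ⟨l0, rfl⟩ := hL0.1
  -- conjugate so that `K = M`
  obtain ⟨S, hS⟩ : ∃ S, S = cj k0⁻¹ S0 := ⟨_, rfl⟩
  obtain ⟨g, hg⟩ : ∃ g, g = k0⁻¹ * l0 := ⟨_, rfl⟩
  have hS2 : IsPGroup 2 S := by rw [hS]; exact isPGroup_cj hS0
  have hM : M ∈ OmS (cls M) S := by
    have := cj_mem_OmS hyp.conj k0⁻¹ hK
    rwa [cj_inv_cj, ← hS] at this
  have hL : cj g M ∈ OmS (cls M) S := by
    have := cj_mem_OmS hyp.conj k0⁻¹ hL0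
    rwa [← cj_mul, ← hS, ← hg] at this
  have hne : M ≠ cj g M := by
    intro h1
    apply hne0
    rw [hg, cj_mul] at h1
    have h2 := congrArg (cj k0) h1
    rwa [cj_cj_inv] at h2
  have hzL : zz (cj g M) = g * z * g⁻¹ := by rw [hyp.zz_cj (self_mem_cls M), hzM]
  have hzS : z ∈ M ⊓ S := by
    have := hyp.zz_mem_inf hS2 hM
    rwa [hzM] at this
  obtain ⟨c, w, n, hQ⟩ := hyp.exists_gq hL.1 (syl_inf hS2 hL)
  rw [hzL] at hQ
  have hcz : c * z = z * c := hyp.comm hS2 hL hM hne.symm hQ.c_mem hzS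
  have hwz : w * z = z * w := hyp.comm hS2 hL hM hne.symm hQ.v_mem hzS
  have hvz : (g * z * g⁻¹) * z = z * (g * z * g⁻¹) := hyp.comm hS2 hL hM hne.symm hQ.z_mem hzS
  have hvne : g * z * g⁻¹ ≠ z := by
    intro h2
    apply hne
    have h3 : g ∈ centralizer ({z} : Set X) := by
      rw [mem_centralizer_singleton_iff]
      exact mul_inv_eq_iff_eq_mul.1 h2
    exact (mem_normalizer_iff_cj.1 (hMn h3)).symm
  have hcN := h.le_norm (mem_centralizer_singleton_iff.2 hcz)
  have hwN := h.le_norm (mem_centralizer_singleton_iff.2 hwz)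
  have h4 : w * c * w⁻¹ * c⁻¹ ∈ A ⊔ centralizer (A : Set X) := comm_mem hA hwN hcN
  have h5 : (c * c) ∈ A ⊔ centralizer (A : Set X) := by
    rw [hQ.conj] at h4
    have := inv_mem h4
    simpa using this
  have h6 : g * z * g⁻¹ ∈ A ⊔ centralizer (A : Set X) := by
    rw [← hQ.z_eq, pow_succ', pow_mul, pow_two]
    exact pow_mem h5 _
  obtain ⟨a0, ha0, k1, hk1, h7⟩ := OneBasic.exists_mul_of_mem_sup (le_normalizer.trans (Zed.norm_cent A)) h6
  set v := g * z * g⁻¹ with hv
  have hv2 : v * v = 1 := by rw [hv]; have := h.sq; calc g * z * g⁻¹ * (g * z * g⁻¹) = g * (z * z) * g⁻¹ := by group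
      _ = 1 := by rw [this]; group
  have hcom : a0 * k1 = k1 * a0 := mem_centralizer_iff.1 hk1 a0 ha0
  have hcm : Commute a0 k1 := hcom
  have h8 : a0 * a0 = (k1 * k1)⁻¹ := by
    rw [eq_inv_iff_mul_eq_one]
    calc a0 * a0 * (k1 * k1) = a0 * (a0 * k1) * k1 := by group
      _ = a0 * (k1 * a0) * k1 := by rw [hcom]
      _ = (a0 * k1) * (a0 * k1) := by group
      _ = 1 := by rw [← h7]; exact hv2
  set m := Nat.card ↥(center ↥A) with hm
  have h9 : (a0 * a0) ^ m = 1 := by
    have h10 : (⟨a0 * a0, mul_mem ha0 ha0⟩ : ↥A) ∈ center ↥A := by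
      rw [mem_center_iff]
      intro b
      apply Subtype.ext
      change (b : X) * (a0 * a0) = (a0 * a0) * b
      rw [h8]
      exact mem_centralizer_iff.1 (inv_mem (mul_mem hk1 hk1)) b b.2
    have h12 : ((((⟨_, h10⟩ : ↥(center ↥A)) ^ m : ↥(center ↥A)) : ↥A) : X) = 1 := by
      rw [hm, pow_card_eq_one']
      rfl
    rw [coe_pow, coe_pow] at h12
    exact h12
  have h10 : (k1 * k1) ^ m = 1 := by
    have : k1 * k1 = (a0 * a0)⁻¹ := by rw [h8, inv_inv]
    rw [this, inv_pow, h9, inv_one]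
  have h11 : v = a0 ^ m * k1 ^ m := by
    rw [← hcm.mul_pow, ← h7]
    obtain ⟨r, hr⟩ := hZ
    rw [hr, pow_succ, pow_mul, pow_two, hv2, one_pow, one_mul]
  have ha2 : a0 ^ m * a0 ^ m = 1 := by
    rw [← (Commute.refl a0).mul_pow m]
    exact h9
  have hk2 : k1 ^ m * k1 ^ m = 1 := by
    rw [← (Commute.refl k1).mul_pow m]
    exact h10
  have haA : a0 ^ m ∈ A := pow_mem ha0 m
  have hkC : k1 ^ m ∈ centralizer (A : Set X) := pow_mem hk1 m
  have haz : a0 ^ m * z = z * a0 ^ m := mem_centralizer_iff.1 h.cen _ haA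
  have hkz : k1 ^ m * z = z * k1 ^ m := by
    have h12 : k1 ^ m = a0 ^ m * v := by
      rw [h11, ← mul_assoc, ha2, one_mul]
    rw [h12, mul_assoc, hvz, ← mul_assoc, haz, mul_assoc]
  have hk := h.eq_of_sq hkC hkz hk2
  refine ⟨g, a0 ^ m, k1 ^ m, h11, hvne, haA, ?_, hk⟩
  apply orderOf_eq_prime (by rw [pow_two]; exact ha2)
  intro h13
  rw [h13, one_mul] at h11
  rcases hk with h14 | h14
  · rw [h14] at h11
    have h15 : z = 1 := by
      have : g * z * g⁻¹ = 1 := h11
      simpa using this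
    have := h.ord
    rw [h15, orderOf_one] at this
    omega
  · exact hvne (h11.trans h14)

theorem D8_range {N : Type u} [Group N] [Finite N] (hZ : Odd (Nat.card ↥(center N))) (hD : D8 N) :
    D8 ↥(MulAut.conj : N →* MulAut N).range := by
  have h1 : (MulAut.conj : N →* MulAut N).ker = center N := by
    ext x
    rw [MonoidHom.mem_ker, mem_center_iff]
    constructor
    · intro h y
      have h2 := congrArg (fun t : MulAut N => t y) h
      simp only [MulAut.conj_apply, MulAut.one_apply] at h2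
      exact (mul_inv_eq_iff_eq_mul.1 h2).symm
    · intro h
      ext y
      rw [MulAut.conj_apply, MulAut.one_apply, ← h y, mul_inv_cancel_right]
  have h2 : Odd (Nat.card ↥(MulAut.conj : N →* MulAut N).ker) := by rw [h1]; exact hZ
  exact (D8_quot h2 hD).congr (QuotientGroup.quotientKerEquivRange _)

/-- a 2-group with one involution acting faithfully by inner automorphisms on a `D8`-group is cyclic -/
theorem cyclic_of_faithful {P : Type v} [Group P] [Finite P] (hP : IsPGroup 2 P)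
    (hU : ∀ x y : P, x ≠ 1 → y ≠ 1 → x * x = 1 → y * y = 1 → x = y) {N : Type u} [Group N] [Finite N]
    (hZ : Odd (Nat.card ↥(center N))) (hD : D8 N) (f : P →* MulAut N) (hf : Function.Injective f)
    (hr : ∀ x, f x ∈ (MulAut.conj : N →* MulAut N).range) : IsCyclic P := by
  have : Fact (Nat.Prime 2) := ⟨Nat.prime_two⟩
  have hU' : Solvable.UniqueOrderP.UniqueP 2 P := by
    intro x y hx hx2 hy2
    rw [pow_two] at hx2 hy2
    by_cases hy : y = 1
    · rw [hy]; exact one_mem _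
    · rw [hU x y hx hy hx2 hy2]; exact mem_zpowers y
  rcases Solvable.UniqueOrderP.cyclic_or_quaternion hP hU' with h1 | ⟨-, m, hm, ⟨q⟩⟩
  · exact h1
  exfalso
  have hR := D8_range hZ hD
  let f' : P →* ↥(MulAut.conj : N →* MulAut N).range := f.codRestrict _ hr
  have hf' : Function.Injective f' := fun x y h => hf (congrArg Subtype.val h)
  have hp : IsPGroup 2 ↥f'.range := by
    have h1 : IsPGroup 2 ↥((⊤ : Subgroup P).map f') := (hP.to_subgroup ⊤).map f'
    rwa [← MonoidHom.range_eq_map] at h1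
  obtain ⟨T, hT⟩ := hp.exists_le_sylow
  have hcT : Nat.card ↥(T : Subgroup ↥(MulAut.conj : N →* MulAut N).range) = 8 := hR.card_sylow T
  have hcP : Nat.card P = 4 * 2 ^ m := by
    have : NeZero (2 ^ m) := ⟨by positivity⟩
    rw [Nat.card_congr q.toEquiv, Nat.card_eq_fintype_card, QuaternionGroup.card]
  have hcr : Nat.card ↥f'.range = 4 * 2 ^ m := by
    rw [← hcP]
    exact (Nat.card_congr (MonoidHom.ofInjective hf').toEquiv).symm
  have h8 : 8 ≤ Nat.card ↥f'.range := by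
    obtain ⟨r, rfl⟩ := Nat.exists_eq_succ_of_ne_zero hm
    rw [hcr, pow_succ]
    have := Nat.one_le_two_pow (n := r)
    omega
  have heq : f'.range = (T : Subgroup ↥(MulAut.conj : N →* MulAut N).range) :=
    Subgroup.eq_of_le_of_card_ge hT (by rw [hcT]; exact h8)
  obtain ⟨d⟩ := hR T
  let φ : P ≃* DihedralGroup 4 := (MonoidHom.ofInjective hf').trans ((MulEquiv.subgroupCongr heq).trans d)
  have h2 : φ.symm (DihedralGroup.sr 0) = φ.symm (DihedralGroup.sr 1) := by
    apply hU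
    · intro h
      rw [map_eq_one_iff _ φ.symm.injective] at h
      revert h; decide
    · intro h
      rw [map_eq_one_iff _ φ.symm.injective] at h
      revert h; decide
    · rw [← map_mul, DihedralGroup.sr_mul_self, map_one]
    · rw [← map_mul, DihedralGroup.sr_mul_self, map_one]
  have h3 := φ.symm.injective h2
  revert h3
  decide

/-- **The subgroup `B`.** -/
theorem exists_B {z : X} (h : Zed A z) (hA : OutComm ↥A) (hZ : Odd (Nat.card ↥(center ↥A))) {F : Type v} [Field F]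
    [Fintype F] (hF : Odd (Fintype.card F)) (e : ↥A ⧸ center ↥A ≃* Matrix.ProjectiveSpecialLinearGroup (Fin 2) F)
    (hD : D8 ↥A) {g a k : X} (hv : g * z * g⁻¹ = a * k) (hvne : g * z * g⁻¹ ≠ z) (ha : a ∈ A) (ha2 : orderOf a = 2)
    (hk : k = 1 ∨ k = z) :
    ∃ B : Subgroup X, B ≤ centralizer (A : Set X) ⊓ centralizer {z} ∧
      (∀ c ∈ centralizer ({z} : Set X), ∀ b ∈ B, c * b * c⁻¹ ∈ B) ∧
      (∀ c ∈ centralizer ({z} : Set X), ∀ j ∈ centralizer (A : Set X) ⊓ centralizer {z}, c * j * c⁻¹ * j⁻¹ ∈ B) ∧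
      ∀ P : Sylow 2 ↥B, IsCyclic ↥(P : Subgroup ↥B) := by
  have : Fact (Nat.Prime 2) := ⟨Nat.prime_two⟩
  set v := g * z * g⁻¹ with hvd
  -- `C(v)` normalises `A' = A ^ g`
  have hCv : centralizer ({v} : Set X) ≤ normalizer ((cj g A : Subgroup X) : Set X) := by
    intro y hy
    have h1 : g⁻¹ * y * g ∈ centralizer ({z} : Set X) := by
      rw [mem_centralizer_singleton_iff] at hy ⊢
      calc g⁻¹ * y * g * z = g⁻¹ * (y * (g * z * g⁻¹)) * g := by group
        _ = g⁻¹ * ((g * z * g⁻¹) * y) * g := by rw [← hvd, hy]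
        _ = _ := by group
    have h2 := mem_normalizer_iff_cj.1 (h.le_norm h1)
    rw [mem_normalizer_iff_cj, ← cj_mul]
    have h3 : y * g = g * (g⁻¹ * y * g) := by group
    rw [h3, cj_mul, h2]
  -- `J` centralises `v`
  have hJv : centralizer (A : Set X) ⊓ centralizer {z} ≤ centralizer ({v} : Set X) := by
    intro j hj
    obtain ⟨hj1, hj2⟩ := mem_inf.1 hj
    rw [mem_centralizer_singleton_iff] at hj2 ⊢
    have h1 : a * j = j * a := mem_centralizer_iff.1 hj1 a ha
    have h2 : j * k = k * j := by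
      rcases hk with rfl | rfl
      · rw [mul_one, one_mul]
      · exact hj2
    rw [hv, ← mul_assoc, ← h1, mul_assoc, h2, mul_assoc]
  have hza : z ∈ centralizer (A : Set X) := h.cen
  -- Frattini
  have hfr : ∀ y ∈ centralizer ({z} : Set X), ∃ α ∈ A, ∃ y' ∈ centralizer ({z} : Set X) ⊓ centralizer {v},
      y = α * y' := by
    intro y hy
    have h1 : y * a * y⁻¹ ∈ A := (mem_normalizer_iff.1 (h.le_norm hy) a).1 ha
    obtain ⟨α, hα⟩ := conj_inv hZ hF e (a := ⟨a, ha⟩) (b := ⟨y * a * y⁻¹, h1⟩) (by rw [orderOf_mk]; exact ha2) (by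
      rw [orderOf_mk, ← ha2]
      exact (MulAut.conj y).orderOf_eq a)
    have h2 : (α : X) * a * (α : X)⁻¹ = y * a * y⁻¹ := congrArg Subtype.val hα
    refine ⟨α, α.2, (α : X)⁻¹ * y, ?_, by group⟩
    have h3 : (α : X) * z = z * α := mem_centralizer_iff.1 hza _ α.2
    have h4 : (α : X)⁻¹ * y ∈ centralizer ({z} : Set X) :=
      mul_mem (inv_mem (mem_centralizer_singleton_iff.2 h3)) hy
    refine mem_inf.2 ⟨h4, ?_⟩
    rw [mem_centralizer_singleton_iff] at h4 ⊢
    have h5 : ((α : X)⁻¹ * y) * a = a * ((α : X)⁻¹ * y) := by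
      calc ((α : X)⁻¹ * y) * a = (α : X)⁻¹ * (y * a * y⁻¹) * y := by group
        _ = (α : X)⁻¹ * ((α : X) * a * (α : X)⁻¹) * y := by rw [h2]
        _ = _ := by group
    have h6 : ((α : X)⁻¹ * y) * k = k * ((α : X)⁻¹ * y) := by
      rcases hk with rfl | rfl
      · rw [mul_one, one_mul]
      · exact h4
    rw [hv]
    calc ((α : X)⁻¹ * y) * (a * k) = (((α : X)⁻¹ * y) * a) * k := by group
      _ = a * (((α : X)⁻¹ * y) * k) := by rw [h5]; group
      _ = _ := by rw [h6]; group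
  -- the action on `J`
  have hact : ∀ y ∈ centralizer ({z} : Set X), ∃ y' ∈ centralizer ({z} : Set X) ⊓ centralizer {v},
      ∀ j ∈ centralizer (A : Set X) ⊓ centralizer {z}, y * j * y⁻¹ = y' * j * y'⁻¹ := by
    intro y hy
    obtain ⟨α, hα, y', hy', rfl⟩ := hfr y hy
    refine ⟨y', hy', fun j hj => ?_⟩
    have h1 : y' * j * y'⁻¹ ∈ centralizer (A : Set X) ⊓ centralizer {z} :=
      (mem_normalizer_iff.1 (h.le_normJ (mem_inf.1 hy').1) j).1 hj
    have h2 : α * (y' * j * y'⁻¹) = (y' * j * y'⁻¹) * α := mem_centralizer_iff.1 (mem_inf.1 h1).1 α hα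
    calc α * y' * j * (α * y')⁻¹ = (α * (y' * j * y'⁻¹)) * α⁻¹ := by group
      _ = _ := by rw [h2]; group
  have hA' : OutComm ↥(cj g A) := hA.congr (cjEquiv g A)
  set A' := cj g A with hA'd
  have hCJ := h.le_normJ
  have hNC : normalizer (A' : Set X) ≤ normalizer ((A' ⊔ centralizer (A' : Set X) : Subgroup X) : Set X) := by
    intro y hy
    rw [mem_normalizer_iff_cj] at hy ⊢
    rw [cj_sup, hy]
    congr 1
    exact mem_normalizer_iff_cj.1 (Zed.norm_cent A' (mem_normalizer_iff_cj.2 hy))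
  refine ⟨(centralizer (A : Set X) ⊓ centralizer {z}) ⊓ (A' ⊔ centralizer (A' : Set X)), inf_le_left, ?_, ?_, ?_⟩
  · intro c hc b hb
    obtain ⟨hb1, hb2⟩ := mem_inf.1 hb
    obtain ⟨y', hy', h1⟩ := hact c hc
    refine mem_inf.2 ⟨(mem_normalizer_iff.1 (hCJ hc) b).1 hb1, ?_⟩
    rw [h1 b hb1]
    exact (mem_normalizer_iff.1 (hNC (hCv (mem_inf.1 hy').2)) b).1 hb2
  · intro c hc j hj
    obtain ⟨y', hy', h1⟩ := hact c hc
    refine mem_inf.2 ⟨mul_mem ((mem_normalizer_iff.1 (hCJ hc) j).1 hj) (inv_mem hj), ?_⟩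
    rw [h1 j hj]
    exact comm_mem hA' (hCv (mem_inf.1 hy').2) (hCv (hJv hj))
  · set B := (centralizer (A : Set X) ⊓ centralizer {z}) ⊓ (A' ⊔ centralizer (A' : Set X)) with hB
    intro P
    have hBN : ∀ x : ↥B, (x : X) ∈ normalizer (A' : Set X) := fun x => hCv (hJv (mem_inf.1 x.2).1)
    have hBz : ∀ x : ↥B, x ≠ 1 → x * x = 1 → (x : X) = z := by
      intro x hx hx2
      have h1 := mem_inf.1 (mem_inf.1 x.2).1
      rcases h.eq_of_sq h1.1 (mem_centralizer_singleton_iff.1 h1.2) (congrArg Subtype.val hx2) with h2 | h2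
      · exact absurd (Subtype.ext h2) hx
      · exact h2
    let f : ↥(P : Subgroup ↥B) →* MulAut ↥A' :=
      (normalizerMonoidHom A').comp ((Subgroup.inclusion (fun x hx => hBN ⟨x, hx⟩ : B ≤ normalizer (A' : Set X))).comp
        (P : Subgroup ↥B).subtype)
    have hfap : ∀ (x : ↥(P : Subgroup ↥B)) (y : ↥A'), ((f x y : ↥A') : X) = ((x : ↥B) : X) * y * ((x : ↥B) : X)⁻¹ :=
      fun x y => rfl
    have hZ' : Odd (Nat.card ↥(center ↥A')) := by
      rw [← Nat.card_congr (Subgroup.centerCongr (cjEquiv g A)).toEquiv]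
      exact hZ
    have hD' : D8 ↥A' := hD.congr (cjEquiv g A)
    refine cyclic_of_faithful P.isPGroup' ?_ hZ' hD' f ?_ ?_
    · intro x y hx hy hx2 hy2
      apply Subtype.ext
      apply Subtype.ext
      rw [hBz x (fun h1 => hx (Subtype.ext h1)) (congrArg Subtype.val hx2),
        hBz y (fun h1 => hy (Subtype.ext h1)) (congrArg Subtype.val hy2)]
    · rw [injective_iff_map_eq_one]
      intro x hx
      by_contra hx1
      have : Finite ↥f.ker := inferInstance
      have hker : IsPGroup 2 ↥f.ker := P.isPGroup'.to_subgroup f.ker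
      have hnt : Nontrivial ↥f.ker := ⟨⟨x, hx⟩, 1, fun h1 => hx1 (congrArg Subtype.val h1)⟩
      have h2 : 2 ∣ Nat.card ↥f.ker := by
        obtain ⟨n, hn, hn'⟩ := hker.nontrivial_iff_card.1 hnt
        rw [hn']
        exact dvd_pow_self 2 (by omega)
      obtain ⟨t, ht⟩ := exists_prime_orderOf_dvd_card' (G := ↥f.ker) 2 h2
      have ht1 : (t : ↥(P : Subgroup ↥B)) ≠ 1 := by
        intro h1
        have : t = 1 := Subtype.ext h1
        rw [this, orderOf_one] at ht
        omega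
      have ht2 : t * t = 1 := by
        have := pow_orderOf_eq_one t
        rwa [ht, pow_two] at this
      have ht3 : (((t : ↥(P : Subgroup ↥B)) : ↥B) : X) = z :=
        hBz _ (fun h1 => ht1 (Subtype.ext h1)) (congrArg (fun s : ↥f.ker => ((s : ↥(P : Subgroup ↥B)) : ↥B)) ht2)
      have ht4 : z ∈ centralizer (A' : Set X) := by
        rw [mem_centralizer_iff]
        intro y hy
        have h3 : f (t : ↥(P : Subgroup ↥B)) = 1 := MonoidHom.mem_ker.1 t.2
        have h4 := congrArg (fun τ : MulAut ↥A' => ((τ ⟨y, hy⟩ : ↥A') : X)) h3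
        simp only [MulAut.one_apply] at h4
        rw [hfap, ht3] at h4
        exact (mul_inv_eq_iff_eq_mul.1 h4).symm
      -- `z = v`
      have ht5 : g⁻¹ * z * g ∈ centralizer (A : Set X) := by
        rw [mem_centralizer_iff] at ht4 ⊢
        intro b hb
        have h3 := ht4 (g * b * g⁻¹) (conj_mem_cj hb)
        calc b * (g⁻¹ * z * g) = g⁻¹ * ((g * b * g⁻¹) * z) * g := by group
          _ = g⁻¹ * (z * (g * b * g⁻¹)) * g := by rw [h3]
          _ = _ := by group
      have ht6 : v * z = z * v := by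
        have := hJv (mem_inf.1 (t : ↥(P : Subgroup ↥B)).1.2).1
        rw [mem_centralizer_singleton_iff] at this
        change (((t : ↥(P : Subgroup ↥B)) : ↥B) : X) * v = v * (((t : ↥(P : Subgroup ↥B)) : ↥B) : X) at this
        rw [ht3] at this
        exact this.symm
      have hzsq := h.sq
      rcases h.eq_of_sq ht5 (by
        calc g⁻¹ * z * g * z = g⁻¹ * (z * (g * z * g⁻¹)) * g := by group
          _ = g⁻¹ * ((g * z * g⁻¹) * z) * g := by rw [← hvd, ht6]
          _ = z * (g⁻¹ * z * g) := by group) (by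
        calc g⁻¹ * z * g * (g⁻¹ * z * g) = g⁻¹ * (z * z) * g := by group
          _ = 1 := by rw [hzsq]; group) with h3 | h3
      · have h4 : z = 1 := by
          have : z = g * (g⁻¹ * z * g) * g⁻¹ := by group
          rw [this, h3]; group
        have := h.ord
        rw [h4, orderOf_one] at this
        omega
      · apply hvne
        rw [hvd, ← h3]
        rw [h3]
        have : z = g * (g⁻¹ * z * g) * g⁻¹ := by group
        rw [h3] at this
        exact this.symm
    · intro x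
      have h1 : (((x : ↥B)) : X) ∈ A' ⊔ centralizer (A' : Set X) := (mem_inf.1 (x : ↥B).2).2
      obtain ⟨b, hb, c, hc, h2⟩ := OneBasic.exists_mul_of_mem_sup (le_normalizer.trans (Zed.norm_cent A')) h1
      refine ⟨⟨b, hb⟩, ?_⟩
      ext y
      rw [hfap, h2, MulAut.conj_apply]
      have h3 : (y : X) * c = c * y := mem_centralizer_iff.1 hc y y.2
      change b * (y : X) * b⁻¹ = _
      calc b * (y : X) * b⁻¹ = b * ((y : X) * c) * c⁻¹ * b⁻¹ := by group
        _ = b * (c * y) * c⁻¹ * b⁻¹ := by rw [h3]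
        _ = _ := by group

end Cfsg.Agent.H300.QuatB
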