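import Mathlib
import Cfsg.Agent.PermutationGroups.PrimePlusOne.Semiaffine

/-!
# 2-groups with an involutory automorphism whose fixed points are permuted regularly (S3161), part 1

`Hyp q α ρ`: `Q` is a 2-group with commuting automorphisms `α` (`α² = 1`) and `ρ` (of odd order), `C = C_Q(α)` is
elementary abelian of order `q ≥ 4` and `⟨ρ⟩` is transitive on its nonidentity elements.

* `fix_le`: every nontrivial invariant subgroup contains `C`; `fix_le_center`: `C ≤ Z(Q)`.
* `Hyp.quot`: the hypothesis passes to `Q / C`.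
-/

set_option autoImplicit false

namespace Cfsg.Agent.H300.Singer

open Subgroup
open scoped commutatorElement

variable {Q : Type*} [Group Q]

/-- the hypothesis -/
structure Hyp (q : ℕ) (α ρ : MulAut Q) : Prop where
  four : 4 ≤ q
  two : IsPGroup 2 Q
  inv : ∀ x, α (α x) = x
  comm : ∀ x, α (ρ x) = ρ (α x)
  odd : ∃ m, Odd m ∧ ρ ^ m = 1
  sq : ∀ x, α x = x → x * x = 1
  trans : ∀ x y, α x = x → α y = y → x ≠ 1 → y ≠ 1 → ∃ k : ℕ, (ρ ^ k) x = y
  card : Nat.card {x // α x = x} = q

/-- the fixed points -/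
def fix (α : MulAut Q) : Subgroup Q where
  carrier := {x | α x = x}
  mul_mem' := by
    intro a b ha hb
    change α (a * b) = a * b
    rw [map_mul]
    exact congrArg₂ _ ha hb
  one_mem' := map_one α
  inv_mem' := by
    intro a ha
    change α a⁻¹ = a⁻¹
    rw [map_inv]
    exact congrArg _ ha

theorem mem_fix {α : MulAut Q} {x : Q} : x ∈ fix α ↔ α x = x := Iff.rfl

/-- the displacement -/
def dis (α : MulAut Q) (x : Q) : Q := x⁻¹ * α x

theorem dis_eq_one {α : MulAut Q} {x : Q} : dis α x = 1 ↔ x ∈ fix α := by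
  rw [dis, inv_mul_eq_one, mem_fix, eq_comm]

theorem apply_eq {α : MulAut Q} (x : Q) : α x = x * dis α x := by
  rw [dis, mul_inv_cancel_left]

namespace Hyp

variable {q : ℕ} {α ρ : MulAut Q} (h : Hyp q α ρ)
include h

theorem comm_pow (k : ℕ) (x : Q) : α ((ρ ^ k) x) = (ρ ^ k) (α x) := by
  induction k generalizing x with
  | zero => rfl
  | succ k ih => rw [pow_succ, MulAut.mul_apply, MulAut.mul_apply, ih, h.comm]

theorem dis_pow (k : ℕ) (x : Q) : dis α ((ρ ^ k) x) = (ρ ^ k) (dis α x) := by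
  rw [dis, dis, map_mul, map_inv, h.comm_pow]

theorem apply_dis (x : Q) : α (dis α x) = (dis α x)⁻¹ := by
  rw [dis, map_mul, map_inv, h.inv, mul_inv_rev, inv_inv]

theorem exists_fixed [Finite Q] {N : Subgroup Q} (hN : ∀ x ∈ N, α x ∈ N) (hne : N ≠ ⊥) :
    ∃ x ∈ N, x ≠ 1 ∧ α x = x := by
  classical
  have := Fintype.ofFinite N
  let σ : Equiv.Perm N :=
    { toFun := fun x => ⟨α x, hN _ x.2⟩
      invFun := fun x => ⟨α x, hN _ x.2⟩
      left_inv := fun x => Subtype.ext (h.inv x)
      right_inv := fun x => Subtype.ext (h.inv x) }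
  have hσ : σ ^ 2 ^ 1 = 1 := by
    rw [pow_one, pow_two]
    ext x
    exact h.inv x
  have hd : 2 ∣ Fintype.card N := by
    have h1 : IsPGroup 2 N := h.two.to_subgroup N
    obtain ⟨n, hn⟩ := IsPGroup.iff_card.1 h1
    rw [Nat.card_eq_fintype_card] at hn
    rw [hn]
    have : n ≠ 0 := by
      rintro rfl
      rw [pow_zero] at hn
      apply hne
      rw [← Nat.card_eq_fintype_card] at hn
      exact card_eq_one.1 hn
    exact dvd_pow_self 2 this
  obtain ⟨b, hb, hb1⟩ := Equiv.Perm.exists_fixed_point_of_prime' (p := 2) (n := 1) hd hσ (a := 1)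
    (Subtype.ext (map_one α))
  exact ⟨b, b.2, fun h => hb1 (Subtype.ext h), congrArg Subtype.val hb⟩

omit h in
theorem pow_mem {N : Subgroup Q} (hρ : ∀ x ∈ N, ρ x ∈ N) (k : ℕ) : ∀ x ∈ N, (ρ ^ k) x ∈ N := by
  induction k with
  | zero => exact fun x hx => hx
  | succ k ih => intro x hx; rw [pow_succ, MulAut.mul_apply]; exact ih _ (hρ x hx)

/-- nontrivial invariant subgroups contain the fixed points -/
theorem fix_le [Finite Q] {N : Subgroup Q} (hN : ∀ x ∈ N, α x ∈ N) (hρ : ∀ x ∈ N, ρ x ∈ N) (hne : N ≠ ⊥) :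
    fix α ≤ N := by
  obtain ⟨x, hx, hx1, hxf⟩ := h.exists_fixed hN hne
  intro y hy
  by_cases hy1 : y = 1
  · rw [hy1]; exact N.one_mem
  obtain ⟨k, rfl⟩ := h.trans x y hxf hy hx1 hy1
  exact pow_mem hρ k x hx

theorem nontrivial : Nontrivial Q := by
  by_contra hn
  rw [not_nontrivial_iff_subsingleton] at hn
  have h1 : Nat.card {x // α x = x} ≤ 1 := Finite.card_le_one_iff_subsingleton.2 inferInstance
  have := h.four
  rw [h.card] at h1
  omega

omit h in
theorem mem_center_apply (φ : MulAut Q) {x : Q} (hx : x ∈ center Q) : φ x ∈ center Q := by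
  rw [mem_center_iff] at hx ⊢
  intro g
  have h1 := hx (φ⁻¹ g)
  have h2 := congrArg φ h1
  rw [map_mul, map_mul, MulAut.apply_inv_self] at h2
  exact h2

theorem fix_le_center [Finite Q] : fix α ≤ center Q := by
  have := h.nontrivial
  have hc := h.two.center_nontrivial
  refine h.fix_le (fun x hx => mem_center_apply α hx) (fun x hx => mem_center_apply ρ hx) ?_
  rwa [← Subgroup.nontrivial_iff_ne_bot]

theorem card_fix : Nat.card (fix α) = q := h.card

theorem rho_mem {x : Q} (hx : x ∈ fix α) : ρ x ∈ fix α := by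
  rw [mem_fix, h.comm, mem_fix.1 hx]

theorem sq_one {x : Q} (hx : x ∈ fix α) : x * x = 1 := h.sq x hx

theorem exists_ne_one : ∃ x ∈ fix α, x ≠ 1 := by
  by_contra hcon
  push Not at hcon
  have h1 : fix α = ⊥ := by
    rw [eq_bot_iff]
    intro x hx
    exact mem_bot.2 (hcon x hx)
  have h2 := h.card_fix
  rw [h1, card_bot] at h2
  have := h.four
  omega

end Hyp

/-! ### Quotients -/

/-- the automorphism induced on a quotient -/
def quo (N : Subgroup Q) [N.Normal] (φ : MulAut Q) (hφ : N.map φ.toMonoidHom = N) : MulAut (Q ⧸ N) :=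
  QuotientGroup.congr N N φ hφ

theorem quo_mk (N : Subgroup Q) [N.Normal] (φ : MulAut Q) (hφ : N.map φ.toMonoidHom = N) (x : Q) :
    quo N φ hφ (QuotientGroup.mk x) = QuotientGroup.mk (φ x) := rfl

theorem quo_pow_mk (N : Subgroup Q) [N.Normal] (φ : MulAut Q) (hφ : N.map φ.toMonoidHom = N) (k : ℕ) (x : Q) :
    ((quo N φ hφ) ^ k) (QuotientGroup.mk x) = QuotientGroup.mk ((φ ^ k) x) := by
  induction k generalizing x with
  | zero => rfl
  | succ k ih => rw [pow_succ, pow_succ, MulAut.mul_apply, MulAut.mul_apply, quo_mk, ih]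

theorem map_eq_of_le [Finite Q] {N : Subgroup Q} (φ : MulAut Q) (hφ : ∀ x ∈ N, φ x ∈ N) :
    N.map φ.toMonoidHom = N := by
  apply Subgroup.eq_of_le_of_card_ge
  · rintro _ ⟨x, hx, rfl⟩
    exact hφ x hx
  · rw [Nat.card_congr (equivMapOfInjective N φ.toMonoidHom φ.injective).toEquiv]

namespace Hyp

variable {q : ℕ} {α ρ : MulAut Q} (h : Hyp q α ρ)
include h

/-- elements fixed modulo the fixed points -/
theorem mul_self_mem [Finite Q] {x : Q} (hx : dis α x ∈ fix α) : x * x ∈ fix α := by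
  have hc := h.fix_le_center hx
  rw [mem_fix, map_mul, apply_eq x]
  have h1 : x * dis α x * (x * dis α x) = x * x * (dis α x * dis α x) := by
    have := mem_center_iff.1 hc x
    calc x * dis α x * (x * dis α x) = x * (dis α x * x) * dis α x := by group
      _ = x * (x * dis α x) * dis α x := by rw [this]
      _ = _ := by group
  rw [h1, h.sq_one hx, mul_one]

theorem dis_mul_of_center [Finite Q] {x y : Q} (hx : dis α x ∈ fix α) : dis α (x * y) = dis α x * dis α y := by
  have hc := mem_center_iff.1 (h.fix_le_center hx)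
  rw [dis, dis, dis, map_mul, mul_inv_rev]
  have := hc y⁻¹
  rw [dis] at this
  calc y⁻¹ * x⁻¹ * (α x * α y) = (y⁻¹ * (x⁻¹ * α x)) * α y := by group
    _ = (x⁻¹ * α x * y⁻¹) * α y := by rw [this]
    _ = _ := by group

/-- **the hypothesis passes to the quotient** -/
theorem quot [Finite Q] (hn : (fix α).Normal) (hne : ∃ x, α x ≠ x) (hα : (fix α).map α.toMonoidHom = fix α)
    (hρ : (fix α).map ρ.toMonoidHom = fix α) : Hyp (Q := Q ⧸ fix α) q (quo (fix α) α hα) (quo (fix α) ρ hρ) := by
  have hmk : ∀ x : Q, quo (fix α) α hα (QuotientGroup.mk x) = QuotientGroup.mk x ↔ dis α x ∈ fix α := by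
    intro x
    rw [quo_mk, eq_comm, QuotientGroup.eq]
    rfl
  have h1 : ∀ x : Q, (QuotientGroup.mk x : Q ⧸ fix α) = 1 ↔ x ∈ fix α := fun x => QuotientGroup.eq_one_iff x
  have htr : ∀ x y : Q ⧸ fix α, quo (fix α) α hα x = x → quo (fix α) α hα y = y → x ≠ 1 → y ≠ 1 →
      ∃ k : ℕ, (quo (fix α) ρ hρ ^ k) x = y := by
    intro x y
    induction x using QuotientGroup.induction_on with | H x => ?_
    induction y using QuotientGroup.induction_on with | H y => ?_
    intro hx hy hx1 hy1
    rw [hmk] at hx hy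
    rw [Ne, h1, ← dis_eq_one] at hx1 hy1
    obtain ⟨k, hk⟩ := h.trans _ _ hx hy hx1 hy1
    refine ⟨k, ?_⟩
    rw [quo_pow_mk, eq_comm, QuotientGroup.eq, ← dis_eq_one]
    have h2 : dis α (y⁻¹ * (ρ ^ k) x) = 1 := by
      have h3 : dis α (y * (y⁻¹ * (ρ ^ k) x)) = dis α y * dis α (y⁻¹ * (ρ ^ k) x) := h.dis_mul_of_center hy
      rw [mul_inv_cancel_left, h.dis_pow, hk] at h3
      exact (left_eq_mul.1 h3)
    exact h2
  have hQ : Nontrivial (Q ⧸ fix α) := by
    obtain ⟨x, hx⟩ := hne
    refine ⟨⟨QuotientGroup.mk x, 1, fun he => hx ((h1 x).1 he)⟩⟩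
  refine ⟨h.four, h.two.to_quotient _, ?_, ?_, ?_, ?_, htr, ?_⟩
  · intro x
    induction x using QuotientGroup.induction_on with | H x => ?_
    rw [quo_mk, quo_mk, h.inv]
  · intro x
    induction x using QuotientGroup.induction_on with | H x => ?_
    rw [quo_mk, quo_mk, quo_mk, quo_mk, h.comm]
  · obtain ⟨m, hm, hm1⟩ := h.odd
    refine ⟨m, hm, ?_⟩
    ext x
    induction x using QuotientGroup.induction_on with | H x => ?_
    rw [quo_pow_mk, hm1]
    rfl
  · intro x
    induction x using QuotientGroup.induction_on with | H x => ?_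
    intro hx
    rw [hmk] at hx
    have := h.mul_self_mem hx
    exact (h1 (x * x)).2 this
  · -- the number of fixed points
    -- there is a nontrivial fixed point
    obtain ⟨x₀, hx₀, hd₀⟩ : ∃ x₀ : Q, dis α x₀ ∈ fix α ∧ dis α x₀ ≠ 1 := by
      classical
      have := Fintype.ofFinite (Q ⧸ fix α)
      have hq2 : ∀ x : Q ⧸ fix α, quo (fix α) α hα (quo (fix α) α hα x) = x := by
        intro x
        induction x using QuotientGroup.induction_on with | H x => ?_
        rw [quo_mk, quo_mk, h.inv]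
      let σ : Equiv.Perm (Q ⧸ fix α) :=
        { toFun := fun x => quo (fix α) α hα x
          invFun := fun x => quo (fix α) α hα x
          left_inv := hq2
          right_inv := hq2 }
      have hσ : σ ^ 2 ^ 1 = 1 := by
        rw [pow_one, pow_two]
        ext x
        exact hq2 x
      have hd : 2 ∣ Fintype.card (Q ⧸ fix α) := by
        have h1 : IsPGroup 2 (Q ⧸ fix α) := h.two.to_quotient _
        obtain ⟨n, hn⟩ := IsPGroup.iff_card.1 h1
        have h2 : 1 < Nat.card (Q ⧸ fix α) := Finite.one_lt_card_iff_nontrivial.2 hQ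
        rw [Nat.card_eq_fintype_card] at hn h2
        rw [hn] at h2 ⊢
        exact dvd_pow_self 2 (by rintro rfl; norm_num at h2)
      obtain ⟨b, hb, hb1⟩ := Equiv.Perm.exists_fixed_point_of_prime' (p := 2) (n := 1) hd hσ (a := 1)
        (map_one (quo (fix α) α hα))
      obtain ⟨b, rfl⟩ := QuotientGroup.mk_surjective b
      have hb' : quo (fix α) α hα (QuotientGroup.mk b) = QuotientGroup.mk b := hb
      refine ⟨b, (hmk b).1 hb', fun hcon => hb1 ((h1 b).2 (dis_eq_one.1 hcon))⟩
    have hcard : Nat.card {x : Q ⧸ fix α // quo (fix α) α hα x = x} = Nat.card (fix α) := by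
      -- the map `x ↦ dis x`
      choose s hs using fun x : Q ⧸ fix α => QuotientGroup.mk_surjective x
      have hsd : ∀ x : {x : Q ⧸ fix α // quo (fix α) α hα x = x}, dis α (s x.1) ∈ fix α := by
        intro x
        rw [← hmk, hs]; exact x.2
      refine Nat.card_congr (Equiv.ofBijective (fun x => ⟨dis α (s x.1), hsd x⟩) ⟨?_, ?_⟩)
      · intro x y hxy
        have h2 : dis α (s x.1) = dis α (s y.1) := congrArg Subtype.val hxy
        apply Subtype.ext
        rw [← hs x.1, ← hs y.1, QuotientGroup.eq, ← dis_eq_one]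
        have h3 : dis α (s x.1 * ((s x.1)⁻¹ * s y.1)) = dis α (s x.1) * dis α ((s x.1)⁻¹ * s y.1) :=
          h.dis_mul_of_center (hsd x)
        rw [mul_inv_cancel_left, h2] at h3
        exact (left_eq_mul.1 h3)
      · rintro ⟨c, hc⟩
        by_cases hc1 : c = 1
        · refine ⟨⟨1, map_one _⟩, ?_⟩
          apply Subtype.ext
          change dis α (s 1) = c
          rw [hc1, dis_eq_one, ← h1, hs]
        · obtain ⟨k, hk⟩ := h.trans _ c hx₀ hc hd₀ hc1
          have h2 : dis α ((ρ ^ k) x₀) = c := by rw [h.dis_pow, hk]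
          have h3 : quo (fix α) α hα (QuotientGroup.mk ((ρ ^ k) x₀)) = QuotientGroup.mk ((ρ ^ k) x₀) := by
            rw [hmk, h2]; exact hc
          refine ⟨⟨QuotientGroup.mk ((ρ ^ k) x₀), h3⟩, ?_⟩
          apply Subtype.ext
          change dis α (s (QuotientGroup.mk ((ρ ^ k) x₀))) = c
          have h4 : ((ρ ^ k) x₀)⁻¹ * s (QuotientGroup.mk ((ρ ^ k) x₀)) ∈ fix α := by
            rw [← QuotientGroup.eq, hs]
          rw [← h2]
          have h5 := h.dis_mul_of_center (x := (ρ ^ k) x₀) (y := ((ρ ^ k) x₀)⁻¹ * s (QuotientGroup.mk ((ρ ^ k) x₀)))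
            (by rw [h2]; exact hc)
          rw [mul_inv_cancel_left, dis_eq_one.2 h4, mul_one] at h5
          exact h5
    rw [hcard, h.card_fix]

end Hyp

end Cfsg.Agent.H300.Singer
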