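import Mathlib
import Cfsg.Agent.LieRecognition.SquareMapIso
import Cfsg.Agent.LieRecognition.HermHeis
import Cfsg.Agent.SylowL.UT

/-!
# Central extensions with a given squaring map (S3161)

`Model Q V F f`: `Q` is an extension of `V` by the central subgroup `F` with squaring map `f`.
-/

set_option autoImplicit false

namespace Cfsg.Agent.H300.SingerModel

open Subgroup

/-- `Q` is a central extension of `V` by `F` with squaring map `f` -/
def Model (Q V F : Type*) [Group Q] [AddCommGroup V] [AddCommGroup F] (f : V → F) : Prop :=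
  ∃ (π : Q →* Multiplicative V) (ζ : π.ker ≃* Multiplicative F), Function.Surjective π ∧ π.ker ≤ center Q ∧
    ∀ x : Q, ∃ h : x ^ 2 ∈ π.ker, ζ ⟨x ^ 2, h⟩ = Multiplicative.ofAdd (f (π x).toAdd)

theorem Model.equiv {Q Q' V F : Type*} [Group Q] [Group Q'] [AddCommGroup V] [AddCommGroup F] {f : V → F}
    (h : Model Q V F f) (h' : Model Q' V F f) : Nonempty (Q ≃* Q') := by
  obtain ⟨π, ζ, hs, hc, hq⟩ := h
  obtain ⟨π', ζ', hs', hc', hq'⟩ := h'
  refine Cfsg.Agent.LieRecognition.SquareMapIso.nonempty_mulEquiv_of_sq π π' hs hs' hc hc' (ζ.trans ζ'.symm) ?_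
  intro x x' hxx
  obtain ⟨h1, e1⟩ := hq x
  obtain ⟨h2, e2⟩ := hq' x'
  refine ⟨h1, ?_⟩
  rw [MulEquiv.trans_apply, e1, hxx, ← e2, MulEquiv.symm_apply_apply]

theorem Model.transfer {Q V F V' F' : Type*} [Group Q] [AddCommGroup V] [AddCommGroup F] [AddCommGroup V']
    [AddCommGroup F'] {f : V → F} (h : Model Q V F f) (L : V ≃+ V') (M : F ≃+ F') {f' : V' → F'}
    (hf : ∀ v, M (f v) = f' (L v)) : Model Q V' F' f' := by
  obtain ⟨π, ζ, hs, hc, hq⟩ := h
  let π' : Q →* Multiplicative V' := (AddEquiv.toMultiplicative L).toMonoidHom.comp π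
  have hk : π'.ker = π.ker := by
    ext x
    rw [MonoidHom.mem_ker, MonoidHom.mem_ker]
    change (AddEquiv.toMultiplicative L) (π x) = 1 ↔ _
    rw [EmbeddingLike.map_eq_one_iff]
  refine ⟨π', (MulEquiv.subgroupCongr hk).trans (ζ.trans (AddEquiv.toMultiplicative M)), ?_, ?_, ?_⟩
  · exact (AddEquiv.toMultiplicative L).surjective.comp hs
  · rw [hk]; exact hc
  · intro x
    obtain ⟨h1, e1⟩ := hq x
    refine ⟨by rw [hk]; exact h1, ?_⟩
    change (AddEquiv.toMultiplicative M) (ζ ⟨x ^ 2, h1⟩) = Multiplicative.ofAdd (f' (L (π x).toAdd))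
    rw [e1, ← hf]
    rfl

section UT

open Cfsg.Agent.SylowL.UT Cfsg.Agent.SylowL.Lev

variable (F : Type*) [Field F]

theorem N01 {F : Type*} [Field F] (g h : UT 3 F) : N (g * h) 0 1 = N g 0 1 + N h 0 1 := by
  rw [N_mul, Matrix.add_apply, Matrix.add_apply, apply_eq_zero (mul_mem_lev (N_mem g) (N_mem h)) (by decide), add_zero]

theorem N12 {F : Type*} [Field F] (g h : UT 3 F) : N (g * h) 1 2 = N g 1 2 + N h 1 2 := by
  rw [N_mul, Matrix.add_apply, Matrix.add_apply, apply_eq_zero (mul_mem_lev (N_mem g) (N_mem h)) (by decide), add_zero]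

theorem N02 {F : Type*} [Field F] (g h : UT 3 F) : N (g * h) 0 2 = N g 0 2 + N h 0 2 + N g 0 1 * N h 1 2 := by
  rw [N_mul, Matrix.add_apply, Matrix.add_apply, Matrix.mul_apply, Fin.sum_univ_three,
    apply_eq_zero (N_mem g) (i := 0) (j := 0) (by decide), apply_eq_zero (N_mem h) (i := 2) (j := 2) (by decide),
    zero_mul, mul_zero, zero_add, add_zero]

theorem UT_ext {F : Type*} [Field F] {g h : UT 3 F} (h1 : N g 0 1 = N h 0 1) (h2 : N g 1 2 = N h 1 2)
    (h3 : N g 0 2 = N h 0 2) : g = h := by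
  apply N_injective
  ext i j
  have hz : ∀ (i j : Fin 3), j ≤ i → N g i j = N h i j := by
    intro i j hij
    rw [Fin.le_def] at hij
    rw [apply_eq_zero (N_mem g) (by omega), apply_eq_zero (N_mem h) (by omega)]
  fin_cases i <;> fin_cases j
  · exact hz _ _ (by decide)
  · exact h1
  · exact h3
  · exact hz _ _ (by decide)
  · exact hz _ _ (by decide)
  · exact h2
  · exact hz _ _ (by decide)
  · exact hz _ _ (by decide)
  · exact hz _ _ (by decide)

theorem exists_UT {F : Type*} [Field F] (a b c : F) : ∃ g : UT 3 F, N g 0 1 = a ∧ N g 1 2 = b ∧ N g 0 2 = c := by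
  have hm : (!![0, a, c; 0, 0, b; 0, 0, 0] : Matrix (Fin 3) (Fin 3) F) ∈ lev 3 F 1 := by
    rw [mem_lev']
    intro i j hij
    fin_cases i <;> fin_cases j <;> first | rfl | (exfalso; revert hij; decide)
  refine ⟨mk _ hm, ?_, ?_, ?_⟩ <;> rw [N_mk] <;> rfl

/-- upper unitriangular `3 × 3` matrices -/
theorem model_UT [CharP F 2] : Model (UT 3 F) (F × F) F (fun v => v.1 * v.2) := by
  let π : UT 3 F →* Multiplicative (F × F) :=
    { toFun := fun g => Multiplicative.ofAdd (N g 0 1, N g 1 2)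
      map_one' := by rw [N_one]; rfl
      map_mul' := fun g h => by rw [N01, N12]; rfl }
  have hπ : ∀ g : UT 3 F, g ∈ π.ker ↔ N g 0 1 = 0 ∧ N g 1 2 = 0 := by
    intro g
    rw [MonoidHom.mem_ker]
    change Multiplicative.ofAdd (N g 0 1, N g 1 2) = Multiplicative.ofAdd ((0 : F), (0 : F)) ↔ _
    rw [Multiplicative.ofAdd.injective.eq_iff, Prod.mk.injEq]
  let z : π.ker →* Multiplicative F :=
    { toFun := fun g => Multiplicative.ofAdd (N (g : UT 3 F) 0 2)
      map_one' := by
        change Multiplicative.ofAdd (N (1 : UT 3 F) 0 2) = 1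
        rw [N_one]; rfl
      map_mul' := fun g h => by
        change Multiplicative.ofAdd (N ((g : UT 3 F) * (h : UT 3 F)) 0 2) = _
        rw [N02, ((hπ _).1 g.2).1, zero_mul, add_zero]; rfl }
  have hz : Function.Bijective z := by
    constructor
    · intro g h hgh
      apply Subtype.ext
      refine UT_ext ?_ ?_ (Multiplicative.ofAdd.injective hgh)
      · rw [((hπ _).1 g.2).1, ((hπ _).1 h.2).1]
      · rw [((hπ _).1 g.2).2, ((hπ _).1 h.2).2]
    · intro c
      obtain ⟨g, h1, h2, h3⟩ := exists_UT (0 : F) 0 c.toAdd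
      exact ⟨⟨g, (hπ g).2 ⟨h1, h2⟩⟩, congrArg Multiplicative.ofAdd h3⟩
  refine ⟨π, MulEquiv.ofBijective z hz, ?_, ?_, ?_⟩
  · intro v
    obtain ⟨g, h1, h2, h3⟩ := exists_UT v.toAdd.1 v.toAdd.2 (0 : F)
    refine ⟨g, ?_⟩
    change Multiplicative.ofAdd (N g 0 1, N g 1 2) = v
    rw [h1, h2]
    rfl
  · intro g hg
    rw [mem_center_iff]
    intro h
    obtain ⟨h1, h2⟩ := (hπ g).1 hg
    refine UT_ext ?_ ?_ ?_
    · rw [N01, N01, add_comm]
    · rw [N12, N12, add_comm]
    · rw [N02, N02, h1, h2, mul_zero, zero_mul, add_zero, add_zero, add_comm]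
  · intro g
    have h1 : g ^ 2 ∈ π.ker := by
      rw [hπ, pow_two, N01, N12]
      exact ⟨CharTwo.add_self_eq_zero _, CharTwo.add_self_eq_zero _⟩
    refine ⟨h1, ?_⟩
    change Multiplicative.ofAdd (N (g ^ 2) 0 2) = Multiplicative.ofAdd (N g 0 1 * N g 1 2)
    rw [pow_two, N02, CharTwo.add_self_eq_zero, zero_add]

end UT

section Heis

open Cfsg.Agent.LieRecognition.HermHeis

variable {K : Type*} [Field K] [CharP K 2] {σ : K →+* K} [hσ : Fact (∀ x, σ (σ x) = x)]

/-- the norm -/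
def nrm (σ : K →+* K) [hσ : Fact (∀ x, σ (σ x) = x)] (x : K) : (tr σ).ker :=
  ⟨x * σ x, (mem_ker_tr _).2 (by rw [map_mul, sig, mul_comm])⟩

/-- the Heisenberg group -/
theorem model_Heis [Finite K] {q : ℕ} (hq : 1 < q) (hs : ∀ x, σ x = x ^ q) (hK : Nat.card K = q ^ 2) :
    Model (Heis σ) K (tr σ).ker (nrm σ) := by
  let π : Heis σ →* Multiplicative K :=
    { toFun := fun g => Multiplicative.ofAdd g.a
      map_one' := rfl
      map_mul' := fun g h => rfl }
  have hπ : ∀ g : Heis σ, g ∈ π.ker ↔ g.a = 0 := by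
    intro g
    rw [MonoidHom.mem_ker]
    change Multiplicative.ofAdd g.a = Multiplicative.ofAdd (0 : K) ↔ _
    rw [Multiplicative.ofAdd.injective.eq_iff]
  have hfix : ∀ g : Heis σ, g ∈ π.ker → g.b ∈ (tr σ).ker := fun g hg =>
    (mem_ker_tr _).2 (b_fixed_of_a_eq_zero ((hπ g).1 hg))
  let z : π.ker →* Multiplicative (tr σ).ker :=
    { toFun := fun g => Multiplicative.ofAdd ⟨(g : Heis σ).b, hfix g g.2⟩
      map_one' := rfl
      map_mul' := fun g h => by
        apply Multiplicative.toAdd.injective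
        apply Subtype.ext
        change ((g : Heis σ) * h).b = (g : Heis σ).b + (h : Heis σ).b
        rw [mul_b, (hπ _).1 g.2, zero_mul, add_zero] }
  have hz : Function.Bijective z := by
    constructor
    · intro g h hgh
      apply Subtype.ext
      ext
      · rw [(hπ _).1 g.2, (hπ _).1 h.2]
      · exact congrArg Subtype.val (Multiplicative.ofAdd.injective hgh)
    · intro c
      exact ⟨⟨zet (c.toAdd : K) ((mem_ker_tr _).1 c.toAdd.2), (hπ _).2 rfl⟩, rfl⟩
  refine ⟨π, MulEquiv.ofBijective z hz, ?_, ?_, ?_⟩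
  · intro v
    obtain ⟨g, hg⟩ := exists_heis_a (σ := σ) hq hs hK v.toAdd
    exact ⟨g, congrArg Multiplicative.ofAdd hg⟩
  · intro g hg
    rw [mem_center_iff hq hs hK]
    exact (hπ g).1 hg
  · intro g
    have h1 : g ^ 2 ∈ π.ker := by
      rw [hπ, pow_two, mul_a]
      exact CharTwo.add_self_eq_zero _
    refine ⟨h1, ?_⟩
    apply Multiplicative.toAdd.injective
    apply Subtype.ext
    change (g ^ 2).b = g.a * σ g.a
    rw [pow_two, mul_b, CharTwo.add_self_eq_zero, zero_add]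

end Heis

end Cfsg.Agent.H300.SingerModel
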