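import Mathlib
import Cfsg.Agent.H300.SingerThree
import Cfsg.Agent.H300.SingerModel
import Cfsg.Agent.GpLn.Rank

/-!
# 2-groups with an involutory automorphism whose fixed points are permuted regularly (S3161), part 4

The squaring map in coordinates.
-/

set_option autoImplicit false

namespace Cfsg.Agent.H300.Singer

open Subgroup Cfsg.Agent.LieRecognition.SuzukiField Cfsg.Agent.H300.SingerModel
open scoped commutatorElement

/-- invariant complements -/
theorem exists_inv_compl {X : Type*} [Group X] [Finite X] (hc : ∀ x y : X, x * y = y * x) (hs : ∀ x : X, x * x = 1)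
    (ρ : MulAut X) {m : ℕ} (hm : Odd m) (hm1 : ρ ^ m = 1) (D : Subgroup X) (hD : ∀ x ∈ D, ρ x ∈ D) :
    ∃ W : Subgroup X, (∀ x ∈ W, ρ x ∈ W) ∧ (∀ x ∈ D, x ∈ W → x = 1) ∧ ∀ x, ∃ d ∈ D, ∃ w ∈ W, x = d * w := by
  classical
  have : Fact (Nat.Prime 2) := ⟨Nat.prime_two⟩
  let _ : CommGroup X := { (inferInstance : Group X) with mul_comm := hc }
  let _ : Module (ZMod 2) (Additive X) := AddCommGroup.zmodModule (n := 2) (fun x => by
    rw [two_nsmul]
    exact hs x.toMul)
  let φ : zpowers ρ →* (Additive X →ₗ[ZMod 2] Additive X) :=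
    { toFun := fun a => (MonoidHom.toAdditive (a : MulAut X).toMonoidHom).toZModLinearMap 2
      map_one' := by ext x; rfl
      map_mul' := fun a b => by ext x; rfl }
  have hφ : ∀ (a : zpowers ρ) (x : Additive X), φ a x = Additive.ofMul ((a : MulAut X) x.toMul) := fun a x => rfl
  have hA : (Nat.card (zpowers ρ) : ZMod 2) ≠ 0 := by
    rw [Nat.card_zpowers, ne_eq, ZMod.natCast_eq_zero_iff]
    intro h2
    have h3 := h2.trans (orderOf_dvd_of_pow_eq_one hm1)
    rw [← even_iff_two_dvd] at h3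
    exact (Nat.not_even_iff_odd.2 hm) h3
  let D' : Submodule (ZMod 2) (Additive X) := AddSubgroup.toZModSubmodule 2 (Subgroup.toAddSubgroup D)
  have hD' : ∀ x, x ∈ D' ↔ x.toMul ∈ D := fun x => Iff.rfl
  have hpow : ∀ (k : ℤ), ∀ x ∈ D, (ρ ^ k) x ∈ D := by
    have h1 : ∀ (k : ℕ), ∀ x ∈ D, (ρ ^ k) x ∈ D := fun k x hx => Hyp.pow_mem hD k x hx
    intro k x hx
    have hρ : ρ ^ (k % m) = ρ ^ k := by
      rw [Int.emod_def, zpow_sub, zpow_mul, zpow_natCast, hm1, one_zpow, inv_one, mul_one]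
    rw [← hρ]
    have h2 : 0 ≤ k % (m : ℤ) := Int.emod_nonneg _ (by have := hm.pos; omega)
    obtain ⟨j, hj⟩ := Int.eq_ofNat_of_zero_le h2
    rw [hj, zpow_natCast]
    exact h1 j x hx
  obtain ⟨W', hW', hc'⟩ := Cfsg.Agent.GpLn.Rank.exists_compl φ hA D' (by
    intro a w hw
    obtain ⟨a, ha⟩ := a
    obtain ⟨k, rfl⟩ := mem_zpowers_iff.1 ha
    rw [hφ, hD']
    exact hpow k _ hw)
  refine ⟨AddSubgroup.toSubgroup' W'.toAddSubgroup, ?_, ?_, ?_⟩
  · intro x hx
    exact hW' ⟨ρ, mem_zpowers ρ⟩ (Additive.ofMul x) hx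
  · intro x hx hxW
    have := (Submodule.disjoint_def.1 hc'.disjoint) (Additive.ofMul x) hx hxW
    exact Additive.ofMul.injective this
  · intro x
    obtain ⟨d, w, hd, hw, hdw⟩ := (Submodule.codisjoint_iff_exists_add_eq.1 hc'.codisjoint) (Additive.ofMul x)
    exact ⟨d.toMul, hd, w.toMul, hw, (congrArg Additive.toMul hdw).symm⟩

variable {Q : Type*} [Group Q]

namespace Hyp

variable {q : ℕ} {α ρ : MulAut Q} (h : Hyp q α ρ)
include h

theorem model [Finite Q] {n : ℕ} (hq : q = 2 ^ n) (hna : ∃ x y : Q, ⁅x, y⁆ ≠ 1) :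
    ∃ a b : GaloisField 2 n, b ≠ 0 ∧ Model Q (GaloisField 2 n × GaloisField 2 n) (GaloisField 2 n)
      (fun v => a * v.1 ^ 2 + a * v.2 ^ 2 + b * (v.1 * v.2)) := by
  classical
  obtain ⟨hcf, hsq, hcard, -, hpp, hnd⟩ := structure_thm (Nat.card Q) Q q n α ρ h hq le_rfl hna
  obtain ⟨a₀, b₀, hab₀⟩ := hna
  have hcen := h.fix_le_center
  have hcomc : ∀ c ∈ fix α, ∀ x, x * c = c * x := fun c hc x => mem_center_iff.1 (hcen hc) x
  have hddc := h.dd_comm hq
  obtain ⟨g₀, hg₀⟩ : ∃ x, x ∉ h.dd := by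
    by_contra hcon
    push Not at hcon
    exact hab₀ (hddc a₀ (hcon a₀) b₀ (hcon b₀))
  have hg₀f : g₀ ∉ fix α := fun hcon => hg₀ (h.fix_le_dd hcon)
  obtain ⟨hn, α', ρ', h', hα', hρ'⟩ := h.exists_quot ⟨g₀, hg₀f⟩
  have hmk1 : ∀ y : Q, (QuotientGroup.mk y : Q ⧸ fix α) = 1 ↔ y ∈ fix α := fun y => QuotientGroup.eq_one_iff y
  have hmem : ∀ y : Q, (QuotientGroup.mk y : Q ⧸ fix α) ∈ fix α' ↔ y ∈ h.dd := by
    intro y
    rw [mem_fix, hα', eq_comm, QuotientGroup.eq]
    rfl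
  have hdisc : ∀ c ∈ fix α, dis α c = 1 := fun c hc => dis_eq_one.2 hc
  -- the map `p`
  let p : Q → Q := fun x => dis α (dis α x)
  have pmul : ∀ x y, p (x * y) = p x * p y := by
    intro x y
    have h1 : dis α (x * y) = dis α x * (dis α y * ⁅(dis α x)⁻¹, y⁻¹⁆) := by
      have hc1 := hcomc _ (hcf (dis α x)⁻¹ y⁻¹)
      rw [hc1]
      rw [dis, dis, dis, map_mul, mul_inv_rev, commutatorElement_def]
      group
    change dis α (dis α (x * y)) = dis α (dis α x) * dis α (dis α y)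
    rw [h1, h.dis_mul_of_center (hpp x), h.dis_mul_of_center (hpp y), hdisc _ (hcf _ _), mul_one]
  have pfix : ∀ x, p x ∈ fix α := hpp
  have prho : ∀ x, p (ρ x) = ρ (p x) := by
    intro x
    change dis α (dis α (ρ x)) = ρ (dis α (dis α x))
    rw [h.dis_rho, h.dis_rho]
  have palpha : ∀ x, p (α x) = p x := by
    intro x
    change dis α (dis α (α x)) = dis α (dis α x)
    have h1 : dis α (dis α x)⁻¹ = (dis α (dis α x))⁻¹ := by
      have h2 := h.dis_mul_of_center (x := dis α x) (y := (dis α x)⁻¹) (hpp x)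
      rw [mul_inv_cancel] at h2
      have h3 : dis α (1 : Q) = 1 := by rw [dis, map_one, inv_one, mul_one]
      rw [h3] at h2
      exact eq_inv_of_mul_eq_one_right h2.symm
    rw [h.dis_alpha, h1]
    exact inv_eq_of_mul_eq_one_left (h.sq_one (hpp x))
  have pone : ∀ x, p x = 1 ↔ x ∈ h.dd := by
    intro x
    rw [h.mem_dd]
    exact dis_eq_one
  -- the complement
  obtain ⟨m, hm, hm1⟩ := h'.odd
  obtain ⟨W', hW'ρ, hW'd, hW'a⟩ := exists_inv_compl (X := Q ⧸ fix α)
    (by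
      intro x y
      obtain ⟨x, rfl⟩ := QuotientGroup.mk_surjective x
      obtain ⟨y, rfl⟩ := QuotientGroup.mk_surjective y
      rw [← commutatorElement_eq_one_iff_mul_comm]
      exact ((map_commutatorElement (QuotientGroup.mk' (fix α)) x y).symm.trans ((hmk1 _).2 (hcf x y))))
    (by
      intro x
      obtain ⟨x, rfl⟩ := QuotientGroup.mk_surjective x
      exact (hmk1 (x * x)).2 (hsq x))
    ρ' hm hm1 (fix α') (fun x hx => h'.rho_mem hx)
  let W : Subgroup Q := W'.comap (QuotientGroup.mk' (fix α))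
  have hWρ : ∀ x ∈ W, ρ x ∈ W := by
    intro x hx
    change (QuotientGroup.mk (ρ x) : Q ⧸ fix α) ∈ W'
    rw [← hρ']
    exact hW'ρ _ hx
  have hCW : fix α ≤ W := by
    intro x hx
    change (QuotientGroup.mk x : Q ⧸ fix α) ∈ W'
    rw [(hmk1 x).2 hx]
    exact one_mem _
  have hWd : ∀ x ∈ W, x ∈ h.dd → x ∈ fix α := by
    intro x hx hxd
    exact (hmk1 x).1 (hW'd _ ((hmem x).2 hxd) hx)
  -- an element of `W` outside `C`
  obtain ⟨w₀, hw₀, hw₀p⟩ : ∃ w ∈ W, p w ≠ 1 := by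
    obtain ⟨d, hd, w, hw, hdw⟩ := hW'a (QuotientGroup.mk g₀)
    obtain ⟨w, rfl⟩ := QuotientGroup.mk_surjective w
    refine ⟨w, hw, fun hcon => hg₀ ?_⟩
    rw [← hmem, hdw]
    exact mul_mem hd ((hmem w).2 ((pone w).1 hcon))
  have psurj : ∀ c ∈ fix α, ∃ x ∈ W, p x = c := by
    intro c hc
    by_cases hc1 : c = 1
    · refine ⟨1, one_mem _, ?_⟩
      rw [hc1, pone]
      exact one_mem _
    · obtain ⟨k, hk⟩ := h.trans _ c (pfix w₀) hc hw₀p hc1
      refine ⟨(ρ ^ k) w₀, Hyp.pow_mem hWρ k _ hw₀, ?_⟩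
      change dis α (dis α ((ρ ^ k) w₀)) = c
      rw [h.dis_pow, h.dis_pow]
      exact hk
  have hkc : ∀ x ∈ W, p x = 1 → ∀ y : Q, ⁅x, y⁆ = 1 := by
    intro x hx hx1 y
    rw [commutatorElement_eq_one_iff_mul_comm]
    exact (hcomc x (hWd x hx ((pone x).1 hx1)) y).symm
  have hkc' : ∀ x ∈ W, p x = 1 → ∀ y : Q, ⁅y, x⁆ = 1 := by
    intro x hx hx1 y
    rw [commutatorElement_eq_one_iff_mul_comm]
    exact (hcomc x (hWd x hx ((pone x).1 hx1)) y)
  have PW : Pair α ρ W W p p :=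
    { i₁ := hWρ
      i₂ := hWρ
      m₁ := fun x _ => pfix x
      m₂ := fun x _ => pfix x
      a₁ := fun x _ y _ => pmul x y
      a₂ := fun x _ y _ => pmul x y
      r₁ := fun x _ => prho x
      r₂ := fun x _ => prho x
      s₁ := psurj
      s₂ := psurj
      k₁ := fun x hx hx1 y _ => hkc x hx hx1 y
      k₂ := fun y hy hy1 x _ => hkc' y hy hy1 x
      c := fun x _ y _ => hcf x y }
  have hWab := PW.alternating h hq
  have PA : Pair α ρ W (W.map α.toMonoidHom) p p :=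
    { i₁ := hWρ
      i₂ := by
        rintro _ ⟨x, hx, rfl⟩
        exact ⟨ρ x, hWρ x hx, h.comm x⟩
      m₁ := fun x _ => pfix x
      m₂ := fun x _ => pfix x
      a₁ := fun x _ y _ => pmul x y
      a₂ := fun x _ y _ => pmul x y
      r₁ := fun x _ => prho x
      r₂ := fun x _ => prho x
      s₁ := psurj
      s₂ := fun c hc => by
        obtain ⟨x, hx, hxc⟩ := psurj c hc
        exact ⟨α x, ⟨x, hx, rfl⟩, by rw [palpha, hxc]⟩
      k₁ := fun x hx hx1 y _ => hkc x hx hx1 y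
      k₂ := by
        rintro _ ⟨x, hx, rfl⟩ hx1 y _
        change p (α x) = 1 at hx1
        rw [palpha] at hx1
        change ⁅y, α x⁆ = 1
        have h1 : α x = x := hWd x hx ((pone x).1 hx1)
        rw [h1]
        exact hkc' x hx hx1 y
      c := fun x _ y _ => hcf x y }
  obtain ⟨e, t, ea, ei, es, er, ht, ht1⟩ := h.exists_coord hq
  obtain ⟨b, hb, key⟩ := PA.exists_bilin_of h ⟨ea, ei, es, er, ht, ht1⟩
  have e1 : e 1 = 0 := by
    have := ea 1 (one_mem _) 1 (one_mem _)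
    rw [mul_one] at this
    exact left_eq_add.1 this
  have einj : ∀ x ∈ fix α, ∀ y ∈ fix α, e x = e y → x = y := by
    intro x hx y hy hxy
    have h1 : e (x * y⁻¹) = 0 := by
      have h2 := ea (x * y⁻¹) ((fix α).mul_mem hx ((fix α).inv_mem hy)) y hy
      rw [inv_mul_cancel_right, hxy] at h2
      exact (right_eq_add.1 h2)
    exact mul_inv_eq_one.1 (ei _ ((fix α).mul_mem hx ((fix α).inv_mem hy)) h1)
  -- sections
  choose c hc hce using es
  choose w hw hwp using fun u => psurj (c u) (hc u)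
  have hwe : ∀ u, e (p (w u)) = u := fun u => by rw [hwp, hce]
  -- squares on `W`
  have hsqW : ∀ x ∈ W, e (x * x) = e (w 1 * w 1) * e (p x) := by
    intro x hx
    by_cases hx1 : p x = 1
    · rw [hx1, e1, mul_zero, h.sq_one (hWd x hx ((pone x).1 hx1)), e1]
    · obtain ⟨i, hi⟩ := ht.2 (e (p x)) (fun hcon => hx1 (ei _ (pfix x) hcon))
      have hpe : ∀ i : ℕ, ∀ y ∈ fix α, e ((ρ ^ i) y) = t ^ i * e y := by
        intro i
        induction i with
        | zero => intro y _; rw [pow_zero, pow_zero, one_mul]; rfl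
        | succ i ih =>
          intro y hy
          rw [pow_succ, MulAut.mul_apply, ih _ (h.rho_mem hy), er y hy]
          ring
      have h1 : p ((ρ ^ i) (w 1)) = (ρ ^ i) (p (w 1)) := by
        change dis α (dis α ((ρ ^ i) (w 1))) = _
        rw [h.dis_pow, h.dis_pow]
      have h2 : p ((ρ ^ i) (w 1)) = p x := by
        apply einj _ (pfix _) _ (pfix _)
        rw [h1, hpe i _ (pfix _), hwe, mul_one, hi]
      have hWi := Hyp.pow_mem hWρ i _ (hw 1)
      have h3 : x⁻¹ * (ρ ^ i) (w 1) ∈ fix α := by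
        apply hWd _ (W.mul_mem (W.inv_mem hx) hWi)
        rw [← pone, pmul, h2, ← pmul, inv_mul_cancel, pone]
        exact one_mem _
      have h4 : (ρ ^ i) (w 1) * (ρ ^ i) (w 1) = x * x := by
        obtain ⟨z, hz, hze⟩ : ∃ z ∈ fix α, (ρ ^ i) (w 1) = x * z := ⟨_, h3, by group⟩
        rw [hze]
        calc x * z * (x * z) = x * (z * x) * z := by group
          _ = x * (x * z) * z := by rw [hcomc z hz x]
          _ = (x * x) * (z * z) := by group
          _ = x * x := by rw [h.sq_one hz, mul_one]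
      rw [← h4, ← map_mul, hpe i _ (hsq _), hi, mul_comm]
  -- the bilinear map
  obtain ⟨b₁, σ, τ, hbm, hστ⟩ := equivariant_biadditive_monomial ht ht ht1 b hb
  have hb1 : b₁ ≠ 0 := by
    rintro rfl
    have h1 := key w₀ hw₀ (α w₀) ⟨w₀, hw₀, rfl⟩
    rw [hbm, zero_mul] at h1
    have h2 := ei _ (hcf _ _) h1
    have h3 : ⁅w₀, dis α w₀⁆ = 1 := by
      rw [commutatorElement_eq_one_iff_mul_comm] at h2 ⊢
      rw [apply_eq w₀] at h2
      have h4 : w₀ * (w₀ * dis α w₀) = w₀ * (dis α w₀ * w₀) := by rw [h2, mul_assoc]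
      exact mul_left_cancel h4
    have h5 := hnd w₀ (fun hcon => hw₀p (dis_eq_one.2 hcon)) (dis α w₀) (hpp w₀) h3
    exact hw₀p (dis_eq_one.2 h5)
  let φ : GaloisField 2 n ≃+* GaloisField 2 n := (frobeniusEquiv (GaloisField 2 n) 2).symm
  have hφ : ∀ x, φ (x ^ 2) = x := by
    intro x
    exact (frobeniusEquiv (GaloisField 2 n) 2).symm_apply_apply x
  have hφt : ∀ x : GaloisField 2 n, φ x * φ x = x := by
    intro x
    have := (frobeniusEquiv (GaloisField 2 n) 2).apply_symm_apply x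
    rw [frobeniusEquiv_apply, frobenius_def, pow_two] at this
    exact this
  have hστ' : σ = φ ∧ τ = φ := by
    have h1 : ∀ x, σ x * τ x = φ x * φ x := ht.mul_ext (by rw [hστ hb1, hφt])
    rcases eq_or_swap_of_mul_eq σ τ φ φ h1 with h2 | h2
    · exact h2
    · exact ⟨h2.1, h2.2⟩
  have hbf : ∀ X Y, b (X ^ 2) (Y ^ 2) = b₁ * (X * Y) := by
    intro X Y
    rw [hbm, hστ'.1, hστ'.2, hφ, hφ]
  -- the map `ψ`
  have hQc : ∀ x y : Q ⧸ fix α, x * y = y * x := by
    intro x y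
    obtain ⟨x, rfl⟩ := QuotientGroup.mk_surjective x
    obtain ⟨y, rfl⟩ := QuotientGroup.mk_surjective y
    rw [← commutatorElement_eq_one_iff_mul_comm]
    exact ((map_commutatorElement (QuotientGroup.mk' (fix α)) x y).symm.trans ((hmk1 _).2 (hcf x y)))
  have hwadd : ∀ u v, (QuotientGroup.mk (w (u + v)) : Q ⧸ fix α) = QuotientGroup.mk (w u) * QuotientGroup.mk (w v) := by
    intro u v
    change _ = (QuotientGroup.mk (w u * w v) : Q ⧸ fix α)
    rw [eq_comm, QuotientGroup.eq]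
    apply hWd _ (W.mul_mem (W.inv_mem (W.mul_mem (hw u) (hw v))) (hw _))
    rw [← pone, pmul]
    have h1 : p (w (u + v)) = p (w u * w v) := by
      rw [pmul]
      apply einj _ (pfix _) _ ((fix α).mul_mem (pfix _) (pfix _))
      rw [ea _ (pfix _) _ (pfix _), hwe, hwe, hwe]
    rw [h1, ← pmul, inv_mul_cancel, pone]
    exact one_mem _
  have hwadd' : ∀ u v, (QuotientGroup.mk (α (w (u + v))) : Q ⧸ fix α) = QuotientGroup.mk (α (w u)) * QuotientGroup.mk (α (w v)) := by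
    intro u v
    rw [← hα', ← hα', ← hα', ← map_mul, hwadd]
  let ψ : Multiplicative (GaloisField 2 n × GaloisField 2 n) →* Q ⧸ fix α :=
    MonoidHom.mk' (fun v => QuotientGroup.mk (w (v.toAdd.1 ^ 2)) * QuotientGroup.mk (α (w (v.toAdd.2 ^ 2)))) (by
      intro v v'
      have h1 : ∀ x y : GaloisField 2 n, (x + y) ^ 2 = x ^ 2 + y ^ 2 := fun x y => CharTwo.add_sq x y
      change (QuotientGroup.mk (w ((v.toAdd.1 + v'.toAdd.1) ^ 2)) * QuotientGroup.mk (α (w ((v.toAdd.2 + v'.toAdd.2) ^ 2))) : Q ⧸ fix α) =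
        QuotientGroup.mk (w (v.toAdd.1 ^ 2)) * QuotientGroup.mk (α (w (v.toAdd.2 ^ 2))) *
          (QuotientGroup.mk (w (v'.toAdd.1 ^ 2)) * QuotientGroup.mk (α (w (v'.toAdd.2 ^ 2))))
      rw [h1, h1, hwadd, hwadd', mul_assoc, mul_assoc]
      congr 1
      rw [← mul_assoc, ← mul_assoc, hQc (QuotientGroup.mk (w (v'.toAdd.1 ^ 2)))])
  have hψ : ∀ X Y, ψ (Multiplicative.ofAdd (X, Y)) = QuotientGroup.mk (w (X ^ 2) * α (w (Y ^ 2))) := fun X Y => rfl
  have hw0 : ∀ u, w u ∈ h.dd → u = 0 := by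
    intro u hu
    rw [← hwe u, (pone _).2 hu, e1]
  have hψi : Function.Injective ψ := by
    rw [injective_iff_map_eq_one]
    intro v hv
    obtain ⟨X, Y⟩ := v
    change ψ (Multiplicative.ofAdd (X, Y)) = 1 at hv
    rw [hψ, hmk1] at hv
    have h1 : dis α (w (Y ^ 2)) ∈ W := by
      have h2 : α (w (Y ^ 2)) ∈ W := by
        have h3 := W.mul_mem (W.inv_mem (hw (X ^ 2))) (hCW hv)
        rwa [inv_mul_cancel_left] at h3
      exact W.mul_mem (W.inv_mem (hw _)) h2
    have h2 : Y ^ 2 = 0 := by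
      apply hw0
      exact hWd _ h1 (hpp _)
    have h3 : X ^ 2 = 0 := by
      apply hw0
      have h4 : α (w (Y ^ 2)) ∈ h.dd := by
        rw [h2]
        apply h.dd_alpha
        rw [← pone]
        apply ei _ (pfix _)
        rw [hwe]
      have h5 := h.dd.mul_mem (h.fix_le_dd hv) (h.dd.inv_mem h4)
      rwa [mul_inv_cancel_right] at h5
    have h4 : X = 0 := pow_eq_zero_iff (two_ne_zero) |>.1 h3
    have h5 : Y = 0 := pow_eq_zero_iff (two_ne_zero) |>.1 h2
    rw [h4, h5]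
    rfl
  have hn0 : n ≠ 0 := by
    rintro rfl
    have := h.four
    rw [hq] at this
    norm_num at this
  have hF : Nat.card (GaloisField 2 n) = q := by rw [GaloisField.card 2 n hn0, hq]
  have hψb : Function.Bijective ψ := by
    rw [Nat.bijective_iff_injective_and_card]
    refine ⟨hψi, ?_⟩
    have h1 := card_quotient_mul (fix α)
    rw [h.card_fix, hcard, show q ^ 3 = q ^ 2 * q by ring] at h1
    have h2 : Nat.card (Q ⧸ fix α) = q ^ 2 := (Nat.eq_of_mul_eq_mul_right (by have := h.four; omega) h1).symm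
    rw [h2, Nat.card_congr Multiplicative.toAdd, Nat.card_prod, hF, pow_two]
  let Ψ : Multiplicative (GaloisField 2 n × GaloisField 2 n) ≃* Q ⧸ fix α := MulEquiv.ofBijective ψ hψb
  let π : Q →* Multiplicative (GaloisField 2 n × GaloisField 2 n) := Ψ.symm.toMonoidHom.comp (QuotientGroup.mk' (fix α))
  have hπ : ∀ x, ψ (π x) = QuotientGroup.mk x := fun x => Ψ.apply_symm_apply (QuotientGroup.mk x)
  have hπk : ∀ x, x ∈ π.ker ↔ x ∈ fix α := by
    intro x
    rw [MonoidHom.mem_ker, ← hmk1, ← hπ]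
    constructor
    · intro h1
      rw [h1, map_one]
    · intro h1
      exact hψi (h1.trans (map_one ψ).symm)
  let z : π.ker →* Multiplicative (GaloisField 2 n) :=
    { toFun := fun x => Multiplicative.ofAdd (e x)
      map_one' := congrArg Multiplicative.ofAdd e1
      map_mul' := fun x y => congrArg Multiplicative.ofAdd (ea x ((hπk x).1 x.2) y ((hπk y).1 y.2)) }
  have hz : Function.Bijective z := by
    constructor
    · intro x y hxy
      exact Subtype.ext (einj x ((hπk x).1 x.2) y ((hπk y).1 y.2) (Multiplicative.ofAdd.injective hxy))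
    · intro u
      exact ⟨⟨c u.toAdd, (hπk _).2 (hc _)⟩, congrArg Multiplicative.ofAdd (hce _)⟩
  refine ⟨e (w 1 * w 1), b₁, hb1, π, MulEquiv.ofBijective z hz, ?_, ?_, ?_⟩
  · exact Ψ.symm.surjective.comp (QuotientGroup.mk'_surjective _)
  · intro x hx
    exact hcen ((hπk x).1 hx)
  · intro x
    have h1 : x ^ 2 ∈ π.ker := by
      rw [hπk, pow_two]
      exact hsq x
    refine ⟨h1, ?_⟩
    change Multiplicative.ofAdd (e (x ^ 2)) = _
    congr 1
    obtain ⟨X, Y, hXY⟩ : ∃ X Y, π x = Multiplicative.ofAdd (X, Y) := ⟨(π x).toAdd.1, (π x).toAdd.2, rfl⟩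
    rw [hXY]
    change e (x ^ 2) = e (w 1 * w 1) * X ^ 2 + e (w 1 * w 1) * Y ^ 2 + b₁ * (X * Y)
    have h2 := hπ x
    rw [hXY, hψ, QuotientGroup.eq] at h2
    obtain ⟨s, hs, hse⟩ : ∃ s ∈ fix α, x = w (X ^ 2) * α (w (Y ^ 2)) * s := ⟨_, h2, by group⟩
    have h3 : x ^ 2 = ⁅w (X ^ 2), α (w (Y ^ 2))⁆ * ((w (X ^ 2) * w (X ^ 2)) * (w (Y ^ 2) * w (Y ^ 2))) := by
      have k1 : α (w (Y ^ 2)) * α (w (Y ^ 2)) = w (Y ^ 2) * w (Y ^ 2) := by
        rw [← map_mul]
        exact hsq (w (Y ^ 2))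
      rw [← k1, pow_two, hse]
      generalize hA : w (X ^ 2) = A
      generalize hB : α (w (Y ^ 2)) = B
      have k2 : B * A = ⁅A, B⁆ * (A * B) := by
        have k3 : A * B = ⁅A, B⁆ * (B * A) := by rw [commutatorElement_def]; group
        rw [k3, ← mul_assoc, h.sq_one (hcf A B), one_mul]
      calc A * B * s * (A * B * s) = A * B * (s * (A * B)) * s := by group
        _ = A * B * (A * B * s) * s := by rw [hcomc s hs (A * B)]
        _ = A * (B * A) * B * (s * s) := by group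
        _ = A * (⁅A, B⁆ * (A * B)) * B := by rw [k2, h.sq_one hs, mul_one]
        _ = (A * ⁅A, B⁆) * A * B * B := by group
        _ = (⁅A, B⁆ * A) * A * B * B := by rw [hcomc _ (hcf A B) A]
        _ = _ := by group
    have key' : ∀ x ∈ W, ∀ y ∈ W, e ⁅x, α y⁆ = b (e (p x)) (e (p (α y))) := fun x hx y hy =>
      key x hx (α y) ⟨y, hy, rfl⟩
    rw [h3, ea _ (hcf _ _) _ ((fix α).mul_mem (hsq _) (hsq _)), ea _ (hsq _) _ (hsq _),
      key' _ (hw _) _ (hw _), palpha, hwe, hwe, hbf, hsqW _ (hw (X ^ 2)), hsqW _ (hw (Y ^ 2)), hwe, hwe]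
    ring

end Hyp

end Cfsg.Agent.H300.Singer
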