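import Cfsg.Agent.H300.SporBase
import Cfsg.Agent.StdAlt.Six.AutLemmas

/-!
# Groups acting on `A_6` with odd kernel (helper300)

`x` an involutory automorphism of `X` with `C_X(x)` acting on `A_6` with odd kernel: the sectional 2-rank of `X` is at
most four, or an involution `s` of `C_X(x)` acts as the transposition `(4 5)`.
-/

set_option autoImplicit false

namespace Cfsg.Agent.H300.SixRow

open Subgroup Cfsg Cfsg.Agent Cfsg.Agent.H300.SporBase
open Equiv Equiv.Perm
open Cfsg.Agent.StdAlt.Six (A6 NS Z0 A0 B0 F0 C0 D0 z0 a0 b0 f0 c0 d0 s45)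

universe u

/-- the involution `s` of `C` acts as the transposition `(4 5)` -/
structure Six {C : Type u} [Group C] (S : Act C A6) (s : C) : Prop where
  ss : s * s = 1
  act : ∀ p : A6, ((S.φ s p : A6) : Perm (Fin 6)) = s45 * p * s45

namespace Six

variable {C : Type u} [Group C] [Finite C] {S : Act C A6} {s : C} (h : Six S s)

include h

theorem ne_one : s ≠ 1 := by
  intro h1
  have h2 := h.act C0
  rw [h1, map_one, MulAut.one_apply] at h2
  have h3 := h.act D0
  rw [h1, map_one, MulAut.one_apply] at h3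
  revert h3
  exact (by decide +kernel : ¬ d0 = s45 * d0 * s45)

theorem isPGroup : IsPGroup 2 ↥(zpowers s) := by
  have h1 : orderOf s ∣ 2 ^ 1 := orderOf_dvd_of_pow_eq_one (by rw [pow_one, pow_two, h.ss])
  obtain ⟨j, -, hj⟩ := (Nat.dvd_prime_pow Nat.prime_two).1 h1
  exact IsPGroup.of_card (n := j) (by rw [Nat.card_zpowers, hj])

theorem fix {p : A6} (hp : s45 * (p : Perm (Fin 6)) = p * s45) : ∀ r ∈ zpowers s, S.φ r p = p := by
  have h1 : S.φ s p = p := by
    apply Subtype.ext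
    rw [h.act, hp, mul_assoc, show s45 * s45 = 1 from by decide +kernel, mul_one]
  intro r hr
  obtain ⟨n, rfl⟩ := mem_zpowers_iff.1 hr
  have h2 : S.φ s ∈ MulAction.stabilizer (MulAut A6) p := h1
  rw [map_zpow]
  exact zpow_mem h2 n

/-- the elements of `A_6` commuting with `(4 5)` lift to elements commuting with `s` -/
theorem exists_lift {p : A6} (hp : s45 * (p : Perm (Fin 6)) = p * s45) :
    ∃ a : ↥S.A, S.π a = p ∧ s * (a : C) = a * s := by
  obtain ⟨a, h1, h2⟩ := S.exists_fix _ h.isPGroup (h.fix hp)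
  exact ⟨a, h1, h2 s (mem_zpowers s)⟩

/-- 2-elements lift to elements of the same order -/
theorem exists_lift_pow {p : A6} (hp : s45 * (p : Perm (Fin 6)) = p * s45) {k : ℕ} (hk : p ^ 2 ^ k = 1) :
    ∃ a : ↥S.A, S.π a = p ∧ a ^ 2 ^ k = 1 ∧ s * (a : C) = a * s := by
  obtain ⟨a, h1, h2, h3⟩ := S.exists_fix_pow _ h.isPGroup (h.fix hp) (by positivity) (S.coprime_two_pow k) hk
  exact ⟨a, h1, h2, h3 s (mem_zpowers s)⟩

/-- the lift of `f0` : an element of order four of `A` commuting with `s` -/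
theorem exists_four : ∃ f : C, f ∈ S.A ∧ f ^ 4 = 1 ∧ f * f ≠ 1 ∧ s * f = f * s ∧ f * f ≠ s := by
  obtain ⟨a, h1, h2, h3⟩ := h.exists_lift_pow (p := F0) (k := 2) (by decide +kernel : s45 * f0 = f0 * s45)
    (Subtype.ext (by decide +kernel : f0 ^ 2 ^ 2 = 1))
  have h4 : ∀ b : ↥S.A, b = a * a → S.π b = F0 * F0 := by
    rintro b rfl
    rw [map_mul, h1]
  refine ⟨a, a.2, congrArg Subtype.val h2, ?_, h3, ?_⟩
  · intro h5
    have h6 := h4 1 (Subtype.ext h5.symm)
    rw [map_one] at h6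
    exact absurd (congrArg Subtype.val h6) (by decide +kernel : ¬ (1 : Perm (Fin 6)) = f0 * f0)
  · intro h5
    have h6 : S.φ s = MulAut.conj (F0 * F0) := by
      rw [← h5, ← Subgroup.coe_mul, S.phi_coe, map_mul, h1]
    have h7 := h.act C0
    rw [h6] at h7
    exact absurd h7 (by decide +kernel : ¬ f0 * f0 * c0 * (f0 * f0)⁻¹ = s45 * c0 * s45)

/-- the lift of `c0` : an element commuting with `s`, of order divisible by three -/
theorem exists_three : ∃ c : C, c ∈ S.A ∧ s * c = c * s ∧ ∀ k : ℕ, c ^ 2 ^ k ≠ 1 := by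
  obtain ⟨a, h1, h3⟩ := h.exists_lift (p := C0) (by decide +kernel : s45 * c0 = c0 * s45)
  refine ⟨a, a.2, h3, fun k hk => ?_⟩
  have h4 : a ^ 2 ^ k = 1 := Subtype.ext hk
  have h5 : C0 ^ 2 ^ k = 1 := by rw [← h1, ← map_pow, h4, map_one]
  have h6 : C0 ^ 3 = 1 := by
    rw [pow_succ, pow_two]
    exact StdAlt.Six.C0_cube
  have h7 := orderOf_dvd_of_pow_eq_one h5
  have h8 := orderOf_dvd_of_pow_eq_one h6
  have h9 : (2 ^ k).Coprime 3 := (show Nat.Coprime 2 3 by norm_num).pow_left k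
  exact StdAlt.Six.C0_ne (orderOf_eq_one_iff.1 (Nat.eq_one_of_dvd_coprimes h9 h7 h8))

/-- the lifts of `a0, z0` : a four-group of `A` commuting with `s`, not containing `s` -/
theorem exists_two : ∃ v w : C, v ∈ S.A ∧ w ∈ S.A ∧ v * v = 1 ∧ w * w = 1 ∧ v * w = w * v ∧ s * v = v * s ∧
    s * w = w * s ∧ v ≠ 1 ∧ w ≠ 1 ∧ v ≠ w ∧ v ≠ s ∧ w ≠ s ∧ v * w ≠ s := by
  obtain ⟨a, h1, h2, h3⟩ := h.exists_lift_pow (p := A0) (k := 1) (by decide +kernel : s45 * a0 = a0 * s45)
    (Subtype.ext (by decide +kernel : a0 ^ 2 ^ 1 = 1))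
  have haa : (a : C) * a = 1 := by
    have := congrArg Subtype.val h2
    rwa [pow_one, pow_two] at this
  -- the group generated by `a` and `s`
  let V := H284.RankFix.four (a : C) s haa h.ss h3.symm
  have hV : IsPGroup 2 ↥V := by
    rintro ⟨v, hv⟩
    exact ⟨1, Subtype.ext (by rw [pow_one, pow_two]; exact H284.RankFix.sq_four v hv)⟩
  have hs : S.φ s Z0 = Z0 := h.fix (by decide +kernel : s45 * z0 = z0 * s45) s (mem_zpowers s)
  have ha : S.φ (a : C) Z0 = Z0 := by
    rw [S.phi_coe, h1, MulAut.conj_apply, StdAlt.Six.A0_Z0, mul_inv_cancel_right]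
  obtain ⟨b, h4, h5, h6⟩ := S.exists_fix_pow V hV (p := Z0) (by
    intro r hr
    rcases hr with rfl | rfl | rfl | rfl
    · rw [map_one, MulAut.one_apply]
    · exact ha
    · exact hs
    · rw [map_mul, MulAut.mul_apply, hs, ha]) two_ne_zero (S.coprime_two_pow 1) (by rw [pow_two, StdAlt.Six.Z0_sq])
  have hbb : (b : C) * b = 1 := by
    have := congrArg Subtype.val h5
    rwa [Subgroup.coe_pow, pow_two] at this
  have hab : (a : C) * b = b * a := h6 a (Or.inr (Or.inl rfl))
  have hsb : s * b = b * s := h6 s (Or.inr (Or.inr (Or.inl rfl)))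
  -- `s` is not in `V`
  have hns : ∀ c : ↥S.A, (c : C) ≠ s := by
    intro c hc
    have e1 : MulAut.conj (S.π c) = S.φ s := by rw [← S.phi_coe, hc]
    have e2 : ∀ p : Perm (Fin 6), (∀ q : A6, p * q * p⁻¹ = s45 * q * s45) → p ∉ alternatingGroup (Fin 6) := by
      intro p hp hpe
      have e3 : ∀ q : Perm (Fin 6), q ∈ alternatingGroup (Fin 6) → (s45 * p) * q = q * (s45 * p) := by
        intro q hq
        have e4 := hp ⟨q, hq⟩
        have e5 : p * q = s45 * q * s45 * p := by rw [← e4]; group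
        calc s45 * p * q = s45 * (p * q) := by group
          _ = s45 * (s45 * q * s45 * p) := by rw [e5]
          _ = (s45 * s45) * q * (s45 * p) := by group
          _ = q * (s45 * p) := by rw [show s45 * s45 = 1 from by decide +kernel, one_mul]
      have e6 : s45 * p = 1 := by
        have : ∀ r : Perm (Fin 6), r * f0 = f0 * r → r * c0 = c0 * r → r * d0 = d0 * r → r = 1 := by decide +kernel
        exact this _ (e3 _ StdAlt.Six.f0_mem) (e3 _ StdAlt.Six.c0_mem) (e3 _ StdAlt.Six.d0_mem)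
      have e7 : p = s45 := by
        have e8 : s45 * (s45 * p) = p := by
          rw [← mul_assoc, show s45 * s45 = 1 from by decide +kernel, one_mul]
        rw [← e8, e6, mul_one]
      rw [e7, Equiv.Perm.mem_alternatingGroup] at hpe
      exact absurd hpe (by decide +kernel : ¬ Perm.sign s45 = 1)
    refine e2 (S.π c) ?_ (S.π c).2
    intro q
    have e3 := congrArg (fun t : MulAut A6 => ((t q : A6) : Perm (Fin 6))) e1
    refine Eq.trans ?_ (e3.trans (h.act q))
    rfl
  refine ⟨a, b, a.2, b.2, haa, hbb, hab, h3, hsb, ?_, ?_, ?_, hns a, hns b, ?_⟩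
  · intro e
    apply StdAlt.Six.A0_ne
    rw [← h1, show a = 1 from Subtype.ext e, map_one]
  · intro e
    apply StdAlt.Six.Z0_ne
    rw [← h4, show b = 1 from Subtype.ext e, map_one]
  · intro e
    apply StdAlt.Six.A0_ne_Z0
    rw [← h1, ← h4, show a = b from Subtype.ext e]
  · exact hns (a * b)

end Six

theorem cent_V : ∀ σ : Perm (Fin 6), σ * a0 = a0 * σ → σ * z0 = z0 * σ →
    (σ = 1 ∨ σ = a0 ∨ σ = z0 ∨ σ = a0 * z0) ∨ (s45 * σ = 1 ∨ s45 * σ = a0 ∨ s45 * σ = z0 ∨ s45 * σ = a0 * z0) := by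
  decide +kernel

/-- **the dichotomy** -/
theorem dich {X : Type u} [Group X] [Finite X] {x : MulAut X} (hxx : x * x = 1) (hx1 : x ≠ 1)
    (S : Act ↥(fixedSubgroup x) A6) : SectionalPRankLE 2 4 X ∨ ∃ s : ↥(fixedSubgroup x), Six S s := by
  by_cases hP : ∀ g : ↥(fixedSubgroup x), (∃ k : ℕ, g ^ 2 ^ k = 1) → S.φ g A0 = A0 → S.φ g Z0 = Z0 →
      ∃ c ∈ H284.RankFix.four A0 Z0 StdAlt.Six.A0_sq StdAlt.Six.Z0_sq StdAlt.Six.A0_Z0, S.φ g = MulAut.conj c
  · exact Or.inl (rank_of_act hxx hx1 S _ _ _ StdAlt.Six.A0_ne StdAlt.Six.Z0_ne StdAlt.Six.A0_ne_Z0 hP)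
  · right
    push Not at hP
    obtain ⟨g, ⟨k, hk⟩, hga, hgz, hn⟩ := hP
    obtain ⟨σ, hσ⟩ := StdAlt.Six.ns_of_a0 hgz (Or.inl hga)
    have hcomm : ∀ p : A6, S.φ g p = p → σ * (p : Perm (Fin 6)) = p * σ := by
      intro p hp
      have h1 := hσ p
      rw [hp] at h1
      exact (eq_mul_inv_iff_mul_eq.1 h1).symm
    -- a general fact
    have hmk : ∀ (v : A6), σ = v → v ∈ H284.RankFix.four A0 Z0 StdAlt.Six.A0_sq StdAlt.Six.Z0_sq StdAlt.Six.A0_Z0 → False := by
      intro v hv hm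
      apply hn v hm
      ext p
      rw [hσ, hv]
      rfl
    have hmk2 : ∀ (v : A6), s45 * σ = v → S.φ g v = v → v * v = 1 → ∃ s : ↥(fixedSubgroup x), Six S s := by
      intro v hv hgv hvv
      have hR : IsPGroup 2 ↥(zpowers g) := by
        have h1 : orderOf g ∣ 2 ^ k := orderOf_dvd_of_pow_eq_one hk
        obtain ⟨j, -, hj⟩ := (Nat.dvd_prime_pow Nat.prime_two).1 h1
        exact IsPGroup.of_card (n := j) (by rw [Nat.card_zpowers, hj])
      obtain ⟨a, h1, h2, h3⟩ := S.exists_fix_pow _ hR (p := v) (by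
        intro r hr
        obtain ⟨n, rfl⟩ := mem_zpowers_iff.1 hr
        have h2 : S.φ g ∈ MulAction.stabilizer (MulAut A6) v := hgv
        rw [map_zpow]
        exact zpow_mem h2 n) two_ne_zero (S.coprime_two_pow 1) (by rw [pow_two, hvv])
      have haa : (a : ↥(fixedSubgroup x)) * a = 1 := by
        have := congrArg Subtype.val h2
        rwa [Subgroup.coe_pow, pow_two] at this
      have hga' : g * (a : ↥(fixedSubgroup x)) = a * g := h3 g (mem_zpowers g)
      have hact : ∀ p : A6, ((S.φ (g * a) p : A6) : Perm (Fin 6)) = s45 * p * s45 := by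
        intro p
        have e1 : σ = s45 * v := by
          rw [← hv, ← mul_assoc, show s45 * s45 = 1 from by decide +kernel, one_mul]
        have e2 : ((S.φ (g * a) p : A6) : Perm (Fin 6)) = σ * (v * p * (v : Perm (Fin 6))⁻¹) * σ⁻¹ := by
          rw [map_mul, MulAut.mul_apply, hσ, S.phi_coe, h1]
          rfl
        have e3 : (v : Perm (Fin 6)) * v = 1 := congrArg Subtype.val hvv
        have e4 : (v : Perm (Fin 6))⁻¹ = v := inv_eq_of_mul_eq_one_left e3
        have e5 : s45⁻¹ = s45 := by decide +kernel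
        rw [e2, e1, mul_inv_rev, e4, e5]
        calc s45 * v * (v * p * v) * (v * s45) = s45 * ((v : Perm (Fin 6)) * v) * p * (v * v) * s45 := by group
          _ = s45 * p * s45 := by rw [e3, mul_one, mul_one]
      refine ⟨g * a, ?_, hact⟩
      apply S.sq_eq_one (k := k + 1)
      · refine MulEquiv.ext fun p => Subtype.ext ?_
        rw [MulAut.mul_apply, hact, hact]
        have e3 : s45 * s45 = 1 := by decide +kernel
        calc (s45 * (s45 * (p : Perm (Fin 6)) * s45) * s45 : Perm (Fin 6)) = (s45 * s45) * p * (s45 * s45) := by group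
          _ = p := by rw [e3, one_mul, mul_one]
      · have h4 : Commute g (a : ↥(fixedSubgroup x)) := hga'
        rw [h4.mul_pow, pow_succ 2 k, pow_mul g, hk, one_pow, one_mul, mul_comm (2 ^ k), pow_mul, pow_two (a : ↥(fixedSubgroup x)),
          haa, one_pow]
    rcases cent_V σ (hcomm A0 hga) (hcomm Z0 hgz) with (h | h | h | h) | (h | h | h | h)
    · exact (hmk 1 h (Or.inl rfl)).elim
    · exact (hmk A0 h (Or.inr (Or.inl rfl))).elim
    · exact (hmk Z0 h (Or.inr (Or.inr (Or.inl rfl)))).elim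
    · exact (hmk (A0 * Z0) h (Or.inr (Or.inr (Or.inr rfl)))).elim
    · exact hmk2 1 h (map_one _) (mul_one 1)
    · exact hmk2 A0 h hga StdAlt.Six.A0_sq
    · exact hmk2 Z0 h hgz StdAlt.Six.Z0_sq
    · exact hmk2 (A0 * Z0) h (by rw [map_mul, hga, hgz]) (by
        calc A0 * Z0 * (A0 * Z0) = A0 * (Z0 * A0) * Z0 := by group
          _ = A0 * (A0 * Z0) * Z0 := by rw [StdAlt.Six.A0_Z0]
          _ = (A0 * A0) * (Z0 * Z0) := by group
          _ = 1 := by rw [StdAlt.Six.A0_sq, StdAlt.Six.Z0_sq, mul_one])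

end Cfsg.Agent.H300.SixRow
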